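import Mathlib

/-!
# CALL S1906 piece VA (helper46, double)

In a nonabelian `P` acting faithfully, a central involution is `± 1` on the invariant plane `W`.
-/

set_option autoImplicit false

namespace Cfsg.Agent.Helper46.S1906P

variable {F : Type*} [Field F] {V : Type*} [AddCommGroup V] [Module F V] {P : Type*} [Group P]

theorem s1906_va (h2 : (2 : F) ≠ 0) (ρ : Representation F P V)
    (hfaith : ∀ x : P, (∀ v : V, ρ x v = v) → x = 1)
    (L W : Submodule F V) (hL1 : Module.finrank F L = 1) (hLW : IsCompl L W)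
    (hL : ∀ x : P, ∀ v ∈ L, ρ x v ∈ L) (hW : ∀ x : P, ∀ v ∈ W, ρ x v ∈ W)
    (d : P) (v₁ v₂ : V) (h1W : v₁ ∈ W) (h2W : v₂ ∈ W) (h10 : v₁ ≠ 0) (h20 : v₂ ≠ 0)
    (hd1 : ρ d v₁ = -v₁) (hd2 : ρ d v₂ = v₂)
    (hspan : ∀ v ∈ W, ∃ c₁ c₂ : F, v = c₁ • v₁ + c₂ • v₂)
    (hnab : ¬ ∀ x y : P, x * y = y * x)
    (t : P) (htc : ∀ x : P, t * x = x * t) (ht2 : t * t = 1) :
    (∀ v ∈ W, ρ t v = v) ∨ (∀ v ∈ W, ρ t v = -v) := by
  have hmul : ∀ x y : P, ∀ v : V, ρ (x * y) v = ρ x (ρ y v) := by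
    intro x y v
    rw [map_mul]; rfl
  have hone : ∀ v : V, ρ 1 v = v := by
    intro v; rw [map_one]; rfl
  have htx : ∀ x : P, ∀ v : V, ρ t (ρ x v) = ρ x (ρ t v) := by
    intro x v
    rw [← hmul, ← hmul, htc]
  -- Step 1: `v₁`, `v₂` are eigenvectors of `ρ t`
  obtain ⟨e₁, he₁⟩ : ∃ e₁ : F, ρ t v₁ = e₁ • v₁ := by
    obtain ⟨c₁, c₂, hc⟩ := hspan _ (hW t v₁ h1W)
    have h := htx d v₁
    rw [hd1, map_neg, hc, map_add, map_smul, map_smul, hd1, hd2] at h
    have h' : (2 * c₂) • v₂ = 0 := by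
      have h3 : (2 * c₂) • v₂ = (c₁ • -v₁ + c₂ • v₂) + (c₁ • v₁ + c₂ • v₂) := by
        rw [smul_neg]; module
      rw [h3, ← h]; abel
    rcases smul_eq_zero.1 h' with h0 | h0
    · have hc2 : c₂ = 0 := by simpa [h2] using h0
      exact ⟨c₁, by rw [hc, hc2]; simp⟩
    · exact absurd h0 h20
  obtain ⟨e₂, he₂⟩ : ∃ e₂ : F, ρ t v₂ = e₂ • v₂ := by
    obtain ⟨c₁, c₂, hc⟩ := hspan _ (hW t v₂ h2W)
    have h := htx d v₂
    rw [hd2, hc, map_add, map_smul, map_smul, hd1, hd2] at h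
    have h' : (2 * c₁) • v₁ = 0 := by
      have h3 : (2 * c₁) • v₁ = (c₁ • v₁ + c₂ • v₂) - (c₁ • -v₁ + c₂ • v₂) := by
        rw [smul_neg]; module
      rw [h3, ← h, sub_self]
    rcases smul_eq_zero.1 h' with h0 | h0
    · have hc1 : c₁ = 0 := by simpa [h2] using h0
      exact ⟨c₂, by rw [hc, hc1]; simp⟩
    · exact absurd h0 h10
  -- Step 2: eigenvalues are `± 1`
  have hsq : ∀ (e : F) (v : V), v ≠ 0 → ρ t v = e • v → e = 1 ∨ e = -1 := by
    intro e v hv he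
    have h := hmul t t v
    rw [ht2, hone, he, map_smul, he, smul_smul] at h
    have h' : (e * e - 1) • v = 0 := by
      rw [sub_smul, one_smul, ← h, sub_self]
    rcases smul_eq_zero.1 h' with h0 | h0
    · have h3 : (e - 1) * (e + 1) = 0 := by linear_combination h0
      rcases mul_eq_zero.1 h3 with h1 | h1
      · left; linear_combination h1
      · right; linear_combination h1
    · exact absurd h0 hv
  have hW_eq : ∀ e : F, e₁ = e → e₂ = e → ∀ v ∈ W, ρ t v = e • v := by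
    intro e h1 h2' v hv
    obtain ⟨c₁, c₂, hc⟩ := hspan v hv
    rw [hc, map_add, map_smul, map_smul, he₁, he₂, h1, h2']
    module
  have hmixed : e₁ ≠ e₂ → False := by
    intro hne
    apply hnab
    have hx1 : ∀ x : P, ∃ a : F, ρ x v₁ = a • v₁ := by
      intro x
      obtain ⟨a, b, hab⟩ := hspan _ (hW x v₁ h1W)
      have h := htx x v₁
      rw [he₁, map_smul, hab, map_add, map_smul, map_smul, he₁, he₂] at h
      have h' : (b * (e₂ - e₁)) • v₂ = 0 := by
        have h3 : (b * (e₂ - e₁)) • v₂ =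
            (a • e₁ • v₁ + b • e₂ • v₂) - e₁ • (a • v₁ + b • v₂) := by module
        rw [h3, h, sub_self]
      rcases smul_eq_zero.1 h' with h0 | h0
      · rcases mul_eq_zero.1 h0 with hb | hb
        · exact ⟨a, by rw [hab, hb]; simp⟩
        · exact absurd (sub_eq_zero.1 hb).symm hne
      · exact absurd h0 h20
    have hx2 : ∀ x : P, ∃ b : F, ρ x v₂ = b • v₂ := by
      intro x
      obtain ⟨a, b, hab⟩ := hspan _ (hW x v₂ h2W)
      have h := htx x v₂
      rw [he₂, map_smul, hab, map_add, map_smul, map_smul, he₁, he₂] at h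
      have h' : (a * (e₁ - e₂)) • v₁ = 0 := by
        have h3 : (a * (e₁ - e₂)) • v₁ =
            (a • e₁ • v₁ + b • e₂ • v₂) - e₂ • (a • v₁ + b • v₂) := by module
        rw [h3, h, sub_self]
      rcases smul_eq_zero.1 h' with h0 | h0
      · rcases mul_eq_zero.1 h0 with ha | ha
        · exact ⟨b, by rw [hab, ha]; simp⟩
        · exact absurd (sub_eq_zero.1 ha) hne
      · exact absurd h0 h10
    obtain ⟨ℓ, hℓL, hℓspan⟩ : ∃ ℓ ∈ L, ∀ v ∈ L, ∃ c : F, v = c • ℓ := by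
      obtain ⟨ℓ', _, hℓ'⟩ := (finrank_eq_one_iff' (K := F) (V := L)).1 hL1
      refine ⟨ℓ'.1, ℓ'.2, ?_⟩
      intro v hv
      obtain ⟨c, hc⟩ := hℓ' ⟨v, hv⟩
      exact ⟨c, by have := congrArg Subtype.val hc; simpa using this.symm⟩
    have hx3 : ∀ x : P, ∃ c : F, ρ x ℓ = c • ℓ := fun x => hℓspan _ (hL x ℓ hℓL)
    intro x y
    have key : ∀ u : V, (∃ a : F, ρ x u = a • u) → (∃ b : F, ρ y u = b • u) →
        ρ (x * y) u = ρ (y * x) u := by
      rintro u ⟨a, ha⟩ ⟨b, hb⟩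
      rw [hmul, hmul, hb, ha, map_smul, map_smul, ha, hb, smul_smul, smul_smul, mul_comm b a]
    have hall : ∀ v : V, ρ (x * y) v = ρ (y * x) v := by
      intro v
      have hv : v ∈ L ⊔ W := by rw [hLW.sup_eq_top]; trivial
      obtain ⟨l, hl, w, hw, rfl⟩ := Submodule.mem_sup.1 hv
      obtain ⟨c, rfl⟩ := hℓspan l hl
      obtain ⟨c₁, c₂, rfl⟩ := hspan w hw
      simp only [map_add, map_smul]
      rw [key ℓ (hx3 x) (hx3 y), key v₁ (hx1 x) (hx1 y), key v₂ (hx2 x) (hx2 y)]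
    have h1 : (y * x)⁻¹ * (x * y) = 1 := by
      apply hfaith
      intro v
      rw [hmul, hall, ← hmul, inv_mul_cancel, hone]
    calc x * y = (y * x) * ((y * x)⁻¹ * (x * y)) := by group
      _ = y * x := by rw [h1, mul_one]
  rcases hsq e₁ v₁ h10 he₁ with h1 | h1 <;> rcases hsq e₂ v₂ h20 he₂ with h2' | h2'
  · left; intro v hv; rw [hW_eq 1 h1 h2' v hv, one_smul]
  · exfalso
    apply hmixed
    rw [h1, h2']
    intro h
    apply h2
    linear_combination h
  · exfalso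
    apply hmixed
    rw [h1, h2']
    intro h
    apply h2
    linear_combination -h
  · right; intro v hv; rw [hW_eq (-1) h1 h2' v hv]; simp

end Cfsg.Agent.Helper46.S1906P
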