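import Mathlib
import Cfsg.Agent.Helper40.KGLDefs
import Cfsg.Agent.Helper40.KSLDefs

/-!
# Helper46: diagonal maps on a primary decomposition (CALL S2479, shared by pieces B4 and B8b)
-/

set_option autoImplicit false

namespace Cfsg.Agent.Helper46

open Polynomial Cfsg.Agent.Helper40.KGL Cfsg.Agent.Helper40.KSL
open scoped DirectSum
open Classical

universe u v

/-- the determinant of a dependent block diagonal matrix -/
theorem ksl_det_blockDiagonal' {R : Type*} [CommRing R] {o : Type*} [Fintype o] [DecidableEq o]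
    {m' : o → Type*} [∀ i, Fintype (m' i)] [∀ i, DecidableEq (m' i)]
    (d : ∀ i, Matrix (m' i) (m' i) R) :
    (Matrix.blockDiagonal' d).det = ∏ i, (d i).det := by
  let _ : LinearOrder o := LinearOrder.lift' (Fintype.equivFin o) (Fintype.equivFin o).injective
  rw [(Matrix.blockTriangular_blockDiagonal' d).det_fintype]
  apply Finset.prod_congr rfl
  intro k _
  rw [← Matrix.det_submatrix_equiv_self (Equiv.sigmaSubtype k).symm]
  congr 1
  ext i j
  exact Matrix.blockDiagonal'_apply_eq d k i j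

/-- the determinant of a diagonal map on a dependent product (dependent version of
`LinearMap.det_pi`) -/
theorem ksl_det_pi {R : Type*} [CommRing R] {ι : Type*} [Fintype ι] {M : ι → Type*}
    [∀ i, AddCommGroup (M i)] [∀ i, Module R (M i)] [∀ i, Module.Free R (M i)]
    [∀ i, Module.Finite R (M i)] (f : ∀ i, M i →ₗ[R] M i) :
    LinearMap.det (LinearMap.pi (fun i => (f i).comp (LinearMap.proj i))) =
      ∏ i, LinearMap.det (f i) := by
  let b := fun i => Module.Free.chooseBasis R (M i)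
  have key : LinearMap.toMatrix (Pi.basis b) (Pi.basis b)
      (LinearMap.pi (fun i => (f i).comp (LinearMap.proj i))) =
      Matrix.blockDiagonal' (fun i => LinearMap.toMatrix (b i) (b i) (f i)) := by
    ext ⟨i₁, i₂⟩ ⟨j₁, j₂⟩
    rw [LinearMap.toMatrix_apply, Matrix.blockDiagonal'_apply, Pi.basis_apply, Pi.basis_repr,
      LinearMap.pi_apply, LinearMap.comp_apply, LinearMap.proj_apply]
    by_cases h : i₁ = j₁
    · subst h
      rw [dif_pos rfl, Pi.single_eq_same, LinearMap.toMatrix_apply]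
      rfl
    · rw [dif_neg h, Pi.single_eq_of_ne h, map_zero, map_zero]
      rfl
  rw [← LinearMap.det_toMatrix (Pi.basis b), key, ksl_det_blockDiagonal']
  apply Finset.prod_congr rfl
  intro i _
  rw [LinearMap.det_toMatrix]

theorem ksl_finite {F : Type u} [Field F] (f : F[X]) (hf : f.Monic) :
    Module.Finite F (F[X] ⧸ Submodule.span F[X] {f}) :=
  hf.finite_quotient

section diag

variable {F : Type u} [Field F] {ι : Type u} [Fintype ι] (p : ι → F[X]) (e : ι → ℕ)

/-- the diagonal map: multiplication by `H i` on the `i`-th factor -/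
noncomputable def kslD (H : ι → F[X]) :
    (∀ i, F[X] ⧸ Submodule.span F[X] {p i ^ e i}) →ₗ[F]
      (∀ i, F[X] ⧸ Submodule.span F[X] {p i ^ e i}) :=
  LinearMap.pi (fun i => (mulQ (p i ^ e i) (H i)).comp (LinearMap.proj i))

omit [Fintype ι] in
theorem kslD_apply (H : ι → F[X]) (y : ∀ i, F[X] ⧸ Submodule.span F[X] {p i ^ e i}) (i : ι) :
    kslD p e H y i = H i • y i := rfl

theorem ksl_det_D (hp : ∀ i, (p i).Monic) (H : ι → F[X]) :
    LinearMap.det (kslD p e H) = ∏ i, LinearMap.det (mulQ (p i ^ e i) (H i)) := by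
  have : ∀ i, Module.Finite F (F[X] ⧸ Submodule.span F[X] {p i ^ e i}) :=
    fun i => ksl_finite _ ((hp i).pow _)
  exact ksl_det_pi _

omit [Fintype ι] in
theorem kslD_comm (H K : ι → F[X]) (y : ∀ i, F[X] ⧸ Submodule.span F[X] {p i ^ e i}) :
    kslD p e H (kslD p e K y) = kslD p e K (kslD p e H y) := by
  funext i
  rw [kslD_apply, kslD_apply, kslD_apply, kslD_apply, smul_comm]

/-- the `F`-linear identification of `F^n` with the product of the primary quotients -/
noncomputable def kslPsi {n : ℕ} (g : Matrix (Fin n) (Fin n) F)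
    (ψ : Module.AEval' (Matrix.toLin' g) ≃ₗ[F[X]]
      ⨁ i, F[X] ⧸ Submodule.span F[X] {p i ^ e i}) :
    (Fin n → F) ≃ₗ[F] (∀ i, F[X] ⧸ Submodule.span F[X] {p i ^ e i}) :=
  (Module.AEval'.of (Matrix.toLin' g)).trans ((ψ.restrictScalars F).trans
    (DirectSum.linearEquivFunOnFintype F ι (fun i => F[X] ⧸ Submodule.span F[X] {p i ^ e i})))

theorem kslPsi_apply {n : ℕ} (g : Matrix (Fin n) (Fin n) F)
    (ψ : Module.AEval' (Matrix.toLin' g) ≃ₗ[F[X]]
      ⨁ i, F[X] ⧸ Submodule.span F[X] {p i ^ e i}) (v : Fin n → F) (i : ι) :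
    kslPsi p e g ψ v i = ψ (Module.AEval'.of (Matrix.toLin' g) v) i := rfl

/-- `g` corresponds to multiplication by `X` -/
theorem kslPsi_toLin {n : ℕ} (g : Matrix (Fin n) (Fin n) F)
    (ψ : Module.AEval' (Matrix.toLin' g) ≃ₗ[F[X]]
      ⨁ i, F[X] ⧸ Submodule.span F[X] {p i ^ e i}) (v : Fin n → F) :
    kslPsi p e g ψ (Matrix.toLin' g v) = kslD p e (fun _ => X) (kslPsi p e g ψ v) := by
  funext i
  rw [kslD_apply, kslPsi_apply, kslPsi_apply, ← Module.AEval'.X_smul_of, map_smul,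
    DirectSum.smul_apply]

/-- the endomorphism of `F^n` corresponding to a diagonal map -/
noncomputable def kslC {n : ℕ} (g : Matrix (Fin n) (Fin n) F)
    (ψ : Module.AEval' (Matrix.toLin' g) ≃ₗ[F[X]]
      ⨁ i, F[X] ⧸ Submodule.span F[X] {p i ^ e i}) (H : ι → F[X]) :
    (Fin n → F) →ₗ[F] (Fin n → F) :=
  ((kslPsi p e g ψ).symm : (∀ i, F[X] ⧸ Submodule.span F[X] {p i ^ e i}) →ₗ[F] (Fin n → F)) ∘ₗ
    kslD p e H ∘ₗ ((kslPsi p e g ψ : (Fin n → F) ≃ₗ[F] _).symm.symm :
      (Fin n → F) →ₗ[F] (∀ i, F[X] ⧸ Submodule.span F[X] {p i ^ e i}))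

theorem kslC_apply {n : ℕ} (g : Matrix (Fin n) (Fin n) F)
    (ψ : Module.AEval' (Matrix.toLin' g) ≃ₗ[F[X]]
      ⨁ i, F[X] ⧸ Submodule.span F[X] {p i ^ e i}) (H : ι → F[X]) (v : Fin n → F) :
    kslC p e g ψ H v = (kslPsi p e g ψ).symm (kslD p e H (kslPsi p e g ψ v)) := rfl

theorem ksl_det_C {n : ℕ} (g : Matrix (Fin n) (Fin n) F)
    (ψ : Module.AEval' (Matrix.toLin' g) ≃ₗ[F[X]]
      ⨁ i, F[X] ⧸ Submodule.span F[X] {p i ^ e i}) (hp : ∀ i, (p i).Monic) (H : ι → F[X]) :
    LinearMap.det (kslC p e g ψ H) = ∏ i, LinearMap.det (mulQ (p i ^ e i) (H i)) := by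
  unfold kslC
  rw [LinearMap.det_conj, ksl_det_D p e hp]

theorem kslC_X {n : ℕ} (g : Matrix (Fin n) (Fin n) F)
    (ψ : Module.AEval' (Matrix.toLin' g) ≃ₗ[F[X]]
      ⨁ i, F[X] ⧸ Submodule.span F[X] {p i ^ e i}) :
    kslC p e g ψ (fun _ => X) = Matrix.toLin' g := by
  apply LinearMap.ext
  intro v
  rw [kslC_apply, ← kslPsi_toLin, LinearEquiv.symm_apply_apply]

theorem kslC_comm {n : ℕ} (g : Matrix (Fin n) (Fin n) F)
    (ψ : Module.AEval' (Matrix.toLin' g) ≃ₗ[F[X]]
      ⨁ i, F[X] ⧸ Submodule.span F[X] {p i ^ e i}) (H : ι → F[X]) :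
    kslC p e g ψ H ∘ₗ Matrix.toLin' g = Matrix.toLin' g ∘ₗ kslC p e g ψ H := by
  rw [← kslC_X p e g ψ]
  apply LinearMap.ext
  intro v
  rw [LinearMap.comp_apply, LinearMap.comp_apply, kslC_apply, kslC_apply, kslC_apply, kslC_apply,
    LinearEquiv.apply_symm_apply, LinearEquiv.apply_symm_apply, kslD_comm]

end diag

end Cfsg.Agent.Helper46
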