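import Mathlib
import Cfsg.Agent.Helper40.KGLDefs
import Cfsg.Agent.Helper40.KSLDefs
import Cfsg.Agent.Helper46.KSLDiag

/-!
# Helper46: piece B4 of CALL S2479 (`exists_gl_centralizing`)
-/

set_option autoImplicit false

namespace Cfsg.Agent.Helper46

open Polynomial Cfsg.Agent.Helper40.KGL Cfsg.Agent.Helper40.KSL
open scoped DirectSum
open Classical

universe u v

theorem ksl_mulQ_one {F : Type u} [Field F] (f : F[X]) : mulQ f 1 = LinearMap.id := by
  apply LinearMap.ext
  intro y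
  exact one_smul F[X] y

theorem ksl_mulQ_inv {F : Type u} [Field F] (f h a b : F[X]) (hab : a * h + b * f = 1) :
    mulQ f a ∘ₗ mulQ f h = LinearMap.id := by
  apply LinearMap.ext
  intro y
  obtain ⟨x, rfl⟩ := Submodule.Quotient.mk_surjective _ y
  show a • h • (Submodule.Quotient.mk x : F[X] ⧸ Submodule.span F[X] {f})
    = Submodule.Quotient.mk x
  rw [← Submodule.Quotient.mk_smul, ← Submodule.Quotient.mk_smul, Submodule.Quotient.eq,
    Submodule.mem_span_singleton]
  refine ⟨-(b * x), ?_⟩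
  simp only [smul_eq_mul]
  linear_combination (-x) * hab

theorem ksl_det_mulQ_ne {F : Type u} [Field F] (f h : F[X]) (hh : IsCoprime h f) :
    LinearMap.det (mulQ f h) ≠ 0 := by
  obtain ⟨a, b, hab⟩ := hh
  have h1 := ksl_mulQ_inv f h a b hab
  have h2 := congrArg LinearMap.det h1
  rw [LinearMap.det_comp, LinearMap.det_id] at h2
  exact right_ne_zero_of_mul_eq_one h2

/-- PIECE B4 -/
theorem exists_gl_centralizing {F : Type u} [Field F] {n : ℕ} (g : GL (Fin n) F)
    {ι : Type u} [Fintype ι] (p : ι → F[X]) (e : ι → ℕ) (hp : ∀ i, (p i).Monic)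
    (ψ : Module.AEval' (Matrix.toLin' (g : Matrix (Fin n) (Fin n) F)) ≃ₗ[F[X]]
      ⨁ i, F[X] ⧸ Submodule.span F[X] {p i ^ e i}) (i₀ : ι) (h : F[X])
    (hh : IsCoprime h (p i₀ ^ e i₀)) :
    ∃ c : GL (Fin n) F, c * g = g * c ∧
      ((Matrix.GeneralLinearGroup.det c : Fˣ) : F) = LinearMap.det (mulQ (p i₀ ^ e i₀) h) := by
  obtain ⟨H, hH⟩ : ∃ H : ι → F[X], H = Function.update (fun _ => (1 : F[X])) i₀ h := ⟨_, rfl⟩
  have hHi₀ : H i₀ = h := by rw [hH, Function.update_self]
  have hHne : ∀ i, i ≠ i₀ → H i = 1 := by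
    intro i hi
    rw [hH, Function.update_of_ne hi]
  have hdet : LinearMap.det (kslC p e (g : Matrix (Fin n) (Fin n) F) ψ H)
      = LinearMap.det (mulQ (p i₀ ^ e i₀) h) := by
    rw [ksl_det_C p e _ ψ hp, Finset.prod_eq_single i₀, hHi₀]
    · intro i _ hi
      rw [hHne i hi, ksl_mulQ_one, LinearMap.det_id]
    · intro hi; exact absurd (Finset.mem_univ _) hi
  have hne : (LinearMap.toMatrix' (kslC p e (g : Matrix (Fin n) (Fin n) F) ψ H)).det ≠ 0 := by
    rw [LinearMap.det_toMatrix', hdet]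
    exact ksl_det_mulQ_ne _ _ hh
  refine ⟨Matrix.GeneralLinearGroup.mkOfDetNeZero _ hne, ?_, ?_⟩
  · apply Units.ext
    rw [Units.val_mul, Units.val_mul]
    have h1 := congrArg LinearMap.toMatrix' (kslC_comm p e (g : Matrix (Fin n) (Fin n) F) ψ H)
    rw [LinearMap.toMatrix'_comp, LinearMap.toMatrix'_comp, LinearMap.toMatrix'_toLin'] at h1
    exact h1
  · rw [Matrix.GeneralLinearGroup.val_det_apply]
    show (LinearMap.toMatrix' (kslC p e (g : Matrix (Fin n) (Fin n) F) ψ H)).det = _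
    rw [LinearMap.det_toMatrix', hdet]

end Cfsg.Agent.Helper46
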