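/-
helper46: local lemmas for S4411: a normal subgroup with a central Sylow `p`-subgroup has a normal
`p`-complement (Burnside transfer), `p`-solvability of `N(H)` from that of `N(H)/C(H)`, and
the passage from `H` to `S ∩ H C(H)`.
-/
import Cfsg.Agent.Helper46.PSolAqB
import Cfsg.Agent.Helper63.PSolv

set_option autoImplicit false

namespace Cfsg.Agent.Helper46

open Cfsg

universe u

/-- a normal subgroup `C` all of whose `p`-elements lie in a central `p`-subgroup `Z` has a
`p'`-subgroup `W`, normal in the whole group, with `C/W` a `p`-group -/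
theorem exists_normal_pcomplement {X : Type*} [Group X] [Finite X] (p : ℕ) [hp : Fact p.Prime]
    (C : Subgroup X) [hCn : C.Normal] (Z : Subgroup X)
    (hcen : ∀ z ∈ Z, ∀ c ∈ C, z * c = c * z)
    (hall : ∀ c ∈ C, (∃ k : ℕ, c ^ p ^ k = 1) → c ∈ Z) :
    ∃ W : Subgroup X, W.Normal ∧ W ≤ C ∧ (Nat.card W).Coprime p ∧
      ∀ c ∈ C, ∃ k : ℕ, c ^ p ^ k ∈ W := by
  obtain ⟨P⟩ : Nonempty (Sylow p C) := inferInstance
  have hPZ : ∀ x : C, x ∈ (P : Subgroup C) → (x : X) ∈ Z := by
    intro x hx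
    apply hall _ x.2
    obtain ⟨k, hk⟩ := pow_eq_one_of_isPGroup P.isPGroup' hx
    refine ⟨k, ?_⟩
    rw [← Subgroup.coe_pow, hk, Subgroup.coe_one]
  have hP : Subgroup.normalizer ((P : Subgroup C) : Set C) ≤
      Subgroup.centralizer ((P : Subgroup C) : Set C) := by
    intro c _
    rw [Subgroup.mem_centralizer_iff]
    intro x hx
    exact Subtype.ext (hcen _ (hPZ x hx) _ c.2)
  have hcompl := MonoidHom.ker_transferSylow_isComplement' P hP
  have hcard : Nat.card (MonoidHom.transferSylow P hP).ker * Nat.card (P : Subgroup C) =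
      Nat.card C := hcompl.card_mul_card
  have hcop : (Nat.card (MonoidHom.transferSylow P hP).ker).Coprime p := by
    have h1 := Subgroup.card_mul_index (P : Subgroup C)
    have h2 : Nat.card (MonoidHom.transferSylow P hP).ker = (P : Subgroup C).index := by
      have h3 : Nat.card (P : Subgroup C) * Nat.card (MonoidHom.transferSylow P hP).ker =
          Nat.card (P : Subgroup C) * (P : Subgroup C).index := by
        rw [h1, mul_comm]; exact hcard
      exact Nat.eq_of_mul_eq_mul_left Nat.card_pos h3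
    rw [h2]
    exact ((Nat.Prime.coprime_iff_not_dvd hp.out).mpr P.not_dvd_index).symm
  have hker : ∀ c : C, (∃ n : ℕ, n.Coprime p ∧ c ^ n = 1) →
      c ∈ (MonoidHom.transferSylow P hP).ker := by
    rintro c ⟨n, hn, hcn⟩
    rw [MonoidHom.mem_ker]
    obtain ⟨k, hk⟩ := P.isPGroup' (MonoidHom.transferSylow P hP c)
    have h1 : (MonoidHom.transferSylow P hP c) ^ n = 1 := by rw [← map_pow, hcn, map_one]
    have h2 : MonoidHom.transferSylow P hP c ∈ (⊥ : Subgroup (P : Subgroup C)) :=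
      mem_of_pow_mem_of_coprime (H := ⊥) (n := p ^ k) (m := n)
        (by rw [hk]; exact Subgroup.one_mem _) h1 (Nat.Coprime.pow_left k hn.symm)
    exact Subgroup.mem_bot.mp h2
  refine ⟨(MonoidHom.transferSylow P hP).ker.map C.subtype, ⟨?_⟩, ?_, ?_, ?_⟩
  · rintro _ ⟨w, hw, rfl⟩ g
    refine ⟨⟨g * (w : X) * g⁻¹, hCn.conj_mem _ w.2 g⟩, ?_, rfl⟩
    apply hker
    refine ⟨Nat.card (MonoidHom.transferSylow P hP).ker, hcop, Subtype.ext ?_⟩
    have h1 := pow_card_eq_one' (G := (MonoidHom.transferSylow P hP).ker) (x := ⟨w, hw⟩)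
    have h2 : (w : X) ^ Nat.card (MonoidHom.transferSylow P hP).ker = 1 := by
      have h3 : (((⟨w, hw⟩ : (MonoidHom.transferSylow P hP).ker) : C) : X) ^
          Nat.card (MonoidHom.transferSylow P hP).ker = 1 := by
        rw [← Subgroup.coe_pow, ← Subgroup.coe_pow, h1, Subgroup.coe_one, Subgroup.coe_one]
      exact h3
    rw [Subgroup.coe_pow, Subgroup.coe_one]
    show (g * (w : X) * g⁻¹) ^ Nat.card (MonoidHom.transferSylow P hP).ker = 1
    rw [conj_pow, h2, mul_one, mul_inv_cancel]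
  · rintro _ ⟨w, _, rfl⟩
    exact w.2
  · rw [Subgroup.card_map_of_injective C.subtype_injective]
    exact hcop
  · intro c hc
    obtain ⟨k, hk⟩ := P.isPGroup' (MonoidHom.transferSylow P hP ⟨c, hc⟩)
    have h1 : (⟨c, hc⟩ : C) ^ p ^ k ∈ (MonoidHom.transferSylow P hP).ker := by
      rw [MonoidHom.mem_ker, map_pow, hk]
    refine ⟨k, ?_⟩
    rw [Subgroup.mem_map]
    exact ⟨(⟨c, hc⟩ : C) ^ p ^ k, h1, Subgroup.coe_pow C (⟨c, hc⟩ : C) (p ^ k)⟩

/-- `X/C` `p`-solvable and the `p`-elements of `C` in a central `p`-subgroup: `X` is `p`-solvable -/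
theorem isPSolvable_of_central_sylow {X : Type u} [Group X] [Finite X] (p : ℕ)
    [hp : Fact p.Prime] (C : Subgroup X) [hCn : C.Normal] (Z : Subgroup X)
    (hcen : ∀ z ∈ Z, ∀ c ∈ C, z * c = c * z)
    (hall : ∀ c ∈ C, (∃ k : ℕ, c ^ p ^ k = 1) → c ∈ Z)
    (hQ : IsPSolvable p (X ⧸ C)) : IsPSolvable p X := by
  obtain ⟨W, hWn, hWC, hWc, hWp⟩ := exists_normal_pcomplement p C Z hcen hall
  apply Helper63.PSolv.isPSolvable_extension W (Or.inr hWc)
  have hCbar : IsPGroup p (C.map (QuotientGroup.mk' W)) := by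
    apply isPGroup_of_forall_pow
    rintro _ ⟨c, hc, rfl⟩
    obtain ⟨k, hk⟩ := hWp c hc
    refine ⟨k, ?_⟩
    rw [← map_pow]
    exact (QuotientGroup.eq_one_iff _).mpr hk
  have hCbarn : (C.map (QuotientGroup.mk' W)).Normal :=
    hCn.map _ (QuotientGroup.mk'_surjective W)
  apply Helper63.PSolv.isPSolvable_extension (C.map (QuotientGroup.mk' W))
    (Or.inl (IsPGroup.iff_card.mp hCbar))
  exact Helper32.isPSolvable_of_equiv (QuotientGroup.quotientQuotientEquivQuotient W C hWC).symm hQ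

/-- a `q`-element of `H C(H)` centralizes the `p`-group `H` -/
theorem mem_centralizer_of_mem_sup {M : Type*} [Group M] (p q : ℕ)
    [hp : Fact p.Prime] [hq : Fact q.Prime] (hpq : p ≠ q) (H : Subgroup M) [hHn : H.Normal]
    (hH : IsPGroup p H) {x : M} (hx : x ∈ H ⊔ Subgroup.centralizer (H : Set M)) {a : ℕ}
    (hxa : x ^ q ^ a = 1) : x ∈ Subgroup.centralizer (H : Set M) := by
  obtain ⟨h, hh, c, hc, rfl⟩ := Subgroup.mem_sup_of_normal_left.mp hx
  obtain ⟨k, hk⟩ := pow_eq_one_of_isPGroup hH hh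
  have hcomm : Commute h c := Subgroup.mem_centralizer_iff.mp hc h hh
  have h1 : (h * c) ^ p ^ k ∈ Subgroup.centralizer (H : Set M) := by
    rw [hcomm.mul_pow, hk, one_mul]
    exact Subgroup.pow_mem _ hc _
  exact mem_of_pow_mem_of_coprime h1 hxa
    (Nat.Coprime.pow _ _ ((Nat.coprime_primes hp.out hq.out).mpr hpq))

/-- passage from `H` to `S ∩ H C(H)` -/
theorem aq_sylow_inf_sup_centralizer {M : Type*} [Group M] [Finite M] (p q : ℕ)
    [hp : Fact p.Prime] [hq : Fact q.Prime] (hpq : p ≠ q) (S : Sylow p M) (H : Subgroup M)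
    [hHn : H.Normal] (hH : IsPGroup p H) (hA : Aq q H) :
    Aq q ((S : Subgroup M) ⊓ (H ⊔ Subgroup.centralizer (H : Set M))) := by
  obtain ⟨y, -, hyC, a, hya⟩ := hA
  obtain ⟨b, hb, c, hc, hybc⟩ :=
    frattini_factorization (H ⊔ Subgroup.centralizer (H : Set M)) S y
  obtain ⟨m, e, hm, hme⟩ := exists_qpart q b
  refine ⟨b ^ m, Subgroup.pow_mem _ hb m, ?_, e, hme⟩
  intro hcen
  apply hyC
  have hHS : H ≤ (S : Subgroup M) := Helper33.normal_pgroup_le_sylow' H hH S
  have h1 : b ^ m ∈ Subgroup.centralizer (H : Set M) := by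
    rw [Subgroup.mem_centralizer_iff]
    intro h hh
    exact Subgroup.mem_centralizer_iff.mp hcen h
      (Subgroup.mem_inf.mpr ⟨hHS hh, Subgroup.mem_sup_left hh⟩)
  have h2 : (b * c) ^ m ∈ H ⊔ Subgroup.centralizer (H : Set M) :=
    pow_mul_mem_of_normal _ hc (Subgroup.mem_sup_right h1)
  rw [← hybc] at h2
  have h3 : (y ^ m) ^ q ^ a = 1 := by
    rw [← pow_mul, mul_comm, pow_mul, hya, one_pow]
  have h4 : y ^ m ∈ Subgroup.centralizer (H : Set M) :=
    mem_centralizer_of_mem_sup p q hpq H hH h2 h3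
  exact mem_of_pow_mem_of_coprime h4 hya
    (Nat.Coprime.pow_right _ ((Nat.Prime.coprime_iff_not_dvd hq.out).mpr hm).symm)

/-- `N(H)/C(H)` `p`-solvable and `H` Sylow in `H C(H)`: `N(H)` is `p`-solvable (type level) -/
theorem isPSolvable_of_sylow_inf_eq {M : Type u} [Group M] [Finite M] (p : ℕ)
    [hp : Fact p.Prime] (S : Sylow p M) (H : Subgroup M) [hHn : H.Normal]
    (hD : (S : Subgroup M) ⊓ (H ⊔ Subgroup.centralizer (H : Set M)) = H)
    (hQ : IsPSolvable p (M ⧸ Subgroup.centralizer (H : Set M))) : IsPSolvable p M := by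
  apply isPSolvable_of_central_sylow p (Subgroup.centralizer (H : Set M))
    (H ⊓ Subgroup.centralizer (H : Set M)) ?_ ?_ hQ
  · intro z hz c hc
    exact Subgroup.mem_centralizer_iff.mp hc z hz.1
  · intro c hc hcp
    have hcE : c ∈ H ⊔ Subgroup.centralizer (H : Set M) := Subgroup.mem_sup_right hc
    have hcN : c ∈ Subgroup.normalizer
        ((((S : Subgroup M) ⊓ (H ⊔ Subgroup.centralizer (H : Set M)) : Subgroup M)) : Set M) := by
      rw [hD, Subgroup.normalizer_eq_top]
      trivial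
    have := mem_sylow_inf_of_normalizes (H ⊔ Subgroup.centralizer (H : Set M)) S hcE hcN hcp
    rw [hD] at this
    exact Subgroup.mem_inf.mpr ⟨this, hc⟩

end Cfsg.Agent.Helper46
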