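/-
helper46: the main argument of S4411.  Among the `p`-subgroups `X` with `Aq q X` take one with
`(|N(X)|_p, |X|)` lexicographically largest; then a Sylow `p`-subgroup of `N(X)` is Sylow in `G` and
one of its characteristic subgroups is moved by a `q`-element.
-/
import Cfsg.Agent.Helper46.AqLocal

set_option autoImplicit false

namespace Cfsg.Agent.Helper46

open Cfsg

universe u

/-- an element normalizing the image of an injective map normalizes the image of each
characteristic subgroup -/
theorem normalizer_range_le_normalizer_map {P G : Type*} [Group P] [Group G] [Finite G]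
    (ι : P →* G) (hι : Function.Injective ι) (K : Subgroup P) [hK : K.Characteristic] :
    Subgroup.normalizer (ι.range : Set G) ≤
      Subgroup.normalizer ((K.map ι : Subgroup G) : Set G) := by
  intro g hg
  apply mem_normalizer_of_forall_conj
  rintro _ ⟨k, hk, rfl⟩
  obtain ⟨φ, hφ⟩ : ∃ φ : P ≃* P, ∀ x : P, ι (φ x) = g * ι x * g⁻¹ := by
    refine ⟨(MonoidHom.ofInjective hι).trans
      ((ι.range.normalizerMonoidHom ⟨g, hg⟩).trans (MonoidHom.ofInjective hι).symm), ?_⟩
    intro x
    have h1 : ∀ z : P, ((MonoidHom.ofInjective hι z : ι.range) : G) = ι z := fun z => rfl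
    rw [← h1]
    simp only [MulEquiv.trans_apply, MulEquiv.apply_symm_apply]
    rfl
  have h2 : φ k ∈ K := by
    have h3 := Subgroup.characteristic_iff_map_eq.mp hK φ
    have h4 : φ k ∈ K.map φ.toMonoidHom := ⟨k, hk, rfl⟩
    rw [h3] at h4
    exact h4
  exact ⟨φ k, h2, hφ k⟩

/-- type-level step -/
theorem aq_step_type {M : Type u} [Group M] [Finite M] (p q : ℕ)
    [hp : Fact p.Prime] [hq : Fact q.Prime] (hpq : p ≠ q) (h23 : ¬ (p = 2 ∧ q = 3))
    (S : Sylow p M) (H : Subgroup M) [hHn : H.Normal] (hH : IsPGroup p H)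
    (hQ : IsPSolvable p (M ⧸ Subgroup.centralizer (H : Set M))) (hA : Aq q H) :
    (∃ T : Subgroup M, H < T ∧ T ≤ (S : Subgroup M) ∧
        (S : Subgroup M) ≤ Subgroup.normalizer (T : Set M) ∧ Aq q T) ∨
      (∃ K : Subgroup (S : Subgroup M), K.Characteristic ∧
        Aq q (K.map (S : Subgroup M).subtype)) := by
  by_cases hD : (S : Subgroup M) ⊓ (H ⊔ Subgroup.centralizer (H : Set M)) = H
  · exact psol_aq p q hpq h23 (isPSolvable_of_sylow_inf_eq p S H hD hQ) S H hH hA
  · left
    have hHS : H ≤ (S : Subgroup M) := Helper33.normal_pgroup_le_sylow' H hH S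
    refine ⟨(S : Subgroup M) ⊓ (H ⊔ Subgroup.centralizer (H : Set M)),
      lt_of_le_of_ne (le_inf hHS le_sup_left) (Ne.symm hD), inf_le_left, ?_,
      aq_sylow_inf_sup_centralizer p q hpq S H hH hA⟩
    intro s hs
    apply mem_normalizer_of_forall_conj
    intro n hn
    have hEn : (H ⊔ Subgroup.centralizer (H : Set M)).Normal := inferInstance
    exact Subgroup.mem_inf.mpr
      ⟨Subgroup.mul_mem _ (Subgroup.mul_mem _ hs hn.1) (Subgroup.inv_mem _ hs),
        hEn.conj_mem n hn.2 s⟩

theorem centralizer_subgroupOf_normalizer_eq {G : Type*} [Group G] (H : Subgroup G) :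
    (Subgroup.centralizer (H : Set G)).subgroupOf (Subgroup.normalizer (H : Set G)) =
      Subgroup.centralizer
        ((H.subgroupOf (Subgroup.normalizer (H : Set G)) :
          Subgroup (Subgroup.normalizer (H : Set G))) : Set (Subgroup.normalizer (H : Set G))) := by
  ext x
  rw [Subgroup.mem_subgroupOf, Subgroup.mem_centralizer_iff, Subgroup.mem_centralizer_iff]
  constructor
  · intro h h' hh'
    exact Subtype.ext (h (h' : G) (Subgroup.mem_subgroupOf.mp hh'))
  · intro h g hg
    have := h ⟨g, Subgroup.le_normalizer hg⟩ (Subgroup.mem_subgroupOf.mpr hg)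
    exact congrArg Subtype.val this

/-- the local step in `G` -/
theorem aq_local_step {G : Type u} [Group G] [Finite G] (p q : ℕ)
    [hp : Fact p.Prime] [hq : Fact q.Prime] (hpq : p ≠ q) (h23 : ¬ (p = 2 ∧ q = 3))
    (H : Subgroup G) (hH : IsPGroup p H)
    (hsol : IsPSolvable p (↥(Subgroup.normalizer (H : Set G)) ⧸
      (Subgroup.centralizer (H : Set G)).subgroupOf (Subgroup.normalizer (H : Set G))))
    (hA : Aq q H) :
    ∃ P₀ : Subgroup G, IsPGroup p P₀ ∧ P₀ ≤ Subgroup.normalizer (H : Set G) ∧
      ¬ p ∣ P₀.relIndex (Subgroup.normalizer (H : Set G)) ∧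
      ((∃ T : Subgroup G, H < T ∧ IsPGroup p T ∧ P₀ ≤ Subgroup.normalizer (T : Set G) ∧ Aq q T) ∨
        (∃ K : Subgroup G, K ≤ P₀ ∧
          Subgroup.normalizer (P₀ : Set G) ≤ Subgroup.normalizer (K : Set G) ∧ Aq q K)) := by
  obtain ⟨S⟩ : Nonempty (Sylow p (Subgroup.normalizer (H : Set G))) := inferInstance
  have hceq := centralizer_subgroupOf_normalizer_eq H
  have hH' : IsPGroup p (H.subgroupOf (Subgroup.normalizer (H : Set G))) := hH.comap_subtype
  have hQ : IsPSolvable p (↥(Subgroup.normalizer (H : Set G)) ⧸ Subgroup.centralizer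
      ((H.subgroupOf (Subgroup.normalizer (H : Set G)) :
          Subgroup (Subgroup.normalizer (H : Set G))) :
        Set (Subgroup.normalizer (H : Set G)))) :=
    Helper32.isPSolvable_of_equiv (QuotientGroup.quotientMulEquivOfEq hceq) hsol
  have hA' : Aq q (H.subgroupOf (Subgroup.normalizer (H : Set G))) := by
    obtain ⟨y, hyN, hyC, a, hya⟩ := hA
    refine ⟨⟨y, hyN⟩, ?_, ?_, a, Subtype.ext ?_⟩
    · have hNtop : Subgroup.normalizer
          ((H.subgroupOf (Subgroup.normalizer (H : Set G)) :
            Subgroup (Subgroup.normalizer (H : Set G))) :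
          Set (Subgroup.normalizer (H : Set G))) = ⊤ := Subgroup.normalizer_eq_top _
      exact hNtop.ge (Subgroup.mem_top _)
    · intro hc
      apply hyC
      have h1 : (⟨y, hyN⟩ : Subgroup.normalizer (H : Set G)) ∈
          (Subgroup.centralizer (H : Set G)).subgroupOf (Subgroup.normalizer (H : Set G)) :=
        hceq.ge hc
      exact Subgroup.mem_subgroupOf.mp h1
    · rw [Subgroup.coe_pow, Subgroup.coe_one]
      exact hya
  have hHmap : (H.subgroupOf (Subgroup.normalizer (H : Set G))).map
      (Subgroup.normalizer (H : Set G)).subtype = H := by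
    rw [Subgroup.subgroupOf_map_subtype]
    exact inf_of_le_left Subgroup.le_normalizer
  have hinj : Function.Injective (Subgroup.normalizer (H : Set G)).subtype :=
    Subgroup.subtype_injective _
  refine ⟨(S : Subgroup (Subgroup.normalizer (H : Set G))).map
      (Subgroup.normalizer (H : Set G)).subtype, S.isPGroup'.map _, Subgroup.map_subtype_le _, ?_,
      ?_⟩
  · have h1 : ((S : Subgroup (Subgroup.normalizer (H : Set G))).map
        (Subgroup.normalizer (H : Set G)).subtype).subgroupOf (Subgroup.normalizer (H : Set G)) =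
        (S : Subgroup (Subgroup.normalizer (H : Set G))) :=
      Subgroup.comap_map_eq_self_of_injective hinj _
    show ¬ p ∣ (((S : Subgroup (Subgroup.normalizer (H : Set G))).map
        (Subgroup.normalizer (H : Set G)).subtype).subgroupOf
          (Subgroup.normalizer (H : Set G))).index
    rw [h1]
    exact S.not_dvd_index
  · rcases aq_step_type p q hpq h23 S (H.subgroupOf (Subgroup.normalizer (H : Set G))) hH' hQ hA'
      with ⟨T', hHT', hT'S, hST', hAqT'⟩ | ⟨K', hK'c, hAqK'⟩
    · left
      refine ⟨T'.map (Subgroup.normalizer (H : Set G)).subtype, ?_,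
        (S.isPGroup'.to_le hT'S).map _, ?_, hAqT'.map_subtype _⟩
      · exact lt_of_eq_of_lt hHmap.symm (lt_of_le_of_ne (Subgroup.map_mono hHT'.le)
          (fun heq => hHT'.ne (Subgroup.map_injective hinj heq)))
      · rintro _ ⟨s, hs, rfl⟩
        apply mem_normalizer_of_forall_conj
        rintro _ ⟨t, ht, rfl⟩
        exact ⟨s * t * s⁻¹, (Subgroup.mem_normalizer_iff.mp (hST' hs) t).mp ht, by simp⟩
    · right
      refine ⟨(K'.map (S : Subgroup (Subgroup.normalizer (H : Set G))).subtype).map
          (Subgroup.normalizer (H : Set G)).subtype,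
        Subgroup.map_mono (Subgroup.map_subtype_le _), ?_, hAqK'.map_subtype _⟩
      have h1 := normalizer_range_le_normalizer_map
        ((Subgroup.normalizer (H : Set G)).subtype.comp
          (S : Subgroup (Subgroup.normalizer (H : Set G))).subtype)
        (hinj.comp (Subgroup.subtype_injective _)) K'
      rw [← MonoidHom.map_range, Subgroup.range_subtype, ← Subgroup.map_map] at h1
      exact h1

/-- a `p`-subgroup of `Y` has order at most the `p`-part of `|Y|` -/
theorem le_factorization_of_pgroup {G : Type*} [Group G] [Finite G] (p : ℕ) [hp : Fact p.Prime]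
    {R Y : Subgroup G} (hRY : R ≤ Y) {r : ℕ} (hr : Nat.card R = p ^ r) :
    r ≤ (Nat.card Y).factorization p := by
  have h1 : p ^ r ∣ Nat.card Y := hr ▸ Subgroup.card_dvd_of_le hRY
  exact (Nat.Prime.pow_dvd_iff_le_factorization hp.out Nat.card_pos.ne').mp h1

/-- a Sylow `p`-subgroup of `Y` has order the `p`-part of `|Y|` -/
theorem card_eq_pow_factorization {G : Type*} [Group G] [Finite G] (p : ℕ) [hp : Fact p.Prime]
    {P₀ Y : Subgroup G} (hP₀Y : P₀ ≤ Y) (hP₀ : IsPGroup p P₀) (hidx : ¬ p ∣ P₀.relIndex Y) :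
    Nat.card P₀ = p ^ (Nat.card Y).factorization p := by
  have h1 := Sylow.card_eq_multiplicity ((hP₀.comap_subtype (K := Y)).toSylow hidx)
  rw [← Nat.card_congr (Subgroup.subgroupOfEquivOfLe hP₀Y).toEquiv]
  exact h1

/-- **S4411, in terms of `Aq`.** -/
theorem aq_main {G : Type u} [Group G] [Finite G] (p q : ℕ)
    [hp : Fact p.Prime] [hq : Fact q.Prime] (hpq : p ≠ q) (h23 : ¬ (p = 2 ∧ q = 3))
    (hsol : ∀ H : Subgroup G, IsPGroup p H →
      IsPSolvable p (↥(Subgroup.normalizer (H : Set G)) ⧸
        (Subgroup.centralizer (H : Set G)).subgroupOf (Subgroup.normalizer (H : Set G))))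
    (H : Subgroup G) (hH : IsPGroup p H) (hA : Aq q H) (Gp : Sylow p G) :
    ∃ K : Subgroup G, K ≤ (Gp : Subgroup G) ∧
      (Gp : Subgroup G) ≤ Subgroup.normalizer (K : Set G) ∧ Aq q K := by
  have hne : Nonempty {X : Subgroup G // IsPGroup p X ∧ Aq q X} := ⟨⟨H, hH, hA⟩⟩
  obtain ⟨X₀, hmax⟩ := Finite.exists_max
    (fun X : {X : Subgroup G // IsPGroup p X ∧ Aq q X} =>
      (Nat.card (Subgroup.normalizer ((X : Subgroup G) : Set G))).factorization p *
        (Nat.card G + 1) + Nat.card (X : Subgroup G))
  obtain ⟨X, hXp, hXA⟩ := X₀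
  have hmax' : ∀ Y : Subgroup G, IsPGroup p Y → Aq q Y →
      (Nat.card (Subgroup.normalizer (Y : Set G))).factorization p * (Nat.card G + 1) +
          Nat.card Y ≤
        (Nat.card (Subgroup.normalizer (X : Set G))).factorization p * (Nat.card G + 1) +
          Nat.card X :=
    fun Y hY hYA => hmax ⟨Y, hY, hYA⟩
  obtain ⟨P₀, hP₀p, hP₀N, hP₀idx, hcases⟩ := aq_local_step p q hpq h23 X hXp (hsol X hXp) hXA
  have hcardP₀ := card_eq_pow_factorization p hP₀N hP₀p hP₀idx
  rcases hcases with ⟨T, hXT, hTp, hP₀T, hTA⟩ | ⟨K, hKP₀, hNK, hKA⟩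
  · exfalso
    have h1 := le_factorization_of_pgroup p hP₀T hcardP₀
    have h2 := Helper33.card_lt_card_of_lt hXT
    have h3 := hmax' T hTp hTA
    have h4 := Nat.mul_le_mul_right (Nat.card G + 1) h1
    omega
  · by_cases hidx : p ∣ P₀.index
    · exfalso
      obtain ⟨Q, hQ⟩ := hP₀p.exists_le_sylow
      have hne' : P₀ ≠ (Q : Subgroup G) := by
        intro h
        rw [h] at hidx
        exact Q.not_dvd_index hidx
      have hlt := Helper33.lt_inf_normalizer Q.isPGroup' hQ hne'
      have hRp : IsPGroup p ((Q : Subgroup G) ⊓ Subgroup.normalizer (P₀ : Set G) : Subgroup G) :=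
        Q.isPGroup'.to_le inf_le_left
      obtain ⟨r, hr⟩ := IsPGroup.iff_card.mp hRp
      have h1 := Helper33.card_lt_card_of_lt hlt
      rw [hr, hcardP₀] at h1
      have h2 : (Nat.card (Subgroup.normalizer (X : Set G))).factorization p < r :=
        (Nat.pow_lt_pow_iff_right hp.out.one_lt).mp h1
      have h3 := le_factorization_of_pgroup p (le_trans inf_le_right hNK) hr
      have hKp : IsPGroup p K := hP₀p.to_le hKP₀
      have h4 := hmax' K hKp hKA
      have h5 := Nat.mul_le_mul_right (Nat.card G + 1)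
        (show (Nat.card (Subgroup.normalizer (X : Set G))).factorization p + 1 ≤
          (Nat.card (Subgroup.normalizer (K : Set G))).factorization p by omega)
      have h6 : Nat.card X ≤ Nat.card G := Subgroup.card_le_card_group X
      rw [Nat.add_mul, one_mul] at h5
      omega
    · obtain ⟨g, hg⟩ := Helper33.exists_cj_le_sylow Gp hP₀p
      have hcard : Nat.card (Gp : Subgroup G) ≤
          Nat.card (P₀.map (MulAut.conj g).toMonoidHom) := by
        rw [Helper33.card_cj]
        exact Helper33.card_le_of_relIndex (H := ⊤) le_top hP₀p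
          (by rw [Subgroup.relIndex_top_right]; exact hidx) le_top Gp.isPGroup'
      have heq : P₀.map (MulAut.conj g).toMonoidHom = (Gp : Subgroup G) :=
        Subgroup.eq_of_le_of_card_ge hg hcard
      refine ⟨K.map (MulAut.conj g).toMonoidHom, ?_, ?_, hKA.conj g⟩
      · rw [← heq]; exact Helper33.cj_mono g hKP₀
      · rw [← heq, Helper33.normalizer_cj]
        exact Helper33.cj_mono g (le_trans Subgroup.le_normalizer hNK)

end Cfsg.Agent.Helper46
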