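import Mathlib

/-! Piece A1g of CALL S0999 (helper9, Brauer-Reynolds): the Sylow set-up for a perfect group `G`
with `p ∣ |G| < p^3` and a non-normal Sylow `p`-subgroup.  Adapted from helper29's
`Cfsg.Agent.Helper29.br_setup` (the simple case). -/

set_option autoImplicit false

universe u

namespace Cfsg.Agent.Helper46

theorem br_arith_syl_g (s p : ℕ) (hp2 : 2 ≤ p) (hmod : s ≡ 1 [MOD p]) (hne1 : s ≠ 1) :
    ∃ n, 1 ≤ n ∧ s = 1 + n * p := by
  have h1 : s % p = 1 := by
    unfold Nat.ModEq at hmod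
    rw [hmod, Nat.mod_eq_of_lt (by omega)]
  have h2 := Nat.div_add_mod s p
  rw [h1] at h2
  refine ⟨s / p, ?_, ?_⟩
  · rcases Nat.eq_zero_or_pos (s / p) with h0 | h0
    · rw [h0, mul_zero, zero_add] at h2
      exact absurd h2.symm hne1
    · exact h0
  · rw [mul_comm (s / p) p, add_comm]; exact h2.symm

theorem br_setup_perfect {G : Type u} [Group G] [Finite G] (hperf : commutator G = ⊤) (p : ℕ)
    [Fact p.Prime] (hdvd : p ∣ Nat.card G) (hbig : Nat.card G < p ^ 3) (P : Sylow p G)
    (hPn : ¬ (P : Subgroup G).Normal) :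
    p ≠ 2 ∧ Nat.card (P : Subgroup G) = p ∧ ∃ q n v : ℕ,
      (Subgroup.centralizer ((P : Subgroup G) : Set G)).relIndex
        (Subgroup.normalizer ((P : Subgroup G) : Set G)) = q ∧
      2 ≤ q ∧ q ∣ p - 1 ∧ 1 ≤ n ∧ 1 ≤ v ∧ Nat.card (Sylow p G) = 1 + n * p ∧
      Nat.card (Subgroup.centralizer ((P : Subgroup G) : Set G)) = p * v ∧
      Nat.card G = p * q * v * (1 + n * p) ∧ q * v * n < p := by
  have hp : p.Prime := Fact.out
  have hp2 : 2 ≤ p := hp.two_le
  have hPbot : (P : Subgroup G) ≠ ⊥ := P.ne_bot_of_dvd_card hdvd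
  have hNtop : Subgroup.normalizer ((P : Subgroup G) : Set G) ≠ ⊤ := by
    intro h
    exact hPn (Subgroup.normalizer_eq_top_iff.1 h)
  have hsyl : Nat.card (Sylow p G) =
      (Subgroup.normalizer ((P : Subgroup G) : Set G)).index := P.card_eq_index_normalizer
  have hmod : Nat.card (Sylow p G) ≡ 1 [MOD p] := card_sylow_modEq_one p G
  have hne1 : Nat.card (Sylow p G) ≠ 1 := by
    rw [hsyl]; intro h; exact hNtop (Subgroup.index_eq_one.1 h)
  obtain ⟨n, hn1, hn⟩ := br_arith_syl_g _ p hp2 hmod hne1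
  obtain ⟨k, hk⟩ := IsPGroup.exists_card_eq P.isPGroup'
  have hGcard : Nat.card G = Nat.card (Sylow p G) *
      Nat.card ↥(Subgroup.normalizer ((P : Subgroup G) : Set G)) := by
    rw [hsyl]; exact (Subgroup.index_mul_card _).symm
  have hPN : Nat.card ↥(P : Subgroup G) ≤
      Nat.card ↥(Subgroup.normalizer ((P : Subgroup G) : Set G)) :=
    Nat.le_of_dvd Nat.card_pos (Subgroup.card_dvd_of_le Subgroup.le_normalizer)
  have hk1 : k = 1 := by
    have hk0 : k ≠ 0 := by
      rintro rfl
      rw [pow_zero] at hk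
      exact hPbot (Subgroup.card_eq_one.1 hk)
    by_contra hk1
    have hk2 : 2 ≤ k := by omega
    have h1 : p ^ 2 ≤ Nat.card ↥(P : Subgroup G) := by
      rw [hk]; exact Nat.pow_le_pow_right (by omega) hk2
    have h2 : (1 + p) * p ^ 2 ≤ Nat.card G := by
      rw [hGcard, hn]
      apply Nat.mul_le_mul
      · nlinarith
      · exact h1.trans hPN
    have h3 : p ^ 3 < (1 + p) * p ^ 2 := by nlinarith [pow_pos (by omega : 0 < p) 2]
    omega
  rw [hk1, pow_one] at hk
  have hcyc : IsCyclic ↥(P : Subgroup G) := isCyclic_of_prime_card hk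
  have hPC : (P : Subgroup G) ≤ Subgroup.centralizer ((P : Subgroup G) : Set G) := by
    obtain ⟨g, hg⟩ := hcyc.exists_generator
    intro x hx
    rw [Subgroup.mem_centralizer_iff]
    intro y hy
    obtain ⟨a, ha⟩ := Subgroup.mem_zpowers_iff.1 (hg ⟨x, hx⟩)
    obtain ⟨b, hb⟩ := Subgroup.mem_zpowers_iff.1 (hg ⟨y, hy⟩)
    have h1 : (⟨y, hy⟩ : ↥(P : Subgroup G)) * ⟨x, hx⟩ = ⟨x, hx⟩ * ⟨y, hy⟩ := by
      rw [← ha, ← hb]
      exact Commute.zpow_zpow_self g b a
    exact congrArg Subtype.val h1
  have hCN : Subgroup.centralizer ((P : Subgroup G) : Set G) ≤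
      Subgroup.normalizer ((P : Subgroup G) : Set G) := Subgroup.centralizer_le_normalizer _
  have hqdvd : (Subgroup.centralizer ((P : Subgroup G) : Set G)).relIndex
      (Subgroup.normalizer ((P : Subgroup G) : Set G)) ∣ p - 1 := by
    have key := Subgroup.card_dvd_of_injective _
      (QuotientGroup.kerLift_injective (P : Subgroup G).normalizerMonoidHom)
    rw [Subgroup.normalizerMonoidHom_ker, ← Subgroup.index, ← Subgroup.relIndex] at key
    rw [IsCyclic.card_mulAut ↥(P : Subgroup G), hk, Nat.totient_prime hp] at key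
    exact key
  have hq1 : (Subgroup.centralizer ((P : Subgroup G) : Set G)).relIndex
      (Subgroup.normalizer ((P : Subgroup G) : Set G)) ≠ 1 := by
    intro h
    have hNC : Subgroup.normalizer ((P : Subgroup G) : Set G) ≤
        Subgroup.centralizer ((P : Subgroup G) : Set G) := Subgroup.relIndex_eq_one.1 h
    have hcompl := MonoidHom.ker_transferSylow_isComplement' P hNC
    have hcard := hcompl.card_mul_card
    have h1 : (MonoidHom.transferSylow P hNC).ker = ⊤ := by
      rw [eq_top_iff, ← hperf, commutator_def, Subgroup.commutator_le]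
      intro g₁ _ g₂ _
      rw [MonoidHom.mem_ker, map_commutatorElement, commutatorElement_eq_one_iff_commute]
      apply Subtype.ext
      have h3 := hPC (MonoidHom.transferSylow P hNC g₁).2
      rw [Subgroup.mem_centralizer_iff] at h3
      exact (h3 _ (MonoidHom.transferSylow P hNC g₂).2).symm
    rw [h1, Subgroup.card_top, hk] at hcard
    have hGpos : 0 < Nat.card G := Nat.card_pos
    nlinarith
  have hp1 : 0 < p - 1 := by omega
  have hq0 : (Subgroup.centralizer ((P : Subgroup G) : Set G)).relIndex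
      (Subgroup.normalizer ((P : Subgroup G) : Set G)) ≠ 0 := by
    intro h
    rw [h, zero_dvd_iff] at hqdvd
    omega
  have hq2 : 2 ≤ (Subgroup.centralizer ((P : Subgroup G) : Set G)).relIndex
      (Subgroup.normalizer ((P : Subgroup G) : Set G)) := by omega
  have hqle : (Subgroup.centralizer ((P : Subgroup G) : Set G)).relIndex
      (Subgroup.normalizer ((P : Subgroup G) : Set G)) ≤ p - 1 := Nat.le_of_dvd hp1 hqdvd
  obtain ⟨v, hv⟩ : p ∣ Nat.card ↥(Subgroup.centralizer ((P : Subgroup G) : Set G)) := by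
    have h1 := Subgroup.card_dvd_of_le hPC
    rw [hk] at h1
    exact h1
  have hv1 : 1 ≤ v := by
    have hpos : 0 < Nat.card ↥(Subgroup.centralizer ((P : Subgroup G) : Set G)) := Nat.card_pos
    rw [hv] at hpos
    by_contra hcon
    have : v = 0 := by omega
    rw [this] at hpos
    simp at hpos
  have hcard : Nat.card G = p * (Subgroup.centralizer ((P : Subgroup G) : Set G)).relIndex
      (Subgroup.normalizer ((P : Subgroup G) : Set G)) * v * (1 + n * p) := by
    have h1 := Subgroup.relIndex_mul_index hCN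
    have h2 := Subgroup.card_mul_index (Subgroup.centralizer ((P : Subgroup G) : Set G))
    rw [← h1, ← hsyl, hn, hv] at h2
    rw [← h2]; ring
  refine ⟨by omega, hk, _, n, v, rfl, hq2, hqdvd, hn1, hv1, hn, hv, hcard, ?_⟩
  rw [hcard] at hbig
  have h5 : p * p * ((Subgroup.centralizer ((P : Subgroup G) : Set G)).relIndex
      (Subgroup.normalizer ((P : Subgroup G) : Set G)) * v * n) < p * p * p := by
    nlinarith [Nat.zero_le (p * (Subgroup.centralizer ((P : Subgroup G) : Set G)).relIndex
      (Subgroup.normalizer ((P : Subgroup G) : Set G)) * v)]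
  exact Nat.lt_of_mul_lt_mul_left h5

end Cfsg.Agent.Helper46
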