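import Mathlib

set_option autoImplicit false

/-!
# A counting lemma for quadratic offenders (helper46)

`quad_count`: a bi-multiplicative map `T : X × M → M` into a finite elementary abelian `2`-group `M`
with `C ≤ R ≤ M`, `T a` trivial for `a ∈ X₀`, `T a` onto `R` modulo `C` for `a ∉ X₀`, and
`|M| |X₀| ≤ |X| |C|` has a "fixed vector": `T a v ≡ v` modulo `C` with `v ∉ C`.
-/

namespace Cfsg.Agent.Helper46

open scoped BigOperators

/-- Index computation: `|φ⁻¹(C)| · |C · φ(X)| = |X| · |C|`. -/
theorem card_comap_mul_card_sup {X M : Type*} [Group X] [CommGroup M] [Finite X] [Finite M]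
    (φ : X →* M) (C : Subgroup M) :
    Nat.card (C.comap φ) * Nat.card ↥(C ⊔ φ.range) = Nat.card X * Nat.card C := by
  have h1 : Nat.card (C.comap φ) * (C.comap φ).index = Nat.card X := Subgroup.card_mul_index _
  have h2 : (C.comap φ).index = C.relIndex φ.range := Subgroup.index_comap C φ
  have h3 : C.relIndex (C ⊔ φ.range) = C.relIndex φ.range := Subgroup.relIndex_sup_left _ _
  have h4 : Nat.card C * C.relIndex (C ⊔ φ.range) = Nat.card ↥(C ⊔ φ.range) := by
    have := Subgroup.relIndex_mul_relIndex ⊥ C (C ⊔ φ.range) bot_le le_sup_left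
    rwa [Subgroup.relIndex_bot_left, Subgroup.relIndex_bot_left] at this
  rw [← h4, ← h1, h2, h3]
  ring

/-- Cardinality of a preimage as a filter. -/
theorem card_filter_mem_eq {X M : Type*} [Group X] [Group M] [Fintype X]
    (φ : X →* M) (C : Subgroup M) [DecidablePred fun x => φ x ∈ C] :
    (Finset.univ.filter (fun x => φ x ∈ C)).card = Nat.card (C.comap φ) := by
  rw [← Fintype.card_subtype, ← Nat.card_eq_fintype_card]
  rfl

/-- **Counting lemma.** -/
theorem quad_count {X M : Type*} [Group X] [CommGroup M] [Finite X] [Finite M]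
    (h2 : ∀ v : M, v * v = 1)
    (T : X → M →* M) (hT : ∀ a a' v, T (a * a') v = T a v * T a' v)
    (C R : Subgroup M) (X0 : Subgroup X)
    (h0 : ∀ a ∈ X0, ∀ v, T a v = 1)
    (hR : ∀ a, a ∉ X0 → C ⊔ (T a).range = R)
    (hCR : C ≤ R) (hC : ∀ a, ∀ c ∈ C, T a c = 1)
    (hoff : Nat.card M * Nat.card X0 ≤ Nat.card X * Nat.card C)
    (hlt : ∃ r ∈ R, r ∉ C) :
    ∃ a v, v ∉ C ∧ T a v * v ∈ C := by
  classical
  by_contra hno
  push Not at hno
  have := Fintype.ofFinite X
  have := Fintype.ofFinite M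
  let ψ : M → X →* M := fun v => MonoidHom.mk' (fun a => T a v) (fun a a' => hT a a' v)
  have hdc : ∑ a : X, (Finset.univ.filter (fun v => T a v ∈ C)).card =
      ∑ v : M, (Finset.univ.filter (fun a => T a v ∈ C)).card :=
    Finset.sum_card_bipartiteAbove_eq_sum_card_bipartiteBelow (fun a v => T a v ∈ C)
  obtain ⟨n, hn⟩ : ∃ n, n = Nat.card M := ⟨_, rfl⟩
  obtain ⟨N, hN⟩ : ∃ N, N = Nat.card X := ⟨_, rfl⟩
  obtain ⟨c, hc⟩ : ∃ c, c = Nat.card C := ⟨_, rfl⟩
  obtain ⟨r, hr⟩ : ∃ r, r = Nat.card R := ⟨_, rfl⟩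
  obtain ⟨q, hq⟩ : ∃ q, q = Nat.card X0 := ⟨_, rfl⟩
  rw [← hn, ← hN, ← hc, ← hq] at hoff
  have hNpos : 0 < N := hN ▸ Nat.card_pos
  have hcpos : 0 < c := hc ▸ Nat.card_pos
  have hrpos : 0 < r := hr ▸ Nat.card_pos
  -- first count
  have h1 : ∀ a : X, (Finset.univ.filter (fun v => T a v ∈ C)).card * r =
      if a ∈ X0 then n * r else n * c := by
    intro a
    rw [card_filter_mem_eq (T a) C]
    split_ifs with ha
    · have : C.comap (T a) = ⊤ := by
        ext v
        simp only [Subgroup.mem_comap, Subgroup.mem_top, iff_true]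
        rw [h0 a ha v]; exact C.one_mem
      rw [this, Subgroup.card_top, hn]
    · have := card_comap_mul_card_sup (T a) C
      rw [hR a ha] at this
      rw [hr, hn, hc]; exact this
  -- second count
  have h2' : ∀ v : M, (if v ∈ R then (if v ∈ C then N * r else 2 * (N * c)) else N * c) ≤
      (Finset.univ.filter (fun a => T a v ∈ C)).card * r := by
    intro v
    have hcard : (Finset.univ.filter (fun a => T a v ∈ C)).card = Nat.card (C.comap (ψ v)) :=
      card_filter_mem_eq (ψ v) C
    rw [hcard]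
    have hprod := card_comap_mul_card_sup (ψ v) C
    rw [← hN, ← hc] at hprod
    have hDR : C ⊔ (ψ v).range ≤ R := by
      refine sup_le hCR ?_
      rintro _ ⟨a, rfl⟩
      show T a v ∈ R
      by_cases ha : a ∈ X0
      · rw [h0 a ha]; exact R.one_mem
      · rw [← hR a ha]; exact Subgroup.mem_sup_right ⟨v, rfl⟩
    have hDle : Nat.card ↥(C ⊔ (ψ v).range) ≤ r := hr ▸ Subgroup.card_le_of_le hDR
    split_ifs with hvR hvC
    · have : C.comap (ψ v) = ⊤ := by
        ext a
        simp only [Subgroup.mem_comap, Subgroup.mem_top, iff_true]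
        show T a v ∈ C
        rw [hC a v hvC]; exact C.one_mem
      rw [this, Subgroup.card_top, ← hN]
    · have hne : v ∉ C ⊔ (ψ v).range := by
        intro hv
        rw [Subgroup.mem_sup] at hv
        obtain ⟨c0, hc0, _, ⟨a, rfl⟩, hcz⟩ := hv
        apply hno a v hvC
        have hv' : v = c0 * T a v := hcz.symm
        have : T a v * v = c0 := by
          calc T a v * v = T a v * (c0 * T a v) := congrArg (fun t => T a v * t) hv'
            _ = c0 := by rw [mul_comm c0, ← mul_assoc, h2, one_mul]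
        rw [this]; exact hc0
      have hne' : C ⊔ (ψ v).range ≠ R := fun h => hne (h ▸ hvR)
      have hdvd : Nat.card ↥(C ⊔ (ψ v).range) ∣ r := hr ▸ Subgroup.card_dvd_of_le hDR
      have hlt2 : Nat.card ↥(C ⊔ (ψ v).range) < r := by
        by_contra hge
        push Not at hge
        exact hne' (Subgroup.eq_of_le_of_card_ge hDR (hr ▸ hge))
      obtain ⟨k, hk⟩ := hdvd
      have hk2 : 2 ≤ k := by
        rcases k with _ | _ | k
        · omega
        · omega
        · omega
      have h2D : 2 * Nat.card ↥(C ⊔ (ψ v).range) ≤ r := by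
        rw [hk]; nlinarith
      calc 2 * (N * c) = Nat.card (C.comap (ψ v)) * (2 * Nat.card ↥(C ⊔ (ψ v).range)) := by
            rw [← hprod]; ring
        _ ≤ Nat.card (C.comap (ψ v)) * r := Nat.mul_le_mul_left _ h2D
    · rw [← hprod]
      exact Nat.mul_le_mul_left _ hDle
  have hS1 : (∑ a : X, (Finset.univ.filter (fun v => T a v ∈ C)).card) * r =
      ∑ a : X, (if a ∈ X0 then n * r else n * c) := by
    rw [Finset.sum_mul]; exact Finset.sum_congr rfl (fun a _ => h1 a)
  have hS2 : ∑ v : M, (if v ∈ R then (if v ∈ C then N * r else 2 * (N * c)) else N * c) ≤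
      (∑ v : M, (Finset.univ.filter (fun a => T a v ∈ C)).card) * r := by
    rw [Finset.sum_mul]; exact Finset.sum_le_sum (fun v _ => h2' v)
  rw [← hdc, hS1] at hS2
  -- evaluate the sums
  have hq1 : (Finset.univ.filter (fun a : X => a ∈ X0)).card = q := by
    rw [hq, ← Fintype.card_subtype, ← Nat.card_eq_fintype_card]
  have hq2 := Finset.card_filter_add_card_filter_not (s := (Finset.univ : Finset X))
    (fun a : X => a ∈ X0)
  rw [hq1, Finset.card_univ, ← Nat.card_eq_fintype_card, ← hN] at hq2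
  have hr1 : (Finset.univ.filter (fun v : M => v ∈ R)).card = r := by
    rw [hr, ← Fintype.card_subtype, ← Nat.card_eq_fintype_card]
  have hr2 := Finset.card_filter_add_card_filter_not (s := (Finset.univ : Finset M))
    (fun v : M => v ∈ R)
  rw [hr1, Finset.card_univ, ← Nat.card_eq_fintype_card, ← hn] at hr2
  have hc1 : ((Finset.univ.filter (fun v : M => v ∈ R)).filter (fun v : M => v ∈ C)).card = c := by
    rw [Finset.filter_filter]
    have : (Finset.univ.filter (fun v : M => v ∈ R ∧ v ∈ C)) =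
        Finset.univ.filter (fun v : M => v ∈ C) := by
      ext v
      simp only [Finset.mem_filter, Finset.mem_univ, true_and]
      exact ⟨fun h => h.2, fun h => ⟨hCR h, h⟩⟩
    rw [this, hc, ← Fintype.card_subtype, ← Nat.card_eq_fintype_card]
  have hc2 := Finset.card_filter_add_card_filter_not
    (s := (Finset.univ.filter (fun v : M => v ∈ R))) (fun v : M => v ∈ C)
  rw [hc1, hr1] at hc2
  have hpos : 0 < ((Finset.univ.filter (fun v : M => v ∈ R)).filter (fun v : M => ¬ v ∈ C)).card := by
    obtain ⟨x, hxR, hxC⟩ := hlt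
    exact Finset.card_pos.mpr ⟨x, by simp [hxR, hxC]⟩
  simp only [Finset.sum_ite, Finset.sum_const, smul_eq_mul] at hS2
  rw [hq1, hc1] at hS2
  generalize ((Finset.univ.filter (fun v : M => v ∈ R)).filter (fun v : M => ¬ v ∈ C)).card = r'
    at hc2 hpos hS2
  generalize (Finset.univ.filter (fun v : M => ¬ v ∈ R)).card = n' at hr2 hS2
  generalize (Finset.univ.filter (fun a : X => ¬ a ∈ X0)).card = q' at hq2 hS2
  subst hq2 hr2 hc2
  nlinarith [Nat.mul_le_mul_left r' hoff, Nat.mul_pos (Nat.mul_pos hpos hNpos) hcpos]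

end Cfsg.Agent.Helper46
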