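import Mathlib
import Cfsg.Agent.Helper46.QuadCount

set_option autoImplicit false

/-!
# The linear core of the offender argument (helper46)

`quad_core`: a group `X` acting quadratically on a finite elementary abelian `2`-group `M`, with a
subgroup `X₀` acting trivially, `|M| |X₀| ≤ |X| |C_M(X)|`, and an involution `b` of `M` such that
`a b` has odd order for every `a ∉ X₀` and some `a b` is nontrivial: then some `x ≠ 1` in `C_M(a)`
satisfies `a (b x) = x * b x` (so `⟨a, b⟩` induces `S₃` on the four-group `⟨x, b x⟩`).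
-/

namespace Cfsg.Agent.Helper46

/-- If `y` has odd order `m` on an elementary abelian `2`-group and `[w, y]` is fixed by `y`, then
`[w, y] = 1`. -/
theorem iter_trick {M : Type*} [CommGroup M] (h2 : ∀ v : M, v * v = 1) (y : M →* M) (m : ℕ)
    (hm : Odd m) (hy : ∀ v, (⇑y)^[m] v = v) (w : M) (hw : y (y w * w) = y w * w) :
    y w * w = 1 := by
  have hyw : y w = w * (y w * w) := by
    rw [mul_comm (y w) w, ← mul_assoc, h2, one_mul]
  have key : ∀ i : ℕ, (⇑y)^[i] w = w * (y w * w) ^ i := by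
    intro i
    induction i with
    | zero => simp
    | succ i ih =>
      rw [Function.iterate_succ_apply', ih, map_mul, map_pow, hw, pow_succ']
      rw [← mul_assoc, ← hyw]
  have h1 := key m
  rw [hy w] at h1
  have h3 : (y w * w) ^ m = 1 := by
    have : w * w = w * (w * (y w * w) ^ m) := congrArg (fun t => w * t) h1
    rw [h2, ← mul_assoc, h2, one_mul] at this
    exact this.symm
  obtain ⟨k, rfl⟩ := hm
  rw [pow_succ, pow_mul, pow_two, h2, one_pow, one_mul] at h3
  exact h3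

/-- Coprime decomposition `M = C_M(y) · [M, y]` for `y` of odd order. -/
theorem fix_mul_comm_decomp {M : Type*} [CommGroup M] [Finite M] (h2 : ∀ v : M, v * v = 1)
    (y : M →* M) (m : ℕ) (hm : Odd m) (hy : ∀ v, (⇑y)^[m] v = v) (v : M) :
    ∃ x1 w, y x1 = x1 ∧ v = x1 * (y w * w) := by
  have hinv : ∀ u : M, u⁻¹ = u := fun u => inv_eq_of_mul_eq_one_left (h2 u)
  let f : M →* M := y * MonoidHom.id M
  have hf : ∀ u, f u = y u * u := fun u => rfl
  have hfix : ∀ u, f u = 1 → y u = u := by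
    intro u hu
    rw [hf] at hu
    exact (eq_inv_of_mul_eq_one_left hu).trans (hinv u)
  let f' : f.range → f.range := fun u => ⟨f u, ⟨u, rfl⟩⟩
  have hinj : Function.Injective f' := by
    rintro ⟨u, w, rfl⟩ ⟨u', w', rfl⟩ h
    have h1 : f (f w) = f (f w') := congrArg Subtype.val h
    have h3 : f (f (w * w')) = 1 := by
      rw [map_mul, map_mul, h1, h2]
    have h4 : y (f (w * w')) = f (w * w') := hfix _ h3
    have h5 : f (w * w') = 1 := iter_trick h2 y m hm hy (w * w') h4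
    rw [map_mul] at h5
    apply Subtype.ext
    show f w = f w'
    exact (eq_inv_of_mul_eq_one_left h5).trans (hinv (f w'))
  have hsurj : Function.Surjective f' := Finite.injective_iff_surjective.mp hinj
  obtain ⟨⟨u', w, rfl⟩, hu'⟩ := hsurj ⟨f v, ⟨v, rfl⟩⟩
  have h1 : f (f w) = f v := congrArg Subtype.val hu'
  have h3 : f (v * f w) = 1 := by rw [map_mul, h1, h2]
  refine ⟨v * f w, w, hfix _ h3, ?_⟩
  rw [← hf, mul_assoc, h2, mul_one]

/-- **Linear core.** -/
theorem quad_core {X M : Type*} [Group X] [CommGroup M] [Finite X] [Finite M]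
    (h2 : ∀ v : M, v * v = 1)
    (ρ : X → M →* M) (hρ : ∀ a a' v, ρ (a * a') v = ρ a (ρ a' v))
    (b : M →* M) (hb : ∀ v, b (b v) = v)
    (X0 : Subgroup X) (h0 : ∀ a ∈ X0, ∀ v, ρ a v = v)
    (hq : ∀ a a' v, ρ a (ρ a' v * v) = ρ a' v * v)
    (hodd : ∀ a, a ∉ X0 → ∃ m, Odd m ∧ ∀ v, (fun u => ρ a (b u))^[m] v = v)
    (C : Subgroup M) (hCmem : ∀ v, v ∈ C ↔ ∀ a, ρ a v = v)
    (hoff : Nat.card M * Nat.card X0 ≤ Nat.card X * Nat.card C)
    (hnt : ∃ a, a ∉ X0 ∧ ∃ w, ρ a (b w) ≠ w) :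
    ∃ a x, x ≠ 1 ∧ ρ a x = x ∧ ρ a (b x) = x * b x := by
  have hinv : ∀ v : M, v⁻¹ = v := fun v => inv_eq_of_mul_eq_one_left (h2 v)
  have hcan : ∀ u v : M, u * v * v = u := fun u v => by rw [mul_assoc, h2, mul_one]
  let α : X → M →* M := fun a => ρ a * MonoidHom.id M
  let β : M →* M := b * MonoidHom.id M
  have hα : ∀ a v, α a v = ρ a v * v := fun a v => rfl
  have hβ : ∀ v, β v = b v * v := fun v => rfl
  have L1 : ∀ a v, α a v ∈ C := fun a v => (hCmem _).mpr (fun a' => hq a' a v)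
  have hinvol : ∀ a v, ρ a (ρ a v) = v := by
    intro a v
    have h := hq a a v
    rw [map_mul] at h
    have h3 : ρ a (ρ a v) * ρ a v * ρ a v = ρ a v * v * ρ a v := by rw [h]
    rw [hcan] at h3
    rw [h3, mul_comm (ρ a v) v, hcan]
  have L2 : ∀ a a' v, α (a * a') v = α a v * α a' v := by
    intro a a' v
    simp only [hα, hρ]
    have h := hq a a' v
    rw [map_mul] at h
    have h3 : ρ a (ρ a' v) = ρ a' v * v * ρ a v := by
      rw [← h, hcan]
    rw [h3]
    ac_rfl
  let T : X → M →* M := fun a => β.comp (α a)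
  have hTdef : ∀ a v, T a v = β (α a v) := fun a v => rfl
  have hT : ∀ a a' v, T (a * a') v = T a v * T a' v := by
    intro a a' v
    rw [hTdef, hTdef, hTdef, L2, map_mul]
  have hbβ : ∀ u, b (β u) = β u := by
    intro u
    rw [hβ, map_mul, hb, mul_comm]
  have hβC : ∀ u, u ∈ C → ∀ a, ρ a u = u := fun u hu => (hCmem u).mp hu
  -- the key surjectivity
  have L4 : ∀ a, a ∉ X0 → ∀ v, ∃ u c, c ∈ C ∧ β v = T a u * c := by
    intro a ha v
    obtain ⟨m, hm, hy⟩ := hodd a ha
    obtain ⟨x1, w, hx1, hv⟩ := fix_mul_comm_decomp h2 ((ρ a).comp b) m hm hy v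
    have hx1' : ρ a (b x1) = x1 := hx1
    have hbx1 : b x1 = ρ a x1 := by
      rw [← hinvol a (b x1), hx1']
    refine ⟨b w, α a x1, L1 a x1, ?_⟩
    rw [hv, map_mul]
    have e1 : β x1 = α a x1 := by rw [hβ, hα, hbx1]
    have e2 : β (((ρ a).comp b) w * w) = T a (b w) := by
      rw [hTdef, hα, hβ, hβ]
      show b (ρ a (b w) * w) * (ρ a (b w) * w) = b (ρ a (b w) * b w) * (ρ a (b w) * b w)
      rw [map_mul, map_mul, hb]
      ac_rfl
    rw [e1, e2, mul_comm]
  have hR : ∀ a, a ∉ X0 → C ⊔ (T a).range = C ⊔ β.range := by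
    intro a ha
    apply le_antisymm
    · refine sup_le le_sup_left ?_
      rintro _ ⟨v, rfl⟩
      exact Subgroup.mem_sup_right ⟨α a v, rfl⟩
    · refine sup_le le_sup_left ?_
      rintro _ ⟨v, rfl⟩
      obtain ⟨u, c, hc, huc⟩ := L4 a ha v
      rw [huc]
      exact Subgroup.mul_mem _ (Subgroup.mem_sup_right ⟨u, rfl⟩) (Subgroup.mem_sup_left hc)
  have hC : ∀ a, ∀ c ∈ C, T a c = 1 := by
    intro a c hc
    rw [hTdef, hα, hβC c hc a, h2, map_one]
  have h0' : ∀ a ∈ X0, ∀ v, T a v = 1 := by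
    intro a ha v
    rw [hTdef, hα, h0 a ha v, h2, map_one]
  have hlt : ∃ r ∈ C ⊔ β.range, r ∉ C := by
    by_contra hcon
    push Not at hcon
    have hβin : ∀ v, β v ∈ C := fun v => hcon _ (Subgroup.mem_sup_right ⟨v, rfl⟩)
    obtain ⟨a, ha, w, hw⟩ := hnt
    obtain ⟨m, hm, hy⟩ := hodd a ha
    -- u := y w * w ∈ C
    have hbw : b w = β w * w := by rw [hβ, hcan]
    have hu : ρ a (b w) * w = β w * α a w := by
      rw [hbw, map_mul, hβC _ (hβin w) a, hα, mul_assoc]
    have huC : ρ a (b w) * w ∈ C := by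
      rw [hu]; exact C.mul_mem (hβin w) (L1 a w)
    obtain ⟨u, hudef⟩ : ∃ u, u = ρ a (b w) * w := ⟨_, rfl⟩
    rw [← hudef] at huC
    have hbu : b u = β u * u := by rw [hβ, hcan]
    have hyu : ρ a (b u) = β u * u := by
      rw [hbu, map_mul, hβC _ (hβin u) a, hβC _ huC a]
    have hyu2 : ρ a (b u) * u = β u := by rw [hyu, hcan]
    have h5 : ((ρ a).comp b) (((ρ a).comp b) u * u) = ((ρ a).comp b) u * u := by
      show ρ a (b (ρ a (b u) * u)) = ρ a (b u) * u
      rw [hyu2, hbβ, hβC _ (hβin u) a]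
    have h6 : ((ρ a).comp b) u * u = 1 := iter_trick h2 ((ρ a).comp b) m hm hy u h5
    have h7 : ρ a (b u) = u := by
      have h6' : ρ a (b u) * u = 1 := h6
      exact (eq_inv_of_mul_eq_one_left h6').trans (hinv u)
    have h8 : ((ρ a).comp b) (((ρ a).comp b) w * w) = ((ρ a).comp b) w * w := by
      show ρ a (b (ρ a (b w) * w)) = ρ a (b w) * w
      rw [← hudef]; exact h7
    have h9 : ((ρ a).comp b) w * w = 1 := iter_trick h2 ((ρ a).comp b) m hm hy w h8
    have h9' : ρ a (b w) * w = 1 := h9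
    exact hw ((eq_inv_of_mul_eq_one_left h9').trans (hinv w))
  obtain ⟨a, v, hvC, hTv⟩ := quad_count h2 T hT C (C ⊔ β.range) X0 h0' hR le_sup_left hC hoff hlt
  refine ⟨a, α a v, ?_, hβC _ (L1 a v) a, ?_⟩
  · intro h1
    apply hvC
    have : T a v = 1 := by rw [hTdef, h1, map_one]
    rw [this, one_mul] at hTv
    exact hTv
  · obtain ⟨x, hx⟩ : ∃ x, x = α a v := ⟨_, rfl⟩
    rw [← hx]
    have hxC : x ∈ C := hx ▸ L1 a v
    obtain ⟨c, hcdef⟩ : ∃ c, c = T a v * v := ⟨_, rfl⟩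
    have hcC : c ∈ C := hcdef ▸ hTv
    have hβx : β x = c * v := by
      rw [hcdef, hcan, hx, hTdef]
    have h1 : α a (β x) = x := by
      rw [hβx, map_mul, hα a c, hβC c hcC a, h2, one_mul, hx]
    rw [hα, hβ, map_mul, hβC x hxC a] at h1
    have h3 : ρ a (b x) * b x = x := by
      have : ρ a (b x) * x * (b x * x) = ρ a (b x) * b x * (x * x) := by ac_rfl
      rw [this, h2, mul_one] at h1
      exact h1
    calc ρ a (b x) = ρ a (b x) * b x * b x := (hcan _ _).symm
      _ = x * b x := by rw [h3]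

end Cfsg.Agent.Helper46
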