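import Mathlib
import Cfsg.Agent.Helper46.QuadCore
import Cfsg.Agent.Helper46.Basic

set_option autoImplicit false

/-!
# `Ω₁(Z(Q))` and the group form of the offender lemma (helper46)
-/

namespace Cfsg.Agent.Helper46

open Cfsg

variable {G : Type*} [Group G]

/-- `Ω₁(Z(Q))`: the central elements of `Q` of order at most `2`. -/
def omegaTwoZ (Q : Subgroup G) : Subgroup G where
  carrier := {v | v ∈ Q ∧ (∀ q ∈ Q, q * v = v * q) ∧ v * v = 1}
  mul_mem' := by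
    rintro v w ⟨hv, hvc, hv2⟩ ⟨hw, hwc, hw2⟩
    refine ⟨Q.mul_mem hv hw, fun q hq => ?_, ?_⟩
    · rw [← mul_assoc, hvc q hq, mul_assoc, hwc q hq, mul_assoc]
    · have : v * w * (v * w) = v * (w * v) * w := by group
      rw [this, hvc w hw, ← mul_assoc, hv2, one_mul, hw2]
  one_mem' := ⟨Q.one_mem, fun q _ => by simp, by simp⟩
  inv_mem' := by
    rintro v ⟨hv, hvc, hv2⟩
    have hvi : v⁻¹ = v := inv_eq_of_mul_eq_one_left hv2
    rw [hvi]; exact ⟨hv, hvc, hv2⟩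

theorem omegaTwoZ_le (Q : Subgroup G) : omegaTwoZ Q ≤ Q := fun _ h => h.1

theorem omegaTwoZ_comm {Q : Subgroup G} {x y : G} (hx : x ∈ omegaTwoZ Q) (hy : y ∈ omegaTwoZ Q) :
    x * y = y * x := hy.2.1 x hx.1

theorem omegaTwoZ_sq {Q : Subgroup G} {v : G} (hv : v ∈ omegaTwoZ Q) : v * v = 1 := hv.2.2

theorem omegaTwoZ_conj {Q : Subgroup G} [hQ : Q.Normal] {v : G} (hv : v ∈ omegaTwoZ Q) (g : G) :
    g * v * g⁻¹ ∈ omegaTwoZ Q := by
  refine ⟨hQ.conj_mem v hv.1 g, fun q hq => ?_, ?_⟩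
  · have h1 := hv.2.1 (g⁻¹ * q * g) (by simpa using hQ.conj_mem q hq g⁻¹)
    calc q * (g * v * g⁻¹) = g * (g⁻¹ * q * g * v) * g⁻¹ := by group
      _ = g * (v * (g⁻¹ * q * g)) * g⁻¹ := by rw [h1]
      _ = g * v * g⁻¹ * q := by group
  · calc g * v * g⁻¹ * (g * v * g⁻¹) = g * (v * v) * g⁻¹ := by group
      _ = 1 := by rw [hv.2.2]; group

theorem omegaTwoZ_cent {Q : Subgroup G} {v q : G} (hv : v ∈ omegaTwoZ Q) (hq : q ∈ Q) :
    q * v * q⁻¹ = v := by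
  rw [hv.2.1 q hq]; group

/-- Group form of `quad_core`. -/
theorem quad_bridge [Finite G] (V A Q : Subgroup G) (b : G)
    (hVA : ∀ a ∈ A, ∀ v ∈ V, a * v * a⁻¹ ∈ V) (hVb : ∀ v ∈ V, b * v * b⁻¹ ∈ V)
    (hVc : ∀ x ∈ V, ∀ y ∈ V, x * y = y * x) (hV2 : ∀ v ∈ V, v * v = 1)
    (hb2 : b * b = 1)
    (h0 : ∀ a ∈ A, a ∈ Q → ∀ v ∈ V, a * v * a⁻¹ = v)
    (hq : ∀ a ∈ A, ∀ a' ∈ A, ∀ v ∈ V, a * (a' * v * a'⁻¹ * v) * a⁻¹ = a' * v * a'⁻¹ * v)
    (hodd : ∀ a ∈ A, a ∉ Q → ∃ m, Odd m ∧ ∀ v ∈ V, (a * b) ^ m * v * ((a * b) ^ m)⁻¹ = v)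
    (hoff : Nat.card V * Nat.card ↥(Q.subgroupOf A) ≤
      Nat.card A * Nat.card ↥((Subgroup.centralizer (A : Set G)).subgroupOf V))
    (hnt : ∃ a ∈ A, a ∉ Q ∧ ∃ w ∈ V, a * (b * w * b⁻¹) * a⁻¹ ≠ w) :
    ∃ a ∈ A, ∃ x ∈ V, x ≠ 1 ∧ a * x * a⁻¹ = x ∧
      a * (b * x * b⁻¹) * a⁻¹ = x * (b * x * b⁻¹) := by
  let ρ : ↥A → ↥V →* ↥V := fun a =>
    { toFun := fun v => ⟨a * v * a⁻¹, hVA a a.2 v v.2⟩
      map_one' := Subtype.ext (by simp)
      map_mul' := fun v w => Subtype.ext (by simp [mul_assoc]) }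
  let β : ↥V →* ↥V :=
    { toFun := fun v => ⟨b * v * b⁻¹, hVb v v.2⟩
      map_one' := Subtype.ext (by simp)
      map_mul' := fun v w => Subtype.ext (by simp [mul_assoc]) }
  have hiter : ∀ (a : ↥A) (i : ℕ) (v : ↥V),
      (((fun u => ρ a (β u))^[i] v : ↥V) : G) = ((a : G) * b) ^ i * v * (((a : G) * b) ^ i)⁻¹ := by
    intro a i v
    induction i with
    | zero => simp
    | succ i ih =>
      rw [Function.iterate_succ_apply']
      show (a : G) * (b * ((fun u => ρ a (β u))^[i] v : ↥V) * b⁻¹) * (a : G)⁻¹ = _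
      rw [ih, pow_succ']
      generalize ((a : G) * b) ^ i = P
      group
  let _ : CommGroup ↥V := { (inferInstance : Group ↥V) with
    mul_comm := fun x y => Subtype.ext (hVc x x.2 y y.2) }
  have key := quad_core (X := ↥A) (M := ↥V) (fun v => Subtype.ext (hV2 v v.2)) ρ ?_ β ?_
    (Q.subgroupOf A) ?_ ?_ ?_ ((Subgroup.centralizer (A : Set G)).subgroupOf V) ?_ hoff ?_
  · obtain ⟨a, x, hx1, hax, habx⟩ := key
    exact ⟨a, a.2, x, x.2, fun h => hx1 (Subtype.ext h), congrArg Subtype.val hax,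
      congrArg Subtype.val habx⟩
  · intro a a' v
    apply Subtype.ext
    show ((a * a' : ↥A) : G) * v * ((a * a' : ↥A) : G)⁻¹ = a * (a' * v * (a' : G)⁻¹) * (a : G)⁻¹
    rw [Subgroup.coe_mul]; group
  · intro v
    apply Subtype.ext
    show b * (b * v * b⁻¹) * b⁻¹ = v
    have : b * (b * (v : G) * b⁻¹) * b⁻¹ = (b * b) * v * (b * b)⁻¹ := by group
    rw [this, hb2]; simp
  · intro a ha v
    exact Subtype.ext (h0 a a.2 (Subgroup.mem_subgroupOf.mp ha) v v.2)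
  · intro a a' v
    exact Subtype.ext (hq a a.2 a' a'.2 v v.2)
  · intro a ha
    obtain ⟨m, hm, hv⟩ := hodd a a.2 (fun h => ha (Subgroup.mem_subgroupOf.mpr h))
    refine ⟨m, hm, fun v => Subtype.ext ?_⟩
    rw [hiter a m v]
    exact hv v v.2
  · intro v
    rw [Subgroup.mem_subgroupOf, Subgroup.mem_centralizer_iff]
    constructor
    · intro h a
      apply Subtype.ext
      show (a : G) * v * (a : G)⁻¹ = v
      rw [h a a.2]; group
    · intro h a ha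
      have h1 : a * (v : G) * a⁻¹ = v := congrArg Subtype.val (h ⟨a, ha⟩)
      exact mul_inv_eq_iff_eq_mul.mp h1
  · obtain ⟨a0, ha0A, ha0Q, w, hwV, hne⟩ := hnt
    exact ⟨⟨a0, ha0A⟩, fun h => ha0Q (Subgroup.mem_subgroupOf.mp h), ⟨w, hwV⟩,
      fun h => hne (congrArg Subtype.val h)⟩

end Cfsg.Agent.Helper46
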