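import Mathlib
import Cfsg.Agent.Helper46.ClassTwoA
import Cfsg.Agent.Helper53.BaerSuzuki
import Cfsg.Agent.Helper19.ThompsonJ
import Cfsg.Agent.Helper19.ThompsonNPC

set_option autoImplicit false

/-!
# Sylow `2`-subgroups of class at most `2`: commutator facts and the offender inequality (helper46)
-/

namespace Cfsg.Agent.Helper46

open Cfsg

open scoped commutatorElement

universe u

variable {G : Type u} [Group G]

/-- Class at most `2`, elementwise: commutators are central. -/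
def Cl2 (S : Subgroup G) : Prop :=
  ∀ x ∈ S, ∀ y ∈ S, ∀ z ∈ S, x * y * x⁻¹ * y⁻¹ * z = z * (x * y * x⁻¹ * y⁻¹)

theorem cl2_of_lowerCentralSeries {S : Subgroup G} (h : Subgroup.lowerCentralSeries S 2 = ⊥) :
    Cl2 S := by
  intro x hx y hy z hz
  have h1 : ⁅⁅x, y⁆, z⁆ ∈ Subgroup.lowerCentralSeries S 2 := by
    rw [Subgroup.lowerCentralSeries_succ, Subgroup.lowerCentralSeries_succ,
      Subgroup.lowerCentralSeries_zero]
    exact Subgroup.commutator_mem_commutator (Subgroup.commutator_mem_commutator hx hy) hz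
  rw [h, Subgroup.mem_bot, commutatorElement_eq_one_iff_mul_comm] at h1
  simpa [commutatorElement_def] using h1

theorem Cl2.mono {S T : Subgroup G} (h : Cl2 S) (hTS : T ≤ S) : Cl2 T :=
  fun x hx y hy z hz => h x (hTS hx) y (hTS hy) z (hTS hz)

theorem cl2_sylow [Finite G] {S : Sylow 2 G} (hcl : Cl2 (S : Subgroup G)) (S' : Sylow 2 G) :
    Cl2 (S' : Subgroup G) := by
  have : Fact (Nat.Prime 2) := ⟨Nat.prime_two⟩
  obtain ⟨g, rfl⟩ := MulAction.exists_smul_eq G S S'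
  have hcoe : ((g • S : Sylow 2 G) : Subgroup G) =
      (S : Subgroup G).map (MulAut.conj g).toMonoidHom := by
    rw [Sylow.coe_subgroup_smul]; rfl
  rw [hcoe]
  rintro _ ⟨x, hx, rfl⟩ _ ⟨y, hy, rfl⟩ _ ⟨z, hz, rfl⟩
  have h := hcl x hx y hy z hz
  simp only [MulEquiv.coe_toMonoidHom, MulAut.conj_apply]
  calc g * x * g⁻¹ * (g * y * g⁻¹) * (g * x * g⁻¹)⁻¹ * (g * y * g⁻¹)⁻¹ * (g * z * g⁻¹)
      = g * (x * y * x⁻¹ * y⁻¹ * z) * g⁻¹ := by group
    _ = g * (z * (x * y * x⁻¹ * y⁻¹)) * g⁻¹ := by rw [h]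
    _ = _ := by group

/-- Commutators of involutions with `O₂(G)` lie in `Ω₁(Z(O₂(G)))` and are central in every Sylow
`2`-subgroup containing the involution. -/
theorem invol_comm [Finite G] (hcl : ∀ S' : Sylow 2 G, Cl2 (S' : Subgroup G)) {t : G}
    (ht : t * t = 1) {q : G} (hq : q ∈ pCore 2 G) :
    t * q * t⁻¹ * q⁻¹ ∈ omegaTwoZ (pCore 2 G) ∧
    ∀ S' : Sylow 2 G, t ∈ (S' : Subgroup G) → ∀ s ∈ (S' : Subgroup G),
      t * q * t⁻¹ * q⁻¹ * s = s * (t * q * t⁻¹ * q⁻¹) := by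
  have : Fact (Nat.Prime 2) := ⟨Nat.prime_two⟩
  have hQn : (pCore 2 G).Normal := pCore_normal 2 G
  have hsec : ∀ S' : Sylow 2 G, t ∈ (S' : Subgroup G) → ∀ s ∈ (S' : Subgroup G),
      t * q * t⁻¹ * q⁻¹ * s = s * (t * q * t⁻¹ * q⁻¹) :=
    fun S' htS s hs => hcl S' t htS q (pCore_le_sylow S' hq) s hs
  refine ⟨?_, hsec⟩
  obtain ⟨S0, hS0⟩ := (Helper53.isPGroup_zpowers_of_pow (p := 2) (y := t) 1
    (by rw [pow_one, pow_two]; exact ht)).exists_le_sylow
  have htS0 : t ∈ (S0 : Subgroup G) := hS0 (Subgroup.mem_zpowers t)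
  obtain ⟨c, hc⟩ : ∃ c, c = t * q * t⁻¹ * q⁻¹ := ⟨_, rfl⟩
  rw [← hc]
  have hcomm : ∀ s ∈ (S0 : Subgroup G), c * s = s * c := fun s hs => hc ▸ hsec S0 htS0 s hs
  have hcQ : c ∈ pCore 2 G := by
    rw [hc]; exact (pCore 2 G).mul_mem (hQn.conj_mem q hq t) ((pCore 2 G).inv_mem hq)
  refine ⟨hcQ, fun q' hq' => (hcomm q' (pCore_le_sylow S0 hq')).symm, ?_⟩
  have e1 : t * q * t⁻¹ = c * q := by rw [hc]; group
  have e2 : t * (t * q * t⁻¹) * t⁻¹ = q := by
    have : t * (t * q * t⁻¹) * t⁻¹ = (t * t) * q * (t * t)⁻¹ := by group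
    rw [this, ht]; simp
  rw [e1] at e2
  have e3 : t * (c * q) * t⁻¹ = c * (t * q * t⁻¹) := by
    rw [← mul_assoc t c q, ← hcomm t htS0]; group
  rw [e3, e1, ← mul_assoc] at e2
  exact mul_right_cancel (e2.trans (one_mul q).symm)

/-- The join of two commuting elementary abelian subgroups. -/
theorem ea_sup {p : ℕ} {H K : Subgroup G} (hK : K.Normal) (hH : Helper19.EA p H)
    (hKe : Helper19.EA p K) (hHK : ∀ h ∈ H, ∀ k ∈ K, h * k = k * h) : Helper19.EA p (H ⊔ K) := by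
  constructor
  · intro x hx y hy
    obtain ⟨h, hh, k, hk, rfl⟩ := (Subgroup.mem_sup_of_normal_right).mp hx
    obtain ⟨h', hh', k', hk', rfl⟩ := (Subgroup.mem_sup_of_normal_right).mp hy
    calc h * k * (h' * k') = h * (k * h') * k' := by group
      _ = h * (h' * k) * k' := by rw [← hHK h' hh' k hk]
      _ = (h * h') * (k * k') := by group
      _ = (h' * h) * (k' * k) := by rw [hH.1 h hh h' hh', hKe.1 k hk k' hk']
      _ = h' * (h * k') * k := by group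
      _ = h' * (k' * h) * k := by rw [hHK h hh k' hk']
      _ = h' * k' * (h * k) := by group
  · intro x hx
    obtain ⟨h, hh, k, hk, rfl⟩ := (Subgroup.mem_sup_of_normal_right).mp hx
    have hc : Commute h k := hHK h hh k hk
    rw [hc.mul_pow, hH.2 h hh, hKe.2 k hk, one_mul]

theorem card_subgroupOf_eq_card_inf (H K : Subgroup G) :
    Nat.card ↥(H.subgroupOf K) = Nat.card ↥(H ⊓ K) := by
  rw [← Subgroup.inf_subgroupOf_right H K]
  exact Nat.card_congr (Subgroup.subgroupOfEquivOfLe inf_le_right).toEquiv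

/-- The offender inequality for a largest elementary abelian subgroup. -/
theorem offender_ineq [Finite G] (S : Sylow 2 G) (A : Subgroup G)
    (hA : Helper19.MaxEA 2 (S : Subgroup G) A) :
    Nat.card ↥(omegaTwoZ (pCore 2 G)) * Nat.card ↥((pCore 2 G).subgroupOf A) ≤
      Nat.card A *
        Nat.card ↥((Subgroup.centralizer (A : Set G)).subgroupOf (omegaTwoZ (pCore 2 G))) := by
  have : Fact (Nat.Prime 2) := ⟨Nat.prime_two⟩
  have hQn : (pCore 2 G).Normal := pCore_normal 2 G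
  obtain ⟨Q, hQ⟩ : ∃ Q, Q = pCore 2 G := ⟨_, rfl⟩
  rw [← hQ]
  have hQn' : Q.Normal := hQ ▸ hQn
  have hVn : (omegaTwoZ Q).Normal := ⟨fun v hv g => omegaTwoZ_conj hv g⟩
  have hVEA : Helper19.EA 2 (omegaTwoZ Q) :=
    ⟨fun x hx y hy => omegaTwoZ_comm hx hy, fun v hv => by rw [pow_two]; exact omegaTwoZ_sq hv⟩
  have hB : Helper19.EA 2 ((A ⊓ Q) ⊔ omegaTwoZ Q) :=
    ea_sup hVn (hA.2.1.mono inf_le_left) hVEA (fun h hh k hk => hk.2.1 h hh.2)
  have hQS : Q ≤ (S : Subgroup G) := hQ ▸ pCore_le_sylow S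
  have h2 := hA.2.2 _ (sup_le (inf_le_left.trans hA.1) ((omegaTwoZ_le Q).trans hQS)) hB
  have h3 := Helper19.card_sup_mul_card_inf' (A ⊓ Q) (omegaTwoZ Q)
    (by rw [Subgroup.normalizer_eq_top_iff.mpr hVn]; exact le_top)
  have h4 : (A ⊓ Q) ⊓ omegaTwoZ Q ≤ Subgroup.centralizer (A : Set G) ⊓ omegaTwoZ Q := by
    intro x hx
    refine Subgroup.mem_inf.mpr ⟨?_, hx.2⟩
    rw [Subgroup.mem_centralizer_iff]
    intro y hy
    exact hA.2.1.1 y hy x hx.1.1
  have h5 := Subgroup.card_le_of_le h4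
  rw [card_subgroupOf_eq_card_inf, card_subgroupOf_eq_card_inf, inf_comm Q A, mul_comm, ← h3]
  exact Nat.mul_le_mul h2 h5

/-- A `2`-element that is central modulo `O₂(G)` lies in `O₂(G)`. -/
theorem central_mem_core [Finite G] (t : G)
    (hcen : ∀ g : G, g * t * g⁻¹ * t⁻¹ ∈ pCore 2 G) (k : ℕ) (hk : t ^ 2 ^ k ∈ pCore 2 G) :
    t ∈ pCore 2 G := by
  have hQn : (pCore 2 G).Normal := pCore_normal 2 G
  obtain ⟨π, hπ⟩ : ∃ π : G →* G ⧸ pCore 2 G, π = QuotientGroup.mk' (pCore 2 G) := ⟨_, rfl⟩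
  have hπ1 : ∀ x : G, π x = 1 ↔ x ∈ pCore 2 G := by
    intro x; rw [hπ]; exact QuotientGroup.eq_one_iff x
  have hπc : ∀ y : G ⧸ pCore 2 G, y * π t = π t * y := by
    intro y
    obtain ⟨g, rfl⟩ : ∃ g, π g = y := by
      rw [hπ]; exact QuotientGroup.mk'_surjective _ y
    have h1 := (hπ1 _).mpr (hcen g)
    rw [map_mul, map_mul, map_mul, map_inv, map_inv] at h1
    have h2 : π g * π t = π g * π t * (π g)⁻¹ * (π t)⁻¹ * (π t * π g) := by group
    rw [h2, h1, one_mul]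
  have hZn : (Subgroup.zpowers (π t)).Normal := by
    refine ⟨fun x hx y => ?_⟩
    obtain ⟨j, rfl⟩ := Subgroup.mem_zpowers_iff.mp hx
    have hc : Commute y (π t) := hπc y
    have : y * π t ^ j * y⁻¹ = π t ^ j := by
      rw [(hc.zpow_right j).eq]; group
    rw [this]; exact hx
  have hNn : ((Subgroup.zpowers (π t)).comap π).Normal := hZn.comap π
  have hNp : IsPGroup 2 ((Subgroup.zpowers (π t)).comap π) := by
    apply isPGroup_of_forall_pow
    intro x hx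
    obtain ⟨j, hj⟩ := Subgroup.mem_zpowers_iff.mp (Subgroup.mem_comap.mp hx)
    have h1 : π (x ^ 2 ^ k) = 1 := by
      rw [map_pow, ← hj, ← zpow_natCast, ← zpow_mul, mul_comm, zpow_mul, zpow_natCast, ← map_pow,
        (hπ1 _).mpr hk, one_zpow]
    obtain ⟨l, hl⟩ := pow_mem_pCore ((hπ1 _).mp h1)
    exact ⟨k + l, by rw [pow_add, pow_mul]; exact hl⟩
  exact le_pCore hNn hNp (Subgroup.mem_comap.mpr (Subgroup.mem_zpowers (π t)))

end Cfsg.Agent.Helper46
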