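import Mathlib
import Cfsg.Agent.Helper46.ClassTwoB
import Cfsg.Agent.Helper46.SFourE

set_option autoImplicit false

/-!
# The minimal configuration for `S₄`-free groups with Sylow `2`-subgroups of class `≤ 2` (helper46)
-/

namespace Cfsg.Agent.Helper46

open Cfsg

universe u

variable {G : Type u} [Group G] [Finite G]

/-- In the minimal configuration `G = ⟨O₂(G), A, b⟩`, the products `a b` (`a ∈ A ∖ O₂(G)`) have
odd order modulo `O₂(G)`. -/
theorem odd_mod_core (hcl : ∀ S' : Sylow 2 G, Cl2 (S' : Subgroup G))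
    (hC : Subgroup.centralizer (pCore 2 G : Set G) ≤ pCore 2 G)
    (A : Subgroup G) (hAc : ∀ x ∈ A, ∀ y ∈ A, x * y = y * x)
    (IH : ∀ H : Subgroup G, H ≠ ⊤ → pCore 2 G ≤ H → A ≤ H →
      ∃ N : Subgroup G, N ≤ H ∧ IsPGroup 2 N ∧ H ≤ Subgroup.normalizer (N : Set G) ∧ A ≤ N)
    (b : G) (hb : b * b = 1) (hgen : pCore 2 G ⊔ A ⊔ Subgroup.zpowers b = ⊤)
    (a : G) (haA : a ∈ A) (ha2 : a * a = 1) (haQ : a ∉ pCore 2 G) :
    ∃ m, Odd m ∧ (a * b) ^ m ∈ pCore 2 G := by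
  have : Fact (Nat.Prime 2) := ⟨Nat.prime_two⟩
  have hQn : (pCore 2 G).Normal := pCore_normal 2 G
  obtain ⟨π, hπ⟩ : ∃ π : G →* G ⧸ pCore 2 G, π = QuotientGroup.mk' (pCore 2 G) := ⟨_, rfl⟩
  have hπ1 : ∀ x : G, π x = 1 ↔ x ∈ pCore 2 G := by
    intro x; rw [hπ]; exact QuotientGroup.eq_one_iff x
  have hcomm_of : ∀ x y : G, π x * π y = π y * π x → x * y * x⁻¹ * y⁻¹ ∈ pCore 2 G := by
    intro x y h
    rw [← hπ1]
    simp only [map_mul, map_inv]
    rw [h]; group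
  have hcomm_to : ∀ x y : G, x * y * x⁻¹ * y⁻¹ ∈ pCore 2 G → π x * π y = π y * π x := by
    intro x y h
    have h1 := (hπ1 _).mpr h
    simp only [map_mul, map_inv] at h1
    have h2 : π x * π y = π x * π y * (π x)⁻¹ * (π y)⁻¹ * (π y * π x) := by group
    rw [h2, h1, one_mul]
  have hsyl : ∀ S' : Sylow 2 G, ∀ x ∈ (S' : Subgroup G), ∀ y ∈ (S' : Subgroup G),
      x * y * x⁻¹ * y⁻¹ ∈ pCore 2 G := by
    intro S' x hx y hy
    apply hC
    rw [Subgroup.mem_centralizer_iff]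
    intro q hq
    exact (hcl S' x hx y hy q (pCore_le_sylow S' hq)).symm
  have hmemK : ∀ (t : G) (X : Subgroup G), (∀ x ∈ X, π t * π x = π x * π t) →
      X ≤ (Subgroup.centralizer {π t}).comap π := by
    intro t X h x hx
    rw [Subgroup.mem_comap, Subgroup.mem_centralizer_iff]
    intro h' hh
    rw [Set.mem_singleton_iff] at hh
    subst hh
    exact h x hx
  have hQK : ∀ t : G, ∀ q ∈ pCore 2 G, π t * π q = π q * π t := by
    intro t q hq
    rw [(hπ1 q).mpr hq]; simp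
  by_cases hodd : Odd (orderOf (π (a * b)))
  · exact ⟨_, hodd, (hπ1 _).mp (by rw [map_pow]; exact pow_orderOf_eq_one _)⟩
  exfalso
  rw [Nat.not_odd_iff_even] at hodd
  obtain ⟨k, hk⟩ := hodd
  have hpos : 0 < orderOf (π (a * b)) := orderOf_pos _
  have hk0 : k ≠ 0 := by omega
  obtain ⟨z, hz⟩ : ∃ z, z = (a * b) ^ k := ⟨_, rfl⟩
  have hz1 : π z ≠ 1 := by
    rw [hz, map_pow]
    exact pow_ne_one_of_lt_orderOf hk0 (by omega)
  have hz2 : π z * π z = 1 := by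
    rw [hz, map_pow, ← pow_add, ← hk]; exact pow_orderOf_eq_one _
  have hzQ : z ∉ pCore 2 G := fun h => hz1 ((hπ1 z).mpr h)
  have hainv : a⁻¹ = a := inv_eq_of_mul_eq_one_left ha2
  have hbinv : b⁻¹ = b := inv_eq_of_mul_eq_one_left hb
  have hza : a * z * a⁻¹ = z⁻¹ := by
    rw [hz, ← conj_pow, ← inv_pow]
    congr 1
    rw [mul_inv_rev, hainv, hbinv, ← mul_assoc, ha2, one_mul]
  have hzb : b * z * b⁻¹ = z⁻¹ := by
    rw [hz, ← conj_pow, ← inv_pow]
    congr 1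
    rw [mul_inv_rev, hainv, hbinv, mul_assoc, mul_assoc, hb, mul_one]
  have hzinv : (π z)⁻¹ = π z := inv_eq_of_mul_eq_one_left hz2
  have hπza : π a * π z = π z * π a := by
    have h1 : π a * π z * (π a)⁻¹ = π z := by
      rw [← map_inv, ← map_mul, ← map_mul, hza, map_inv, hzinv]
    calc π a * π z = π a * π z * (π a)⁻¹ * π a := by group
      _ = π z * π a := by rw [h1]
  have hπzb : π b * π z = π z * π b := by
    have h1 : π b * π z * (π b)⁻¹ = π z := by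
      rw [← map_inv, ← map_mul, ← map_mul, hzb, map_inv, hzinv]
    calc π b * π z = π b * π z * (π b)⁻¹ * π b := by group
      _ = π z * π b := by rw [h1]
  have hzpow : ∃ j, z ^ 2 ^ j = 1 := by
    have hz2Q : z ^ 2 ∈ pCore 2 G := by rw [← hπ1, map_pow, pow_two]; exact hz2
    obtain ⟨l, hl⟩ := pow_mem_pCore hz2Q
    exact ⟨1 + l, by rw [pow_add, pow_one, pow_mul]; exact hl⟩
  by_cases hH1 : pCore 2 G ⊔ A ⊔ Subgroup.zpowers z = ⊤
  · apply haQ
    apply central_mem_core a _ 1 (by rw [pow_one, pow_two, ha2]; exact one_mem _)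
    intro g
    apply hcomm_of
    have hK : pCore 2 G ⊔ A ⊔ Subgroup.zpowers z ≤ (Subgroup.centralizer {π a}).comap π := by
      refine sup_le (sup_le (hmemK a _ (hQK a)) (hmemK a _ ?_)) ?_
      · intro a' ha'
        rw [← map_mul, ← map_mul, hAc a haA a' ha']
      · rw [Subgroup.zpowers_le]
        exact hmemK a (Subgroup.zpowers z) (fun x hx => by
          obtain ⟨j, rfl⟩ := Subgroup.mem_zpowers_iff.mp hx
          rw [map_zpow]
          exact ((show Commute (π a) (π z) from hπza).zpow_right j).eq) (Subgroup.mem_zpowers z)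
    have hg : g ∈ (Subgroup.centralizer {π a}).comap π := hK (hH1 ▸ Subgroup.mem_top g)
    rw [Subgroup.mem_comap, Subgroup.mem_centralizer_iff] at hg
    exact (hg (π a) rfl).symm
  · obtain ⟨N, hNH, hN2, hNn, hAN⟩ :=
      IH (pCore 2 G ⊔ A ⊔ Subgroup.zpowers z) hH1 (le_sup_left.trans le_sup_left)
        (le_sup_right.trans le_sup_left)
    obtain ⟨j, hj⟩ := hzpow
    have hZ2 : IsPGroup 2 (Subgroup.zpowers z) := Helper53.isPGroup_zpowers_of_pow j hj
    have hR : IsPGroup 2 ↥(N ⊔ Subgroup.zpowers z) :=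
      IsPGroup.to_sup_of_normal_left' hN2 hZ2 (le_sup_right.trans hNn)
    obtain ⟨S', hS'⟩ := hR.exists_le_sylow
    apply hzQ
    apply central_mem_core z _ j (by rw [hj]; exact one_mem _)
    intro g
    apply hcomm_of
    have hK : pCore 2 G ⊔ A ⊔ Subgroup.zpowers b ≤ (Subgroup.centralizer {π z}).comap π := by
      refine sup_le (sup_le (hmemK z _ (hQK z)) (hmemK z _ ?_)) ?_
      · intro a' ha'
        exact hcomm_to z a' (hsyl S' z (hS' (Subgroup.mem_sup_right (Subgroup.mem_zpowers z))) a'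
          (hS' (Subgroup.mem_sup_left (hAN ha'))))
      · rw [Subgroup.zpowers_le]
        exact hmemK z (Subgroup.zpowers b) (fun x hx => by
          obtain ⟨j, rfl⟩ := Subgroup.mem_zpowers_iff.mp hx
          rw [map_zpow]
          exact ((show Commute (π z) (π b) from hπzb.symm).zpow_right j).eq)
          (Subgroup.mem_zpowers b)
    have hg : g ∈ (Subgroup.centralizer {π z}).comap π := hK (hgen ▸ Subgroup.mem_top g)
    rw [Subgroup.mem_comap, Subgroup.mem_centralizer_iff] at hg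
    exact (hg (π z) rfl).symm

/-- The inductive step: a largest elementary abelian subgroup lies in `O₂(G)`. -/
theorem class_two_step (hC : Subgroup.centralizer (pCore 2 G : Set G) ≤ pCore 2 G)
    (hS4 : ¬ Involves (Equiv.Perm (Fin 4)) G)
    (S : Sylow 2 G) (hcl : Cl2 (S : Subgroup G))
    (A : Subgroup G) (hA : Helper19.MaxEA 2 (S : Subgroup G) A)
    (IH : ∀ H : Subgroup G, H ≠ ⊤ → pCore 2 G ≤ H → A ≤ H →
      ∃ N : Subgroup G, N ≤ H ∧ IsPGroup 2 N ∧ H ≤ Subgroup.normalizer (N : Set G) ∧ A ≤ N) :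
    A ≤ pCore 2 G := by
  have : Fact (Nat.Prime 2) := ⟨Nat.prime_two⟩
  have hQn : (pCore 2 G).Normal := pCore_normal 2 G
  have hcl' : ∀ S' : Sylow 2 G, Cl2 (S' : Subgroup G) := cl2_sylow hcl
  by_contra hAQ
  obtain ⟨a0, ha0A, ha0Q⟩ := SetLike.not_le_iff_exists.mp hAQ
  have hsq : ∀ a ∈ A, a * a = 1 := fun a ha => by rw [← pow_two]; exact hA.2.1.2 a ha
  have ha02 := hsq a0 ha0A
  -- Baer–Suzuki
  have hBS : ∃ g : G, ∀ k : ℕ, (a0 * (g * a0 * g⁻¹)) ^ (2 ^ k) ≠ 1 := by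
    by_contra hcon
    push Not at hcon
    obtain ⟨N, hNn, hN2, haN⟩ := Helper53.baer_suzuki_two a0 ha02 hcon
    exact ha0Q (le_pCore hNn hN2 haN)
  obtain ⟨g, hg⟩ := hBS
  obtain ⟨b, hbdef⟩ : ∃ b, b = g * a0 * g⁻¹ := ⟨_, rfl⟩
  rw [← hbdef] at hg
  have hb2 : b * b = 1 := by
    rw [hbdef]
    calc g * a0 * g⁻¹ * (g * a0 * g⁻¹) = g * (a0 * a0) * g⁻¹ := by group
      _ = 1 := by rw [ha02]; group
  have hbZ : IsPGroup 2 (Subgroup.zpowers b) :=
    Helper53.isPGroup_zpowers_of_pow 1 (by rw [pow_one, pow_two]; exact hb2)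
  -- generation
  have hgen : pCore 2 G ⊔ A ⊔ Subgroup.zpowers b = ⊤ := by
    by_contra hne
    obtain ⟨N, hNH, hN2, hNn, hAN⟩ :=
      IH (pCore 2 G ⊔ A ⊔ Subgroup.zpowers b) hne (le_sup_left.trans le_sup_left)
        (le_sup_right.trans le_sup_left)
    have hR : IsPGroup 2 ↥(N ⊔ Subgroup.zpowers b) :=
      IsPGroup.to_sup_of_normal_left' hN2 hbZ (le_sup_right.trans hNn)
    obtain ⟨k, hk⟩ := pow_eq_one_of_isPGroup hR (Subgroup.mul_mem _
      (Subgroup.mem_sup_left (hAN ha0A)) (Subgroup.mem_sup_right (Subgroup.mem_zpowers b)))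
    exact hg k hk
  -- V
  obtain ⟨V, hV⟩ : ∃ V, V = omegaTwoZ (pCore 2 G) := ⟨_, rfl⟩
  have hVconj : ∀ v ∈ V, ∀ x : G, x * v * x⁻¹ ∈ V := fun v hv x => by
    rw [hV] at hv ⊢; exact omegaTwoZ_conj hv x
  have hVc : ∀ x ∈ V, ∀ y ∈ V, x * y = y * x := fun x hx y hy => by
    rw [hV] at hx hy; exact omegaTwoZ_comm hx hy
  have hV2 : ∀ v ∈ V, v * v = 1 := fun v hv => by rw [hV] at hv; exact omegaTwoZ_sq hv
  have hVQ : V ≤ pCore 2 G := hV ▸ omegaTwoZ_le _
  have hVcent : ∀ q ∈ pCore 2 G, ∀ v ∈ V, q * v * q⁻¹ = v := fun q hq v hv => by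
    rw [hV] at hv; exact omegaTwoZ_cent hv hq
  have hVinv : ∀ v ∈ V, v⁻¹ = v := fun v hv => inv_eq_of_mul_eq_one_left (hV2 v hv)
  have hic : ∀ t : G, t * t = 1 → ∀ q ∈ pCore 2 G, t * q * t⁻¹ * q⁻¹ ∈ V := fun t ht q hq => by
    rw [hV]; exact (invol_comm hcl' ht hq).1
  -- the hypotheses of the bridge
  have hq : ∀ a ∈ A, ∀ a' ∈ A, ∀ v ∈ V, a * (a' * v * a'⁻¹ * v) * a⁻¹ = a' * v * a'⁻¹ * v := by
    intro a ha a' ha' v hv
    have hc := (invol_comm hcl' (hsq a' ha') (hVQ hv)).2 S (hA.1 ha') a (hA.1 ha)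
    rw [hVinv v hv] at hc
    rw [← hc, mul_inv_cancel_right]
  have hodd : ∀ a ∈ A, a ∉ pCore 2 G →
      ∃ m, Odd m ∧ ∀ v ∈ V, (a * b) ^ m * v * ((a * b) ^ m)⁻¹ = v := by
    intro a haA haQ
    obtain ⟨m, hm, hmQ⟩ := odd_mod_core hcl' hC A hA.2.1.1 IH b hb2 hgen a haA (hsq a haA) haQ
    exact ⟨m, hm, fun v hv => hVcent _ hmQ v hv⟩
  have hnt : ∃ a ∈ A, a ∉ pCore 2 G ∧ ∃ w ∈ V, a * (b * w * b⁻¹) * a⁻¹ ≠ w := by
    refine ⟨a0, ha0A, ha0Q, ?_⟩
    by_contra hcon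
    push Not at hcon
    obtain ⟨y, hy⟩ : ∃ y, y = a0 * b := ⟨_, rfl⟩
    have hyV : ∀ w ∈ V, y * w * y⁻¹ = w := by
      intro w hw
      calc y * w * y⁻¹ = a0 * (b * w * b⁻¹) * a0⁻¹ := by rw [hy]; group
        _ = w := hcon w hw
    have hyy : y * y ∈ pCore 2 G := by
      apply hC
      rw [Subgroup.mem_centralizer_iff]
      intro q hq
      obtain ⟨c, hc⟩ : ∃ c, c = y * q * y⁻¹ * q⁻¹ := ⟨_, rfl⟩
      have hcV : c ∈ V := by
        have e : c = a0 * (b * q * b⁻¹ * q⁻¹) * a0⁻¹ * (a0 * q * a0⁻¹ * q⁻¹) := by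
          rw [hc, hy]; group
        rw [e]
        exact V.mul_mem (hVconj _ (hic b hb2 q hq) a0) (hic a0 ha02 q hq)
      have h1 : y * c * y⁻¹ = c := hyV c hcV
      have h2 := hV2 c hcV
      have hcq : c * q * y = y * q := by rw [hc]; group
      have hyc : y * c = c * y := by
        calc y * c = y * c * y⁻¹ * y := by group
          _ = c * y := by rw [h1]
      calc q * (y * y) = (c * c) * q * (y * y) := by rw [h2, one_mul]
        _ = c * (c * q * y) * y := by group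
        _ = c * (y * q) * y := by rw [hcq]
        _ = (c * y) * q * y := by group
        _ = (y * c) * q * y := by rw [hyc]
        _ = y * (c * q * y) := by group
        _ = y * (y * q) := by rw [hcq]
        _ = y * y * q := by group
    obtain ⟨l, hl⟩ := pow_mem_pCore hyy
    apply hg (1 + l)
    rw [← hy, pow_add, pow_one, pow_mul, pow_two]
    exact hl
  obtain ⟨a, haA, x, hxV, hx1, hax, habx⟩ := quad_bridge V A (pCore 2 G) b
    (fun a _ v hv => hVconj v hv a) (fun v hv => hVconj v hv b) hVc hV2 hb2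
    (fun a _ haQ v hv => hVcent a haQ v hv) hq hodd
    (by rw [hV]; exact offender_ineq S A hA) hnt
  -- `S₄`
  have ha2 := hsq a haA
  have hainv : a⁻¹ = a := inv_eq_of_mul_eq_one_left ha2
  have hbinv : b⁻¹ = b := inv_eq_of_mul_eq_one_left hb2
  obtain ⟨y, hy⟩ : ∃ y, y = a * b := ⟨_, rfl⟩
  have hay : a * y * a⁻¹ = y⁻¹ := by
    rw [hy, mul_inv_rev, hainv, hbinv, ← mul_assoc, ha2, one_mul]
  obtain ⟨w, hw⟩ : ∃ w, w = y ^ 3 := ⟨_, rfl⟩
  have haw : a * w⁻¹ * a⁻¹ = w := by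
    rw [hw, ← inv_pow, ← conj_pow]
    congr 1
    have h : a * y⁻¹ * a⁻¹ = (a * y * a⁻¹)⁻¹ := by group
    rw [h, hay, inv_inv]
  obtain ⟨T, hT⟩ : ∃ T, T = V ⊓ Subgroup.centralizer ({w} : Set G) := ⟨_, rfl⟩
  have hmemT : ∀ v, v ∈ T ↔ v ∈ V ∧ w * v = v * w := by
    intro v
    rw [hT, Subgroup.mem_inf, Subgroup.mem_centralizer_iff]
    constructor
    · rintro ⟨h1, h2⟩; exact ⟨h1, h2 w rfl⟩
    · rintro ⟨h1, h2⟩
      refine ⟨h1, fun h hh => ?_⟩
      rw [Set.mem_singleton_iff] at hh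
      subst hh; exact h2
  have hT2 : IsPGroup 2 T :=
    (pCore_isPGroup 2 G).to_le (fun v hv => hVQ ((hmemT v).mp hv).1)
  have hxb : b * x * b⁻¹ ∈ V := hVconj x hxV b
  have e1 : y * x * y⁻¹ = x * (b * x * b⁻¹) := by rw [← habx, hy]; group
  have e2 : y * (b * x * b⁻¹) * y⁻¹ = x := by
    have : y * (b * x * b⁻¹) * y⁻¹ = a * ((b * b) * x * (b * b)⁻¹) * a⁻¹ := by rw [hy]; group
    rw [this, hb2]; simpa using hax
  have e3 : y * (x * (b * x * b⁻¹)) * y⁻¹ = b * x * b⁻¹ := by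
    have : y * (x * (b * x * b⁻¹)) * y⁻¹ = (y * x * y⁻¹) * (y * (b * x * b⁻¹) * y⁻¹) := by group
    rw [this, e1, e2, hVc x hxV _ hxb, mul_assoc, hV2 x hxV, mul_one]
  have hxT : x ∈ T := by
    rw [hmemT]
    refine ⟨hxV, ?_⟩
    have hw3 : w = y * y * y := by rw [hw, pow_succ, pow_succ, pow_one]
    have h3 : w * x * w⁻¹ = y * (y * (y * x * y⁻¹) * y⁻¹) * y⁻¹ := by rw [hw3]; group
    rw [e1, e3, e2] at h3
    exact mul_inv_eq_iff_eq_mul.mp h3
  have hxN : a ∈ Subgroup.normalizer (T : Set G) := by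
    apply mem_normalizer_of_forall_conj
    intro v hv
    obtain ⟨hvV, hvw⟩ := (hmemT v).mp hv
    rw [hmemT]
    refine ⟨hVconj v hvV a, ?_⟩
    have hvw' : w⁻¹ * v = v * w⁻¹ := by
      calc w⁻¹ * v = w⁻¹ * (v * w) * w⁻¹ := by group
        _ = w⁻¹ * (w * v) * w⁻¹ := by rw [hvw]
        _ = v * w⁻¹ := by group
    calc w * (a * v * a⁻¹) = (a * w⁻¹ * a⁻¹) * (a * v * a⁻¹) := by rw [haw]
      _ = a * (w⁻¹ * v) * a⁻¹ := by group
      _ = a * (v * w⁻¹) * a⁻¹ := by rw [hvw']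
      _ = a * v * a⁻¹ * (a * w⁻¹ * a⁻¹) := by group
      _ = a * v * a⁻¹ * w := by rw [haw]
  have hyN : y ∈ Subgroup.normalizer (T : Set G) := by
    apply mem_normalizer_of_forall_conj
    intro v hv
    obtain ⟨hvV, hvw⟩ := (hmemT v).mp hv
    rw [hmemT]
    refine ⟨hVconj v hvV y, ?_⟩
    calc w * (y * v * y⁻¹) = y * (w * v) * y⁻¹ := by rw [hw]; group
      _ = y * (v * w) * y⁻¹ := by rw [hvw]
      _ = y * v * y⁻¹ * w := by rw [hw]; group
  have hyc : y ∉ Subgroup.centralizer (T : Set G) := by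
    intro h
    have h1 : x * y = y * x := Subgroup.mem_centralizer_iff.mp h x hxT
    have h2 : y * x * y⁻¹ = x := by rw [← h1]; group
    rw [e1] at h2
    have h3 : b * x * b⁻¹ = 1 := mul_left_cancel (h2.trans (mul_one x).symm)
    apply hx1
    calc x = b⁻¹ * (b * x * b⁻¹) * b := by group
      _ = 1 := by rw [h3]; group
  have hyk : y ^ 3 ^ 1 ∈ Subgroup.centralizer (T : Set G) := by
    rw [pow_one, ← hw, Subgroup.mem_centralizer_iff]
    intro t ht
    exact ((hmemT t).mp ht).2.symm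
  have hxy : a * y * a⁻¹ * y ∈ Subgroup.centralizer (T : Set G) := by
    rw [hay, inv_mul_cancel]; exact one_mem _
  exact hS4 (involves_four_of_inverted T hT2 a y hxN hyN hyc 1 hyk hxy)

end Cfsg.Agent.Helper46
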