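import Mathlib
import Cfsg.Agent.Helper16.D8Core

/-!
# Helper46: piece SU1b of CALL S3716 (`d8_gens`)

Generators and relations for `N = N_G(M) ≅ S₃ ≀ 2`, `M` elementary abelian of order `9` and
self-centralising, `|N| = 72`, `a`, `τ` involutions of `N` generating a dihedral group of order 8.
(The first three lemmas are adapted from `Cfsg.Agent.Helper67.s3su1_key`.)
-/

set_option autoImplicit false

open Cfsg Cfsg.Agent.Helper16 DihedralGroup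

namespace Cfsg.Agent.Helper46

theorem d8su_sq_cube {G : Type*} [Group G] (u : G) (h2 : u * u = 1) (h3 : u ^ 3 = 1) :
    u = 1 := by
  have : u ^ 3 = u := by rw [pow_succ, pow_two, h2, one_mul]
  rw [← this, h3]

theorem d8su_aux {G : Type*} [Group G] (A B C D : G) (h : B * C = A * D) :
    A⁻¹ * B = D * C⁻¹ := by
  calc A⁻¹ * B = A⁻¹ * (B * C) * C⁻¹ := by group
    _ = A⁻¹ * (A * D) * C⁻¹ := by rw [h]
    _ = D * C⁻¹ := by group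

/-- an involution normalising `T`, neither centralising nor inverting it, inverts some
`t₁ ≠ 1` and centralises some `t₂ ≠ 1` of `T` -/
theorem d8su_exists {G : Type*} [Group G] (T : Subgroup G)
    (hTc : ∀ x ∈ T, ∀ y ∈ T, x * y = y * x)
    (a : G) (haN : a ∈ Subgroup.normalizer (T : Set G)) (ha2 : a ^ 2 = 1)
    (hca : ¬ ∀ x ∈ T, a * x * a⁻¹ = x) (hia : ¬ ∀ x ∈ T, a * x * a⁻¹ = x⁻¹) :
    ∃ t₁ t₂ : G, t₁ ∈ T ∧ t₂ ∈ T ∧ t₁ ≠ 1 ∧ t₂ ≠ 1 ∧ a * t₁ * a⁻¹ = t₁⁻¹ ∧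
      a * t₂ * a⁻¹ = t₂ := by
  have haa : a * a = 1 := by rw [← sq, ha2]
  have hainv : a⁻¹ = a := by rw [inv_eq_iff_mul_eq_one, haa]
  obtain ⟨σ, hσ⟩ : ∃ σ : MulAut G, σ = MulAut.conj a := ⟨_, rfl⟩
  have hσa : ∀ z, σ z = a * z * a⁻¹ := fun z => by rw [hσ, MulAut.conj_apply]
  have hσσ : ∀ z, σ (σ z) = z := by
    intro z
    rw [hσa, hσa, hainv]
    calc a * (a * z * a) * a = (a * a) * z * (a * a) := by group
      _ = z := by rw [haa, one_mul, mul_one]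
  have hσT : ∀ z ∈ T, σ z ∈ T := by
    intro z hz
    rw [hσa]
    exact (Subgroup.mem_normalizer_iff.mp haN z).mp hz
  have hca' : ∃ x ∈ T, σ x ≠ x := by
    by_contra hcon
    apply hca
    intro x hx
    by_contra h2
    exact hcon ⟨x, hx, by rw [hσa]; exact h2⟩
  have hia' : ∃ y ∈ T, σ y ≠ y⁻¹ := by
    by_contra hcon
    apply hia
    intro x hx
    by_contra h2
    exact hcon ⟨x, hx, by rw [hσa]; exact h2⟩
  obtain ⟨x, hxT, hx⟩ := hca'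
  obtain ⟨y, hyT, hy⟩ := hia'
  refine ⟨x * (σ x)⁻¹, y * σ y, T.mul_mem hxT (T.inv_mem (hσT x hxT)), T.mul_mem hyT (hσT y hyT),
    ?_, ?_, ?_, ?_⟩
  · intro h
    apply hx
    exact (mul_inv_eq_one.mp h).symm
  · intro h
    apply hy
    exact eq_inv_of_mul_eq_one_right h
  · rw [← hσa, map_mul, map_inv, hσσ, mul_inv_rev, inv_inv]
  · rw [← hσa, map_mul, hσσ]
    exact hTc _ (hσT y hyT) _ hyT

/-- the parametrisation of `T` by an inverted and a centralised element -/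
theorem d8su_param {G : Type*} [Group G] (T : Subgroup G)
    (hTc : ∀ x ∈ T, ∀ y ∈ T, x * y = y * x) (hT3 : ∀ x ∈ T, x ^ 3 = 1)
    (hcard : Nat.card T = 9) (a t₁ t₂ : G) (ht₁T : t₁ ∈ T) (ht₂T : t₂ ∈ T)
    (ht₁ne : t₁ ≠ 1) (ht₂ne : t₂ ≠ 1) (hat₁ : a * t₁ * a⁻¹ = t₁⁻¹) (hat₂ : a * t₂ * a⁻¹ = t₂) :
    (∀ i j i' j' : ℕ, i < 3 → j < 3 → i' < 3 → j' < 3 →
      t₁ ^ i * t₂ ^ j = t₁ ^ i' * t₂ ^ j' → i = i' ∧ j = j') ∧
    (∀ z ∈ T, ∃ i j : ℕ, i < 3 ∧ j < 3 ∧ z = t₁ ^ i * t₂ ^ j) := by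
  classical
  have hp3 : Fact (Nat.Prime 3) := ⟨by norm_num⟩
  obtain ⟨σ, hσ⟩ : ∃ σ : MulAut G, σ = MulAut.conj a := ⟨_, rfl⟩
  have hσa : ∀ z, σ z = a * z * a⁻¹ := fun z => by rw [hσ, MulAut.conj_apply]
  have hσt₁ : σ t₁ = t₁⁻¹ := by rw [hσa, hat₁]
  have hσt₂ : σ t₂ = t₂ := by rw [hσa, hat₂]
  have ht₁3 : t₁ ^ 3 = 1 := hT3 t₁ ht₁T
  have ht₂3 : t₂ ^ 3 = 1 := hT3 t₂ ht₂T
  have ho₁ : orderOf t₁ = 3 := orderOf_eq_prime ht₁3 ht₁ne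
  have ho₂ : orderOf t₂ = 3 := orderOf_eq_prime ht₂3 ht₂ne
  have hσp₁ : ∀ i : ℕ, σ (t₁ ^ i) = (t₁ ^ i)⁻¹ := fun i => by rw [map_pow, hσt₁, inv_pow]
  have hσp₂ : ∀ j : ℕ, σ (t₂ ^ j) = t₂ ^ j := fun j => by rw [map_pow, hσt₂]
  have hp₁T : ∀ i : ℕ, t₁ ^ i ∈ T := fun i => T.pow_mem ht₁T i
  have hp₂T : ∀ j : ℕ, t₂ ^ j ∈ T := fun j => T.pow_mem ht₂T j
  have hinj : ∀ i j i' j' : ℕ, i < 3 → j < 3 → i' < 3 → j' < 3 →
      t₁ ^ i * t₂ ^ j = t₁ ^ i' * t₂ ^ j' → i = i' ∧ j = j' := by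
    intro i j i' j' hi hj hi' hj' h0
    have hw := d8su_aux _ _ _ _ h0
    have hwT : (t₁ ^ i')⁻¹ * t₁ ^ i ∈ T := T.mul_mem (T.inv_mem (hp₁T _)) (hp₁T _)
    have h1 : σ ((t₁ ^ i')⁻¹ * t₁ ^ i) = ((t₁ ^ i')⁻¹ * t₁ ^ i)⁻¹ := by
      rw [map_mul, map_inv, hσp₁, hσp₁, inv_inv, mul_inv_rev, inv_inv]
      exact hTc _ (hp₁T _) _ (T.inv_mem (hp₁T _))
    have h2 : σ ((t₁ ^ i')⁻¹ * t₁ ^ i) = (t₁ ^ i')⁻¹ * t₁ ^ i := by
      rw [hw, map_mul, map_inv, hσp₂, hσp₂]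
    have h3 : (t₁ ^ i')⁻¹ * t₁ ^ i = 1 := by
      apply d8su_sq_cube _ _ (hT3 _ hwT)
      have : ((t₁ ^ i')⁻¹ * t₁ ^ i)⁻¹ = (t₁ ^ i')⁻¹ * t₁ ^ i := by
        rw [← h1, h2]
      exact inv_eq_iff_mul_eq_one.mp this
    have h4 : t₁ ^ i' = t₁ ^ i := inv_mul_eq_one.mp h3
    have h5 : t₂ ^ j' = t₂ ^ j := by
      rw [hw] at h3
      exact mul_inv_eq_one.mp h3
    have h6 : i = i' := by
      have := pow_inj_mod.mp h4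
      rw [ho₁] at this
      omega
    have h7 : j = j' := by
      have := pow_inj_mod.mp h5
      rw [ho₂] at this
      omega
    exact ⟨h6, h7⟩
  refine ⟨hinj, ?_⟩
  have hTfin : Finite T := Nat.finite_of_card_ne_zero (by rw [hcard]; norm_num)
  have hTft : Fintype T := Fintype.ofFinite T
  obtain ⟨f, hf⟩ : ∃ f : Fin 3 × Fin 3 → T, ∀ ij, (f ij : G) = t₁ ^ (ij.1 : ℕ) * t₂ ^ (ij.2 : ℕ) :=
    ⟨fun ij => ⟨t₁ ^ (ij.1 : ℕ) * t₂ ^ (ij.2 : ℕ), T.mul_mem (hp₁T _) (hp₂T _)⟩, fun _ => rfl⟩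
  have hfinj : Function.Injective f := by
    rintro ⟨i, j⟩ ⟨i', j'⟩ h
    have h0 : t₁ ^ (i : ℕ) * t₂ ^ (j : ℕ) = t₁ ^ (i' : ℕ) * t₂ ^ (j' : ℕ) := by
      have := congrArg Subtype.val h
      rw [hf, hf] at this
      exact this
    obtain ⟨h6, h7⟩ := hinj _ _ _ _ i.2 j.2 i'.2 j'.2 h0
    exact Prod.ext (Fin.ext h6) (Fin.ext h7)
  have hfbij : Function.Bijective f := by
    rw [Fintype.bijective_iff_injective_and_card]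
    refine ⟨hfinj, ?_⟩
    rw [Fintype.card_prod, Fintype.card_fin, ← Nat.card_eq_fintype_card, hcard]
  intro z hz
  obtain ⟨⟨i, j⟩, hij⟩ := hfbij.2 ⟨z, hz⟩
  refine ⟨i, j, i.2, j.2, ?_⟩
  have := congrArg Subtype.val hij
  rw [hf] at this
  exact this.symm

/-- the action of a second involution `b` commuting with `a` -/
theorem d8su_bact {G : Type*} [Group G] (T : Subgroup G)
    (hTc : ∀ x ∈ T, ∀ y ∈ T, x * y = y * x) (hT3 : ∀ x ∈ T, x ^ 3 = 1)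
    (a b t₁ t₂ : G) (ht₁T : t₁ ∈ T) (ht₂T : t₂ ∈ T) (ht₁ne : t₁ ≠ 1) (ht₂ne : t₂ ≠ 1)
    (hat₁ : a * t₁ * a⁻¹ = t₁⁻¹) (hat₂ : a * t₂ * a⁻¹ = t₂)
    (hrep : ∀ z ∈ T, ∃ i j : ℕ, i < 3 ∧ j < 3 ∧ z = t₁ ^ i * t₂ ^ j)
    (hbN : b ∈ Subgroup.normalizer (T : Set G)) (hab : a * b = b * a)
    (hcb : ¬ ∀ x ∈ T, b * x * b⁻¹ = x)
    (hcab : ¬ ∀ x ∈ T, (a * b) * x * (a * b)⁻¹ = x)
    (hib : ¬ ∀ x ∈ T, b * x * b⁻¹ = x⁻¹) :
    b * t₁ * b⁻¹ = t₁ ∧ b * t₂ * b⁻¹ = t₂⁻¹ := by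
  obtain ⟨σ, hσ⟩ : ∃ σ : MulAut G, σ = MulAut.conj a := ⟨_, rfl⟩
  obtain ⟨τ, hτ⟩ : ∃ τ : MulAut G, τ = MulAut.conj b := ⟨_, rfl⟩
  have hσa : ∀ z, σ z = a * z * a⁻¹ := fun z => by rw [hσ, MulAut.conj_apply]
  have hτb : ∀ z, τ z = b * z * b⁻¹ := fun z => by rw [hτ, MulAut.conj_apply]
  have hστ : ∀ z, σ (τ z) = τ (σ z) := by
    intro z
    rw [hσa, hτb, hτb, hσa]
    calc a * (b * z * b⁻¹) * a⁻¹ = (a * b) * z * (a * b)⁻¹ := by group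
      _ = (b * a) * z * (b * a)⁻¹ := by rw [hab]
      _ = b * (a * z * a⁻¹) * b⁻¹ := by group
  have hτT : ∀ z ∈ T, τ z ∈ T := by
    intro z hz
    rw [hτb]
    exact (Subgroup.mem_normalizer_iff.mp hbN z).mp hz
  have hσt₁ : σ t₁ = t₁⁻¹ := by rw [hσa, hat₁]
  have hσt₂ : σ t₂ = t₂ := by rw [hσa, hat₂]
  have ht₁3 : t₁ ^ 3 = 1 := hT3 t₁ ht₁T
  have ht₂3 : t₂ ^ 3 = 1 := hT3 t₂ ht₂T
  have hσp₁ : ∀ i : ℕ, σ (t₁ ^ i) = (t₁ ^ i)⁻¹ := fun i => by rw [map_pow, hσt₁, inv_pow]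
  have hσp₂ : ∀ j : ℕ, σ (t₂ ^ j) = t₂ ^ j := fun j => by rw [map_pow, hσt₂]
  have hp₁T : ∀ i : ℕ, t₁ ^ i ∈ T := fun i => T.pow_mem ht₁T i
  have hp₂T : ∀ j : ℕ, t₂ ^ j ∈ T := fun j => T.pow_mem ht₂T j
  have hpow3 : ∀ (t : G), t ^ 3 = 1 → ∀ i : ℕ, i < 3 → t ^ i = 1 ∨ t ^ i = t ∨ t ^ i = t⁻¹ := by
    intro t ht i hi
    have : i = 0 ∨ i = 1 ∨ i = 2 := by omega
    rcases this with h | h | h
    · left
      rw [h, pow_zero]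
    · right; left
      rw [h, pow_one]
    · right; right
      rw [h]
      exact eq_inv_of_mul_eq_one_left (by rw [← pow_succ]; exact ht)
  have hInvT : ∀ z ∈ T, σ z = z⁻¹ → z = 1 ∨ z = t₁ ∨ z = t₁⁻¹ := by
    intro z hz hσz
    obtain ⟨i, j, hi, hj, rfl⟩ := hrep z hz
    rw [map_mul, hσp₁, hσp₂, mul_inv_rev,
      hTc _ (T.inv_mem (hp₂T _)) _ (T.inv_mem (hp₁T _))] at hσz
    have h1 : t₂ ^ j = (t₂ ^ j)⁻¹ := mul_left_cancel hσz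
    have h2 : t₂ ^ j = 1 :=
      d8su_sq_cube _ (by rw [mul_eq_one_iff_eq_inv]; exact h1) (hT3 _ (hp₂T _))
    rw [h2, mul_one]
    exact hpow3 t₁ ht₁3 i hi
  have hCenT : ∀ z ∈ T, σ z = z → z = 1 ∨ z = t₂ ∨ z = t₂⁻¹ := by
    intro z hz hσz
    obtain ⟨i, j, hi, hj, rfl⟩ := hrep z hz
    rw [map_mul, hσp₁, hσp₂] at hσz
    have h1 : (t₁ ^ i)⁻¹ = t₁ ^ i := mul_right_cancel hσz
    have h2 : t₁ ^ i = 1 :=
      d8su_sq_cube _ (by rw [mul_eq_one_iff_eq_inv]; exact h1.symm) (hT3 _ (hp₁T _))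
    rw [h2, one_mul]
    exact hpow3 t₂ ht₂3 j hj
  have h1 : σ (τ t₁) = (τ t₁)⁻¹ := by rw [hστ, hσt₁, map_inv]
  have h2 : σ (τ t₂) = τ t₂ := by rw [hστ, hσt₂]
  have hτ1ne : τ t₁ ≠ 1 := fun h => ht₁ne ((map_eq_one_iff τ τ.injective).mp h)
  have hτ2ne : τ t₂ ≠ 1 := fun h => ht₂ne ((map_eq_one_iff τ τ.injective).mp h)
  have hb1 : τ t₁ = t₁ ∨ τ t₁ = t₁⁻¹ := by
    rcases hInvT _ (hτT t₁ ht₁T) h1 with h | h | h
    · exact absurd h hτ1ne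
    · exact Or.inl h
    · exact Or.inr h
  have hb2' : τ t₂ = t₂ ∨ τ t₂ = t₂⁻¹ := by
    rcases hCenT _ (hτT t₂ ht₂T) h2 with h | h | h
    · exact absurd h hτ2ne
    · exact Or.inl h
    · exact Or.inr h
  have hgoal : τ t₁ = t₁ ∧ τ t₂ = t₂⁻¹ := by
    rcases hb1 with hb1 | hb1 <;> rcases hb2' with hb2' | hb2'
    · exfalso
      apply hcb
      intro z hz
      obtain ⟨i, j, hi, hj, rfl⟩ := hrep z hz
      rw [← hτb, map_mul, map_pow, map_pow, hb1, hb2']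
    · exact ⟨hb1, hb2'⟩
    · exfalso
      apply hcab
      intro z hz
      obtain ⟨i, j, hi, hj, rfl⟩ := hrep z hz
      have : (a * b) * (t₁ ^ i * t₂ ^ j) * (a * b)⁻¹ = σ (τ (t₁ ^ i * t₂ ^ j)) := by
        rw [hσa, hτb]
        group
      rw [this, map_mul, map_pow, map_pow, hb1, hb2', map_mul, map_pow, map_pow, map_inv, hσt₁,
        inv_inv, hσt₂]
    · exfalso
      apply hib
      intro z hz
      obtain ⟨i, j, hi, hj, rfl⟩ := hrep z hz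
      rw [← hτb, map_mul, map_pow, map_pow, hb1, hb2', inv_pow, inv_pow, mul_inv_rev]
      exact hTc _ (T.inv_mem (hp₁T _)) _ (T.inv_mem (hp₂T _))
  rw [← hτb, ← hτb]
  exact hgoal

/-- the signature of `a ^ k * b ^ l * τ ^ c` on `t₁` -/
def d8suF1 (k l c : ℕ) : Fin 4 :=
  if c = 0 then (if k = 0 then 0 else 1) else (if l = 0 then 2 else 3)

/-- the signature of `a ^ k * b ^ l * τ ^ c` on `t₂` -/
def d8suF2 (k l c : ℕ) : Fin 4 :=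
  if c = 0 then (if l = 0 then 2 else 3) else (if k = 0 then 0 else 1)

theorem d8su_sig_inj : ∀ k l c k' l' c' : ℕ, k < 2 → l < 2 → c < 2 → k' < 2 → l' < 2 → c' < 2 →
    d8suF1 k l c = d8suF1 k' l' c' → d8suF2 k l c = d8suF2 k' l' c' →
    k = k' ∧ l = l' ∧ c = c' := by
  intro k l c k' l' c' hk hl hc hk' hl' hc'
  interval_cases k <;> interval_cases l <;> interval_cases c <;> interval_cases k' <;>
    interval_cases l' <;> interval_cases c' <;> decide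

theorem d8su_conj_table {G : Type*} [Group G] (t₁ t₂ a b τ : G)
    (hat₁ : a * t₁ * a⁻¹ = t₁⁻¹) (hat₂ : a * t₂ * a⁻¹ = t₂) (hbt₁ : b * t₁ * b⁻¹ = t₁)
    (hbt₂ : b * t₂ * b⁻¹ = t₂⁻¹) (hτt₁ : τ * t₁ * τ⁻¹ = t₂) (hτt₂ : τ * t₂ * τ⁻¹ = t₁) :
    ∀ k l c : ℕ, k < 2 → l < 2 → c < 2 →
      (a ^ k * b ^ l * τ ^ c) * t₁ * (a ^ k * b ^ l * τ ^ c)⁻¹
        = ![t₁, t₁⁻¹, t₂, t₂⁻¹] (d8suF1 k l c) ∧
      (a ^ k * b ^ l * τ ^ c) * t₂ * (a ^ k * b ^ l * τ ^ c)⁻¹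
        = ![t₁, t₁⁻¹, t₂, t₂⁻¹] (d8suF2 k l c) := by
  have key : ∀ A B C x : G, A * B * C * x * (A * B * C)⁻¹
      = A * (B * (C * x * C⁻¹) * B⁻¹) * A⁻¹ := by
    intro A B C x; group
  have hat₂' : a * t₂⁻¹ * a⁻¹ = t₂⁻¹ := by
    have : a * t₂⁻¹ * a⁻¹ = (a * t₂ * a⁻¹)⁻¹ := by group
    rw [this, hat₂]
  intro k l c hk hl hc
  rw [key, key]
  interval_cases k <;> interval_cases l <;> interval_cases c <;> refine ⟨?_, ?_⟩ <;>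
    simp only [pow_zero, pow_one, one_mul, mul_one, inv_one, hat₁, hat₂, hat₂', hbt₁, hbt₂,
      hτt₁, hτt₂] <;> rfl

theorem d8su_E_inj {G : Type*} [Group G] (t₁ t₂ : G) (d01 : t₁ ≠ t₁⁻¹) (d02 : t₁ ≠ t₂)
    (d03 : t₁ ≠ t₂⁻¹) (d12 : t₁⁻¹ ≠ t₂) (d13 : t₁⁻¹ ≠ t₂⁻¹) (d23 : t₂ ≠ t₂⁻¹) :
    Function.Injective ![t₁, t₁⁻¹, t₂, t₂⁻¹] := by
  intro x y h
  fin_cases x <;> fin_cases y <;>
    first
    | rfl
    | exact absurd h d01 | exact absurd h.symm d01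
    | exact absurd h d02 | exact absurd h.symm d02
    | exact absurd h d03 | exact absurd h.symm d03
    | exact absurd h d12 | exact absurd h.symm d12
    | exact absurd h d13 | exact absurd h.symm d13
    | exact absurd h d23 | exact absurd h.symm d23

/-- the six distinctness facts for an injective parametrisation -/
theorem d8su_distinct {G : Type*} [Group G] (t₁ t₂ : G) (ht₁3 : t₁ ^ 3 = 1) (ht₂3 : t₂ ^ 3 = 1)
    (hinj : ∀ i j i' j' : ℕ, i < 3 → j < 3 → i' < 3 → j' < 3 →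
      t₁ ^ i * t₂ ^ j = t₁ ^ i' * t₂ ^ j' → i = i' ∧ j = j') :
    t₁ ≠ t₁⁻¹ ∧ t₁ ≠ t₂ ∧ t₁ ≠ t₂⁻¹ ∧ t₁⁻¹ ≠ t₂ ∧ t₁⁻¹ ≠ t₂⁻¹ ∧ t₂ ≠ t₂⁻¹ := by
  have e1 : t₁⁻¹ = t₁ ^ 2 := inv_eq_of_mul_eq_one_right (by rw [← pow_succ']; exact ht₁3)
  have e2 : t₂⁻¹ = t₂ ^ 2 := inv_eq_of_mul_eq_one_right (by rw [← pow_succ']; exact ht₂3)
  have d02 : t₁ ≠ t₂ := by
    intro h
    have := (hinj 1 0 0 1 (by norm_num) (by norm_num) (by norm_num) (by norm_num)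
      (by rw [pow_one, pow_zero, pow_zero, pow_one, mul_one, one_mul]; exact h)).1
    omega
  refine ⟨?_, d02, ?_, ?_, ?_, ?_⟩
  · intro h
    rw [e1] at h
    have := (hinj 1 0 2 0 (by norm_num) (by norm_num) (by norm_num) (by norm_num)
      (by rw [pow_one, pow_zero, mul_one, mul_one]; exact h)).1
    omega
  · intro h
    rw [e2] at h
    have := (hinj 1 0 0 2 (by norm_num) (by norm_num) (by norm_num) (by norm_num)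
      (by rw [pow_one, pow_zero, pow_zero, mul_one, one_mul]; exact h)).1
    omega
  · intro h
    rw [e1] at h
    have := (hinj 2 0 0 1 (by norm_num) (by norm_num) (by norm_num) (by norm_num)
      (by rw [pow_one, pow_zero, pow_zero, mul_one, one_mul]; exact h)).1
    omega
  · intro h
    exact d02 (inv_injective h)
  · intro h
    rw [e2] at h
    have := (hinj 0 1 0 2 (by norm_num) (by norm_num) (by norm_num) (by norm_num)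
      (by rw [pow_one, pow_zero, one_mul, one_mul]; exact h)).2
    omega

/-- the normal form of `N` is injective -/
theorem d8su_nf_inj {G : Type*} [Group G] (T : Subgroup G)
    (hTc : ∀ x ∈ T, ∀ y ∈ T, x * y = y * x) (t₁ t₂ a b τ : G)
    (ht₁T : t₁ ∈ T) (ht₂T : t₂ ∈ T) (ht₁3 : t₁ ^ 3 = 1) (ht₂3 : t₂ ^ 3 = 1)
    (haN : a ∈ Subgroup.normalizer (T : Set G)) (hbN : b ∈ Subgroup.normalizer (T : Set G))
    (hτN : τ ∈ Subgroup.normalizer (T : Set G))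
    (hat₁ : a * t₁ * a⁻¹ = t₁⁻¹) (hat₂ : a * t₂ * a⁻¹ = t₂) (hbt₁ : b * t₁ * b⁻¹ = t₁)
    (hbt₂ : b * t₂ * b⁻¹ = t₂⁻¹) (hτt₁ : τ * t₁ * τ⁻¹ = t₂) (hτt₂ : τ * t₂ * τ⁻¹ = t₁)
    (hinj : ∀ i j i' j' : ℕ, i < 3 → j < 3 → i' < 3 → j' < 3 →
      t₁ ^ i * t₂ ^ j = t₁ ^ i' * t₂ ^ j' → i = i' ∧ j = j')
    (i j k l c i' j' k' l' c' : ℕ) (hi : i < 3) (hj : j < 3) (hk : k < 2) (hl : l < 2)
    (hc : c < 2) (hi' : i' < 3) (hj' : j' < 3) (hk' : k' < 2) (hl' : l' < 2) (hc' : c' < 2)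
    (h : t₁ ^ i * t₂ ^ j * a ^ k * b ^ l * τ ^ c = t₁ ^ i' * t₂ ^ j' * a ^ k' * b ^ l' * τ ^ c') :
    i = i' ∧ j = j' ∧ k = k' ∧ l = l' ∧ c = c' := by
  obtain ⟨d01, d02, d03, d12, d13, d23⟩ := d8su_distinct t₁ t₂ ht₁3 ht₂3 hinj
  have hE := d8su_E_inj t₁ t₂ d01 d02 d03 d12 d13 d23
  have htab := d8su_conj_table t₁ t₂ a b τ hat₁ hat₂ hbt₁ hbt₂ hτt₁ hτt₂
  obtain ⟨m, hm⟩ : ∃ m : G, m = t₁ ^ i * t₂ ^ j := ⟨_, rfl⟩
  obtain ⟨m', hm'⟩ : ∃ m : G, m = t₁ ^ i' * t₂ ^ j' := ⟨_, rfl⟩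
  obtain ⟨w, hw⟩ : ∃ w : G, w = a ^ k * b ^ l * τ ^ c := ⟨_, rfl⟩
  obtain ⟨w', hw'⟩ : ∃ w : G, w = a ^ k' * b ^ l' * τ ^ c' := ⟨_, rfl⟩
  have hmT : m ∈ T := by rw [hm]; exact T.mul_mem (T.pow_mem ht₁T _) (T.pow_mem ht₂T _)
  have hm'T : m' ∈ T := by rw [hm']; exact T.mul_mem (T.pow_mem ht₁T _) (T.pow_mem ht₂T _)
  have hwN : w ∈ Subgroup.normalizer (T : Set G) := by
    rw [hw]
    exact mul_mem (mul_mem (pow_mem haN _) (pow_mem hbN _)) (pow_mem hτN _)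
  have hmw : m * w = m' * w' := by
    rw [hm, hm', hw, hw']
    simp only [mul_assoc] at h ⊢
    exact h
  have hw'eq : w' = m'⁻¹ * m * w := by
    rw [mul_assoc, hmw, inv_mul_cancel_left]
  have hconj : ∀ x ∈ T, w' * x * w'⁻¹ = w * x * w⁻¹ := by
    intro x hx
    have hy : w * x * w⁻¹ ∈ T := (Subgroup.mem_normalizer_iff.mp hwN x).mp hx
    have hu : m'⁻¹ * m ∈ T := T.mul_mem (T.inv_mem hm'T) hmT
    have e : w' * x * w'⁻¹ = (m'⁻¹ * m) * (w * x * w⁻¹) * (m'⁻¹ * m)⁻¹ := by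
      rw [hw'eq]; group
    rw [e, hTc _ hu _ hy, mul_inv_cancel_right]
  have h1 := hconj t₁ ht₁T
  have h2 := hconj t₂ ht₂T
  rw [hw, hw', (htab k l c hk hl hc).1, (htab k' l' c' hk' hl' hc').1] at h1
  rw [hw, hw', (htab k l c hk hl hc).2, (htab k' l' c' hk' hl' hc').2] at h2
  obtain ⟨ek, el, ec⟩ := d8su_sig_inj k l c k' l' c' hk hl hc hk' hl' hc' (hE h1).symm (hE h2).symm
  have hww : w = w' := by rw [hw, hw', ek, el, ec]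
  rw [hww] at hmw
  have hmm : m = m' := mul_right_cancel hmw
  rw [hm, hm'] at hmm
  obtain ⟨ei, ej⟩ := hinj i j i' j' hi hj hi' hj' hmm
  exact ⟨ei, ej, ek, el, ec⟩

/-- the conjugate of an inverting element inverts -/
theorem d8su_inv_conj {G : Type*} [Group G] (T : Subgroup G) (u v g : G)
    (hg : g ∈ Subgroup.normalizer (T : Set G)) (hv : v = g * u * g⁻¹)
    (hu : ∀ x ∈ T, u * x * u⁻¹ = x⁻¹) : ∀ x ∈ T, v * x * v⁻¹ = x⁻¹ := by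
  intro x hx
  have hy : g⁻¹ * x * g⁻¹⁻¹ ∈ T := (Subgroup.mem_normalizer_iff.mp (inv_mem hg) x).mp hx
  have e : v * x * v⁻¹ = g * (u * (g⁻¹ * x * g⁻¹⁻¹) * u⁻¹) * g⁻¹ := by rw [hv]; group
  rw [e, hu _ hy]
  group

theorem d8su_main {G : Type*} [Group G] (T : Subgroup G)
    (hTc : ∀ x ∈ T, ∀ y ∈ T, x * y = y * x) (hT3 : ∀ x ∈ T, x ^ 3 = 1)
    (hcard : Nat.card T = 9)
    (hCT : ∀ g : G, (∀ x ∈ T, g * x * g⁻¹ = x) → g ∈ T)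
    (N : Subgroup G) (hN : N = Subgroup.normalizer (T : Set G)) (hN72 : Nat.card N = 72)
    (a τ : G) (ha : a ∈ N) (hτ : τ ∈ N) (ha2 : a ^ 2 = 1)
    (hτ2 : τ ^ 2 = 1) (ha1 : a ≠ 1) (h2 : (a * τ) ^ 2 ≠ 1) (h4 : (a * τ) ^ 4 = 1) :
    ∃ t₁ t₂ : G, D8Gens T N t₁ t₂ a (τ * a * τ⁻¹) τ := by
  classical
  have haa : a * a = 1 := by rw [← sq, ha2]
  have hττ : τ * τ = 1 := by rw [← sq, hτ2]
  have hτinv : τ⁻¹ = τ := by rw [inv_eq_iff_mul_eq_one, hττ]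
  obtain ⟨b, hb⟩ : ∃ b : G, b = τ * a * τ⁻¹ := ⟨_, rfl⟩
  rw [← hb]
  have hbb : b * b = 1 := by
    rw [hb]
    calc τ * a * τ⁻¹ * (τ * a * τ⁻¹) = τ * (a * a) * τ⁻¹ := by group
      _ = 1 := by rw [haa, mul_one, mul_inv_cancel]
  have hab2 : (a * τ) ^ 2 = a * b := by
    rw [hb, hτinv, sq]
    simp only [mul_assoc]
  have habne : a * b ≠ 1 := by rw [← hab2]; exact h2
  have habsq : (a * b) * (a * b) = 1 := by
    rw [← hab2, ← sq, ← pow_mul]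
    exact h4
  have hab : a * b = b * a := by
    have hainv : a⁻¹ = a := by rw [inv_eq_iff_mul_eq_one, haa]
    have hbinv : b⁻¹ = b := by rw [inv_eq_iff_mul_eq_one, hbb]
    have h : a * b = (a * b)⁻¹ := eq_inv_of_mul_eq_one_left habsq
    rw [mul_inv_rev, hainv, hbinv] at h
    exact h
  have hbne : b ≠ 1 := by
    intro h
    apply ha1
    rw [hb] at h
    have e : a = τ⁻¹ * (τ * a * τ⁻¹) * τ := by group
    rw [e, h]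
    group
  have haN : a ∈ Subgroup.normalizer (T : Set G) := by rw [← hN]; exact ha
  have hτN : τ ∈ Subgroup.normalizer (T : Set G) := by rw [← hN]; exact hτ
  have hbN : b ∈ Subgroup.normalizer (T : Set G) := by
    rw [hb]
    exact mul_mem (mul_mem hτN haN) (inv_mem hτN)
  have hnc : ∀ u : G, u * u = 1 → u ≠ 1 → ¬ ∀ x ∈ T, u * x * u⁻¹ = x := by
    intro u huu hu1 hcen
    exact hu1 (d8su_sq_cube u huu (hT3 u (hCT u hcen)))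
  have hca := hnc a haa ha1
  have hcb := hnc b hbb hbne
  have hcab := hnc (a * b) habsq habne
  have hLL : ∀ s s' : G, (∀ x ∈ T, s * x * s⁻¹ = x⁻¹) → (∀ x ∈ T, s' * x * s'⁻¹ = x⁻¹) →
      ∀ x ∈ T, (s * s') * x * (s * s')⁻¹ = x := by
    intro s s' h1 h2 x hx
    have e : (s * s') * x * (s * s')⁻¹ = s * (s' * x * s'⁻¹) * s⁻¹ := by group
    rw [e, h2 x hx, h1 _ (T.inv_mem hx), inv_inv]
  have hia : ¬ ∀ x ∈ T, a * x * a⁻¹ = x⁻¹ := by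
    intro hi
    exact hcab (hLL a b hi (d8su_inv_conj T a b τ hτN hb hi))
  have hib : ¬ ∀ x ∈ T, b * x * b⁻¹ = x⁻¹ := by
    intro hi
    apply hia
    apply d8su_inv_conj T b a τ⁻¹ (inv_mem hτN) _ hi
    rw [hb]
    group
  obtain ⟨s₁, t₂, hs₁T, ht₂T, hs₁ne, ht₂ne, has₁, hat₂⟩ := d8su_exists T hTc a haN ha2 hca hia
  obtain ⟨-, hrep'⟩ := d8su_param T hTc hT3 hcard a s₁ t₂ hs₁T ht₂T hs₁ne ht₂ne has₁ hat₂
  obtain ⟨-, hbt₂⟩ := d8su_bact T hTc hT3 a b s₁ t₂ hs₁T ht₂T hs₁ne ht₂ne has₁ hat₂ hrep' hbN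
    hab hcb hcab hib
  obtain ⟨t₁, ht₁⟩ : ∃ t₁ : G, t₁ = τ * t₂ * τ⁻¹ := ⟨_, rfl⟩
  have ht₁T : t₁ ∈ T := by
    rw [ht₁]
    exact (Subgroup.mem_normalizer_iff.mp hτN t₂).mp ht₂T
  have ht₁ne : t₁ ≠ 1 := by
    intro h
    apply ht₂ne
    rw [ht₁] at h
    have e : t₂ = τ⁻¹ * (τ * t₂ * τ⁻¹) * τ := by group
    rw [e, h]
    group
  have e1 : τ⁻¹ * a * τ = b := by rw [hb, hτinv]
  have e2 : τ⁻¹ * b * τ = a := by rw [hb]; group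
  have hat₁ : a * t₁ * a⁻¹ = t₁⁻¹ := by
    rw [ht₁]
    calc a * (τ * t₂ * τ⁻¹) * a⁻¹
        = τ * ((τ⁻¹ * a * τ) * t₂ * (τ⁻¹ * a * τ)⁻¹) * τ⁻¹ := by group
      _ = τ * t₂⁻¹ * τ⁻¹ := by rw [e1, hbt₂]
      _ = (τ * t₂ * τ⁻¹)⁻¹ := by group
  have hbt₁ : b * t₁ * b⁻¹ = t₁ := by
    rw [ht₁]
    calc b * (τ * t₂ * τ⁻¹) * b⁻¹
        = τ * ((τ⁻¹ * b * τ) * t₂ * (τ⁻¹ * b * τ)⁻¹) * τ⁻¹ := by group
      _ = τ * t₂ * τ⁻¹ := by rw [e2, hat₂]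
  have hτt₁ : τ * t₁ * τ⁻¹ = t₂ := by
    rw [ht₁]
    calc τ * (τ * t₂ * τ⁻¹) * τ⁻¹ = (τ * τ) * t₂ * (τ * τ)⁻¹ := by group
      _ = t₂ := by rw [hττ, one_mul, inv_one, mul_one]
  have hτt₂ : τ * t₂ * τ⁻¹ = t₁ := ht₁.symm
  obtain ⟨hinj, hrep⟩ := d8su_param T hTc hT3 hcard a t₁ t₂ ht₁T ht₂T ht₁ne ht₂ne hat₁ hat₂
  have ht₁3 := hT3 t₁ ht₁T
  have ht₂3 := hT3 t₂ ht₂T
  have ht₁N : t₁ ∈ N := by rw [hN]; exact Subgroup.le_normalizer ht₁T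
  have ht₂N : t₂ ∈ N := by rw [hN]; exact Subgroup.le_normalizer ht₂T
  have hbNN : b ∈ N := by rw [hN]; exact hbN
  have hNfin : Finite N := Nat.finite_of_card_ne_zero (by rw [hN72]; norm_num)
  have hNft : Fintype N := Fintype.ofFinite N
  have hmemN : ∀ i j k l c : ℕ, t₁ ^ i * t₂ ^ j * a ^ k * b ^ l * τ ^ c ∈ N := fun i j k l c =>
    mul_mem (mul_mem (mul_mem (mul_mem (pow_mem ht₁N _) (pow_mem ht₂N _)) (pow_mem ha _))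
      (pow_mem hbNN _)) (pow_mem hτ _)
  obtain ⟨Φ, hΦ⟩ : ∃ Φ : (Fin 3 × Fin 3) × (Fin 2 × Fin 2 × Fin 2) → N, ∀ x, (Φ x : G) =
      t₁ ^ (x.1.1 : ℕ) * t₂ ^ (x.1.2 : ℕ) * a ^ (x.2.1 : ℕ) * b ^ (x.2.2.1 : ℕ)
        * τ ^ (x.2.2.2 : ℕ) :=
    ⟨fun x => ⟨_, hmemN x.1.1 x.1.2 x.2.1 x.2.2.1 x.2.2.2⟩, fun _ => rfl⟩
  have hΦinj : Function.Injective Φ := by
    rintro ⟨⟨i, j⟩, k, l, c⟩ ⟨⟨i', j'⟩, k', l', c'⟩ h
    have h0 := congrArg Subtype.val h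
    rw [hΦ, hΦ] at h0
    obtain ⟨ei, ej, ek, el, ec⟩ := d8su_nf_inj T hTc t₁ t₂ a b τ ht₁T ht₂T ht₁3 ht₂3 haN hbN hτN
      hat₁ hat₂ hbt₁ hbt₂ hτt₁ hτt₂ hinj _ _ _ _ _ _ _ _ _ _ i.2 j.2 k.2 l.2 c.2 i'.2 j'.2 k'.2
      l'.2 c'.2 h0
    simp only [Prod.mk.injEq]
    exact ⟨⟨Fin.ext ei, Fin.ext ej⟩, Fin.ext ek, Fin.ext el, Fin.ext ec⟩
  have hΦbij : Function.Bijective Φ := by
    rw [Fintype.bijective_iff_injective_and_card]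
    refine ⟨hΦinj, ?_⟩
    rw [← Nat.card_eq_fintype_card (α := N), hN72]
    simp [Fintype.card_prod, Fintype.card_fin]
  refine ⟨t₁, t₂, ⟨ht₁3, ht₂3, ha2, by rw [sq, hbb], hτ2, hTc t₁ ht₁T t₂ ht₂T, hab, hat₁,
    mul_inv_eq_iff_eq_mul.mp hat₂, mul_inv_eq_iff_eq_mul.mp hbt₁, hbt₂, hτt₁, hb.symm, ?_, ?_⟩⟩
  · intro z
    constructor
    · intro hz
      obtain ⟨i, j, -, -, h⟩ := hrep z hz
      exact ⟨i, j, h⟩
    · rintro ⟨i, j, rfl⟩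
      exact T.mul_mem (T.pow_mem ht₁T _) (T.pow_mem ht₂T _)
  · intro z
    constructor
    · intro hz
      obtain ⟨x, hx⟩ := hΦbij.2 ⟨z, hz⟩
      have h := congrArg Subtype.val hx
      rw [hΦ] at h
      exact ⟨_, _, _, _, _, h.symm⟩
    · rintro ⟨i, j, k, l, c, rfl⟩
      exact hmemN i j k l c

/-- PIECE SU1b -/
theorem d8_gens {G : Type*} [Group G] [Finite G] (M : Sylow 3 G)
    (hM9 : Nat.card ↥(M : Subgroup G) = 9) (hMel : ∀ m ∈ (M : Subgroup G), m ^ 3 = 1)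
    (hCM : Subgroup.centralizer ((M : Subgroup G) : Set G) = (M : Subgroup G))
    (N : Subgroup G) (hN : N = Subgroup.normalizer ((M : Subgroup G) : Set G))
    (hN72 : Nat.card N = 72) (a τ : G) (ha : a ∈ N) (hτ : τ ∈ N) (ha2 : a ^ 2 = 1)
    (hτ2 : τ ^ 2 = 1) (ha1 : a ≠ 1) (hτ1 : τ ≠ 1) (h2 : (a * τ) ^ 2 ≠ 1) (h4 : (a * τ) ^ 4 = 1) :
    ∃ t₁ t₂ : G, D8Gens (M : Subgroup G) N t₁ t₂ a (τ * a * τ⁻¹) τ := by
  have hp3 : Fact (Nat.Prime 3) := ⟨by norm_num⟩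
  have hTc : ∀ x ∈ (M : Subgroup G), ∀ y ∈ (M : Subgroup G), x * y = y * x := by
    intro x hx y hy
    have hc := IsPGroup.isMulCommutative_of_card_eq_prime_sq (p := 3) (G := ↥(M : Subgroup G))
      (hM9.trans (by norm_num))
    have h := hc.is_comm.comm (⟨x, hx⟩ : ↥(M : Subgroup G)) ⟨y, hy⟩
    exact congrArg Subtype.val h
  have hCT : ∀ g : G, (∀ x ∈ (M : Subgroup G), g * x * g⁻¹ = x) → g ∈ (M : Subgroup G) := by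
    intro g hg
    rw [← hCM, Subgroup.mem_centralizer_iff]
    intro h hh
    have h' := hg h hh
    rw [mul_inv_eq_iff_eq_mul] at h'
    exact h'.symm
  exact d8su_main (M : Subgroup G) hTc hMel hM9 hCT N hN hN72 a τ ha hτ ha2 hτ2 ha1 h2 h4

end Cfsg.Agent.Helper46
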