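import Mathlib
import Cfsg.Agent.Helper97.GSylDefs
import Cfsg.Agent.Helper97.GSylWN

/-!
# Helper46: piece W1B of CALL S4627 (`gWk_sq_trans`)

For a transitive `T`, the squares of the determinant-one part `gWk S T` of the wreath-type
subgroup lie in its commutator subgroup as soon as this holds for `gQ S` and `T`.
-/

set_option autoImplicit false

namespace Cfsg.Agent.Helper46.GSylW1B

open Matrix Cfsg.Agent.Helper97.GSyl Cfsg.Agent.Helper97.GSylWN

open scoped commutatorElement

variable {F : Type*} [Field F] {m : ℕ}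

/-- squares lie in the commutator subgroup as soon as the squares of generators do -/
theorem w1b_sq_of_closure {G : Type*} [Group G] (U : Subgroup G) (X : Set G)
    (hX : X ⊆ U) (hU : U ≤ Subgroup.closure X) (h : ∀ s ∈ X, s ^ 2 ∈ ⁅U, U⁆) :
    ∀ x ∈ U, x ^ 2 ∈ ⁅U, U⁆ := by
  have hcl : Subgroup.closure X ≤ U := (Subgroup.closure_le U).mpr hX
  have key : ∀ x ∈ Subgroup.closure X, x ^ 2 ∈ ⁅U, U⁆ := by
    intro x hx
    induction hx using Subgroup.closure_induction with
    | mem s hs => exact h s hs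
    | one => rw [one_pow]; exact one_mem _
    | mul a b ha hb iha ihb =>
      have ha' : a ∈ U := hcl ha
      have hb' : b ∈ U := hcl hb
      have e : (a * b) ^ 2 = a ^ 2 * ⁅a⁻¹, b⁆ * b ^ 2 := by
        rw [commutatorElement_def, pow_two, pow_two, pow_two]; group
      rw [e]
      exact mul_mem (mul_mem iha (Subgroup.commutator_mem_commutator (inv_mem ha') hb')) ihb
    | inv a ha iha =>
      rw [inv_pow]
      exact inv_mem iha
  intro x hx
  exact key x (hU hx)

theorem w1b_mem_gWk (S : Subgroup (GL (Fin 2) F)) (T : Subgroup (Equiv.Perm (Fin m)))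
    (x : GL (Fin 2 × Fin m) F) :
    x ∈ gWk S T ↔ x ∈ gW S T ∧
      (x : Matrix (Fin 2 × Fin m) (Fin 2 × Fin m) F).det = 1 := by
  unfold gWk
  rw [Subgroup.mem_inf, MonoidHom.mem_ker]
  constructor
  · rintro ⟨h1, h2⟩
    refine ⟨h1, ?_⟩
    have := congrArg Units.val h2
    simpa using this
  · rintro ⟨h1, h2⟩
    refine ⟨h1, ?_⟩
    apply Units.ext
    simpa using h2

theorem w1b_gPhi_mem (S : Subgroup (GL (Fin 2) F)) (T : Subgroup (Equiv.Perm (Fin m)))
    (g : Fin m → GL (Fin 2) F) (hg : ∀ k, g k ∈ S) : gPhi F m g ∈ gW S T :=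
  Subgroup.mem_sup_left (Subgroup.mem_map_of_mem _ (fun k _ => hg k))

theorem w1b_gPsi_mem (S : Subgroup (GL (Fin 2) F)) (T : Subgroup (Equiv.Perm (Fin m)))
    (σ : Equiv.Perm (Fin m)) (hσ : σ ∈ T) : gPsi F m σ ∈ gW S T :=
  Subgroup.mem_sup_right (Subgroup.mem_map_of_mem _ hσ)

theorem w1b_gPsi_mem_k (S : Subgroup (GL (Fin 2) F)) (T : Subgroup (Equiv.Perm (Fin m)))
    (σ : Equiv.Perm (Fin m)) (hσ : σ ∈ T) : gPsi F m σ ∈ gWk S T :=
  (w1b_mem_gWk S T _).mpr ⟨w1b_gPsi_mem S T σ hσ, det_gPsi σ⟩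

/-- generators of type (a): block permutations -/
theorem w1b_sq_a (S : Subgroup (GL (Fin 2) F)) (T : Subgroup (Equiv.Perm (Fin m)))
    (hT : ∀ t ∈ T, t ^ 2 ∈ ⁅T, T⁆) (t : Equiv.Perm (Fin m)) (ht : t ∈ T) :
    (gPsi F m t) ^ 2 ∈ ⁅gWk S T, gWk S T⁆ := by
  have h1 : T.map (gPsi F m) ≤ gWk S T := by
    rintro y ⟨σ, hσ, rfl⟩
    exact w1b_gPsi_mem_k S T σ hσ
  have h2 : (gPsi F m t) ^ 2 ∈ (⁅T, T⁆).map (gPsi F m) := ⟨t ^ 2, hT t ht, map_pow _ _ _⟩
  rw [Subgroup.map_commutator] at h2
  exact Subgroup.commutator_mono h1 h1 h2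

theorem w1b_gPhi_mem_k (S : Subgroup (GL (Fin 2) F)) (T : Subgroup (Equiv.Perm (Fin m)))
    (g : Fin m → GL (Fin 2) F) (hg : ∀ k, g k ∈ gQ S) : gPhi F m g ∈ gWk S T := by
  rw [w1b_mem_gWk]
  refine ⟨w1b_gPhi_mem S T g (fun k => ((mem_gQ S _).mp (hg k)).1), ?_⟩
  rw [det_gPhi]
  exact Finset.prod_eq_one (fun k _ => ((mem_gQ S _).mp (hg k)).2)

/-- generators of type (b): block diagonal with determinant-one blocks -/
theorem w1b_sq_b (S : Subgroup (GL (Fin 2) F)) (T : Subgroup (Equiv.Perm (Fin m)))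
    (hQ : ∀ s ∈ gQ S, s ^ 2 ∈ ⁅gQ S, gQ S⁆) (h : Fin m → GL (Fin 2) F)
    (hh : ∀ k, h k ∈ gQ S) : (gPhi F m h) ^ 2 ∈ ⁅gWk S T, gWk S T⁆ := by
  have h1 : (Subgroup.pi Set.univ (fun _ : Fin m => gQ S)).map (gPhi F m) ≤ gWk S T := by
    rintro y ⟨g, hg, rfl⟩
    exact w1b_gPhi_mem_k S T g (fun k => hg k (Set.mem_univ k))
  have h2 : h ^ 2 ∈ ⁅Subgroup.pi Set.univ (fun _ : Fin m => gQ S),
      Subgroup.pi Set.univ (fun _ : Fin m => gQ S)⁆ := by
    rw [Subgroup.commutator_pi_pi_of_finite]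
    intro k _
    exact hQ _ (hh k)
  have h3 : (gPhi F m h) ^ 2 ∈ (⁅Subgroup.pi Set.univ (fun _ : Fin m => gQ S),
      Subgroup.pi Set.univ (fun _ : Fin m => gQ S)⁆).map (gPhi F m) :=
    ⟨h ^ 2, h2, map_pow _ _ _⟩
  rw [Subgroup.map_commutator] at h3
  exact Subgroup.commutator_mono h1 h1 h3

/-- the commutator subgroup of `gWk S T` is normalised by `gW S T` -/
theorem w1b_conj_mem (S : Subgroup (GL (Fin 2) F)) (T : Subgroup (Equiv.Perm (Fin m)))
    (d : GL (Fin 2 × Fin m) F) (hd : d ∈ gW S T) (y : GL (Fin 2 × Fin m) F)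
    (hy : y ∈ ⁅gWk S T, gWk S T⁆) : d * y * d⁻¹ ∈ ⁅gWk S T, gWk S T⁆ := by
  have h1 : (gWk S T).map (MulAut.conj d).toMonoidHom ≤ gWk S T := by
    rintro z ⟨w, hw, rfl⟩
    unfold gWk at hw ⊢
    rw [SetLike.mem_coe, Subgroup.mem_inf] at hw
    rw [Subgroup.mem_inf]
    exact ⟨mul_mem (mul_mem hd hw.1) (inv_mem hd), (MonoidHom.normal_ker _).conj_mem _ hw.2 d⟩
  have h3 : d * y * d⁻¹ ∈ (⁅gWk S T, gWk S T⁆).map (MulAut.conj d).toMonoidHom :=
    ⟨y, hy, rfl⟩
  rw [Subgroup.map_commutator] at h3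
  exact Subgroup.commutator_mono h1 h1 h3

theorem w1b_upd_mem (S : Subgroup (GL (Fin 2) F)) (s : GL (Fin 2) F) (hs : s ∈ S) (k : Fin m)
    (i : Fin m) : Function.update (1 : Fin m → GL (Fin 2) F) k s i ∈ S := by
  by_cases h : i = k
  · rw [h, Function.update_self]; exact hs
  · rw [Function.update_of_ne h]; exact one_mem _

/-- generators of type (c'): `e_jk(s)` -/
theorem w1b_sq_c (S : Subgroup (GL (Fin 2) F)) (T : Subgroup (Equiv.Perm (Fin m)))
    (hT : ∀ t ∈ T, t ^ 2 ∈ ⁅T, T⁆) (htr : ∀ a b : Fin m, ∃ t ∈ T, t a = b)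
    (s : GL (Fin 2) F) (hs : s ∈ S) (j k : Fin m) (hjk : j ≠ k) :
    (gPhi F m (Function.update (Function.update (1 : Fin m → GL (Fin 2) F) j s) k s⁻¹)) ^ 2
      ∈ ⁅gWk S T, gWk S T⁆ := by
  obtain ⟨t, ht, htk⟩ := htr k j
  have hd : gPhi F m (Function.update (1 : Fin m → GL (Fin 2) F) k s) ∈ gW S T :=
    w1b_gPhi_mem S T _ (w1b_upd_mem S s hs k)
  have hx : gPsi F m t ∈ gWk S T := w1b_gPsi_mem_k S T t ht
  have hc : gPsi F m t * gPhi F m (Function.update 1 k s) * (gPsi F m t)⁻¹
      * (gPhi F m (Function.update 1 k s))⁻¹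
      = gPhi F m (Function.update (Function.update (1 : Fin m → GL (Fin 2) F) j s) k s⁻¹) := by
    rw [gPsi_conj, ← map_inv, ← map_mul]
    congr 1
    funext i
    rw [Pi.mul_apply, Pi.inv_apply, Function.comp_apply]
    by_cases hik : i = k
    · rw [hik, Function.update_self, Function.update_self]
      have hne : t⁻¹ k ≠ k := by
        intro h
        apply hjk
        rw [← htk]
        have h' : t (t⁻¹ k) = t k := congrArg t h
        have h'' : t (t⁻¹ k) = k := t.apply_symm_apply k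
        rw [h''] at h'
        exact h'.symm
      rw [Function.update_of_ne hne, Pi.one_apply, one_mul]
    · rw [Function.update_of_ne hik, Function.update_of_ne hik, Pi.one_apply, inv_one, mul_one]
      by_cases hij : i = j
      · have h' : t⁻¹ i = k := by rw [hij, ← htk]; exact t.symm_apply_apply k
        rw [h', Function.update_self, hij, Function.update_self]
      · have hne : t⁻¹ i ≠ k := by
          intro h
          apply hij
          rw [← htk, ← h]; exact (t.apply_symm_apply i).symm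
        rw [Function.update_of_ne hne, Function.update_of_ne hij, Pi.one_apply, Pi.one_apply]
  rw [← hc]
  generalize gPhi F m (Function.update (1 : Fin m → GL (Fin 2) F) k s) = d at hd ⊢
  generalize hxx : gPsi F m t = x at hx ⊢
  have hx2 : x ^ 2 ∈ ⁅gWk S T, gWk S T⁆ := by
    rw [← hxx]; exact w1b_sq_a S T hT t ht
  have hcK : x * d * x⁻¹ * d⁻¹ ∈ gWk S T := by
    have hxW : x ∈ gW S T := ((w1b_mem_gWk S T x).mp hx).1
    unfold gWk
    rw [Subgroup.mem_inf]
    refine ⟨mul_mem (mul_mem (mul_mem hxW hd) (inv_mem hxW)) (inv_mem hd), ?_⟩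
    rw [MonoidHom.mem_ker, map_mul, map_mul, map_mul, map_inv, map_inv, mul_inv_cancel_comm,
      mul_inv_cancel]
  have e : (x * d * x⁻¹ * d⁻¹) ^ 2
      = ⁅x, x * d * x⁻¹ * d⁻¹⁆⁻¹ * (x ^ 2 * (d * (x ^ 2)⁻¹ * d⁻¹)) := by
    rw [commutatorElement_def, pow_two, pow_two]; group
  rw [e]
  exact mul_mem (inv_mem (Subgroup.commutator_mem_commutator hx hcK))
    (mul_mem hx2 (w1b_conj_mem S T d hd _ (inv_mem hx2)))

/-- the generating set -/
def w1bX (S : Subgroup (GL (Fin 2) F)) (T : Subgroup (Equiv.Perm (Fin m))) :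
    Set (GL (Fin 2 × Fin m) F) :=
  {y | (∃ t ∈ T, y = gPsi F m t) ∨
    (∃ h : Fin m → GL (Fin 2) F, (∀ k, h k ∈ gQ S) ∧ y = gPhi F m h) ∨
    (∃ s ∈ S, ∃ j k : Fin m, j ≠ k ∧
      y = gPhi F m (Function.update (Function.update (1 : Fin m → GL (Fin 2) F) j s) k s⁻¹))}

/-- block diagonal elements of determinant one are generated -/
theorem w1b_gen (S : Subgroup (GL (Fin 2) F)) (T : Subgroup (Equiv.Perm (Fin m)))
    (k0 : Fin m) (A : Finset (Fin m)) :
    ∀ g : Fin m → GL (Fin 2) F, (∀ k, g k ∈ S) → (∀ k, k ∉ A → k ≠ k0 → g k = 1) →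
      (∏ k, ((g k : GL (Fin 2) F) : Matrix (Fin 2) (Fin 2) F).det = 1) →
      gPhi F m g ∈ Subgroup.closure (w1bX S T) := by
  induction A using Finset.induction_on with
  | empty =>
    intro g hg h1 hdet
    apply Subgroup.subset_closure
    refine Or.inr (Or.inl ⟨g, ?_, rfl⟩)
    intro k
    by_cases hk : k = k0
    · rw [mem_gQ]
      refine ⟨hg k, ?_⟩
      rw [← hdet, Finset.prod_eq_single k0, hk]
      · intro b _ hb
        rw [h1 b (Finset.notMem_empty b) hb]
        simp
      · intro h; exact absurd (Finset.mem_univ _) h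
    · rw [h1 k (Finset.notMem_empty k) hk]; exact one_mem _
  | insert a A' ha ih =>
    intro g hg h1 hdet
    by_cases hak : a = k0
    · apply ih g hg _ hdet
      intro k hk hk0
      apply h1 k _ hk0
      rw [Finset.mem_insert]
      rintro (h | h)
      · exact hk0 (h.trans hak)
      · exact hk h
    · have he : gPhi F m (Function.update (Function.update (1 : Fin m → GL (Fin 2) F) a (g a)⁻¹) k0 ((g a)⁻¹)⁻¹)
          ∈ Subgroup.closure (w1bX S T) :=
        Subgroup.subset_closure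
          (Or.inr (Or.inr ⟨(g a)⁻¹, inv_mem (hg a), a, k0, hak, rfl⟩))
      have h2 : gPhi F m (g * Function.update (Function.update (1 : Fin m → GL (Fin 2) F) a (g a)⁻¹) k0 ((g a)⁻¹)⁻¹)
          ∈ Subgroup.closure (w1bX S T) := by
        apply ih
        · intro k
          rw [Pi.mul_apply]
          refine mul_mem (hg k) ?_
          by_cases hk : k = k0
          · rw [hk, Function.update_self]; exact inv_mem (inv_mem (hg a))
          · rw [Function.update_of_ne hk]
            by_cases hka : k = a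
            · rw [hka, Function.update_self]; exact inv_mem (hg a)
            · rw [Function.update_of_ne hka]; exact one_mem _
        · intro k hk hk0
          rw [Pi.mul_apply, Function.update_of_ne hk0]
          by_cases hka : k = a
          · rw [hka, Function.update_self, mul_inv_cancel]
          · rw [Function.update_of_ne hka, Pi.one_apply, mul_one]
            apply h1 k _ hk0
            rw [Finset.mem_insert]
            rintro (h | h)
            · exact hka h
            · exact hk h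
        · have hsplit : ∏ k, (((g * Function.update
              (Function.update (1 : Fin m → GL (Fin 2) F) a (g a)⁻¹) k0
              ((g a)⁻¹)⁻¹) k : GL (Fin 2) F) : Matrix (Fin 2) (Fin 2) F).det
              = (∏ k, ((g k : GL (Fin 2) F) : Matrix (Fin 2) (Fin 2) F).det) *
                ∏ k, ((Function.update (Function.update (1 : Fin m → GL (Fin 2) F) a (g a)⁻¹) k0
                  ((g a)⁻¹)⁻¹ k : GL (Fin 2) F) : Matrix (Fin 2) (Fin 2) F).det := by
            rw [← Finset.prod_mul_distrib]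
            apply Finset.prod_congr rfl
            intro k _
            rw [Pi.mul_apply, Units.val_mul, Matrix.det_mul]
          rw [hsplit, hdet, one_mul, Finset.prod_eq_mul a k0 hak]
          · rw [Function.update_self, Function.update_of_ne hak, Function.update_self,
              ← Matrix.det_mul, ← Units.val_mul, mul_inv_cancel]
            simp
          · intro c _ hc
            rw [Function.update_of_ne hc.2, Function.update_of_ne hc.1]
            simp
          · intro h; exact absurd (Finset.mem_univ _) h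
          · intro h; exact absurd (Finset.mem_univ _) h
      have h3 : gPhi F m g
          = gPhi F m (g * Function.update (Function.update (1 : Fin m → GL (Fin 2) F) a (g a)⁻¹) k0 ((g a)⁻¹)⁻¹)
            * (gPhi F m (Function.update (Function.update (1 : Fin m → GL (Fin 2) F) a (g a)⁻¹) k0 ((g a)⁻¹)⁻¹))⁻¹ := by
        rw [map_mul, mul_inv_cancel_right]
      rw [h3]
      exact mul_mem h2 (inv_mem he)

/-- PIECE W1B (transitive `T`) -/
theorem gWk_sq_trans (S : Subgroup (GL (Fin 2) F)) (T : Subgroup (Equiv.Perm (Fin m)))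
    (hQ : ∀ s ∈ gQ S, s ^ 2 ∈ ⁅gQ S, gQ S⁆)
    (hT : ∀ t ∈ T, t ^ 2 ∈ ⁅T, T⁆) (htr : ∀ a b : Fin m, ∃ t ∈ T, t a = b) :
    ∀ x ∈ gWk S T, x ^ 2 ∈ ⁅gWk S T, gWk S T⁆ := by
  apply w1b_sq_of_closure (gWk S T) (w1bX S T)
  · rintro y (⟨t, ht, rfl⟩ | ⟨h, hh, rfl⟩ | ⟨s, hs, j, k, hjk, rfl⟩)
    · exact w1b_gPsi_mem_k S T t ht
    · exact w1b_gPhi_mem_k S T h hh
    · rw [SetLike.mem_coe, w1b_mem_gWk]
      refine ⟨w1b_gPhi_mem S T _ ?_, ?_⟩
      · intro i
        by_cases hik : i = k
        · rw [hik, Function.update_self]; exact inv_mem hs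
        · rw [Function.update_of_ne hik]
          exact w1b_upd_mem S s hs j i
      · rw [det_gPhi, Finset.prod_eq_mul j k hjk]
        · rw [Function.update_of_ne hjk, Function.update_self, Function.update_self,
            ← Matrix.det_mul, ← Units.val_mul, mul_inv_cancel]
          simp
        · intro c _ hc
          rw [Function.update_of_ne hc.2, Function.update_of_ne hc.1]
          simp
        · intro h; exact absurd (Finset.mem_univ _) h
        · intro h; exact absurd (Finset.mem_univ _) h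
  · intro x hx
    rw [w1b_mem_gWk] at hx
    obtain ⟨g, hg, σ, hσ, rfl⟩ := (gW_mem_iff S T x).mp hx.1
    have hdet : ∏ k, ((g k : GL (Fin 2) F) : Matrix (Fin 2) (Fin 2) F).det = 1 := by
      have h2 := hx.2
      rw [Units.val_mul, Matrix.det_mul, det_gPhi, det_gPsi, mul_one] at h2
      exact h2
    refine mul_mem ?_ (Subgroup.subset_closure (Or.inl ⟨σ, hσ, rfl⟩))
    rcases isEmpty_or_nonempty (Fin m) with hE | ⟨⟨k0⟩⟩
    · have h1 : g = 1 := Subsingleton.elim g 1
      rw [h1, map_one]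
      exact one_mem _
    · exact w1b_gen S T k0 Finset.univ g hg (fun k hk => absurd (Finset.mem_univ k) hk) hdet
  · rintro y (⟨t, ht, rfl⟩ | ⟨h, hh, rfl⟩ | ⟨s, hs, j, k, hjk, rfl⟩)
    · exact w1b_sq_a S T hT t ht
    · exact w1b_sq_b S T hQ h hh
    · exact w1b_sq_c S T hT htr s hs j k hjk

end Cfsg.Agent.Helper46.GSylW1B
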