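import Mathlib
import Cfsg.Agent.Helper40.KGLDefs
import Cfsg.Agent.Helper40.KSLDefs
import Cfsg.Agent.Helper46.KSLDiag

/-!
# Helper46: piece B8b of CALL S2479 (`det_eq_prod_det_mulQ`)
-/

set_option autoImplicit false

namespace Cfsg.Agent.Helper46

open Polynomial Cfsg.Agent.Helper40.KGL Cfsg.Agent.Helper40.KSL
open scoped DirectSum
open Classical

universe u v

/-- PIECE B8b -/
theorem det_eq_prod_det_mulQ {F : Type u} [Field F] {n : ℕ} (g : GL (Fin n) F)
    {ι : Type u} [Fintype ι] (p : ι → F[X]) (e : ι → ℕ) (hp : ∀ i, (p i).Monic)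
    (ψ : Module.AEval' (Matrix.toLin' (g : Matrix (Fin n) (Fin n) F)) ≃ₗ[F[X]]
      ⨁ i, F[X] ⧸ Submodule.span F[X] {p i ^ e i}) :
    (g : Matrix (Fin n) (Fin n) F).det = ∏ i, LinearMap.det (mulQ (p i ^ e i) X) := by
  rw [← LinearMap.det_toLin', ← kslC_X p e _ ψ, ksl_det_C p e _ ψ hp]

end Cfsg.Agent.Helper46
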