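import Cfsg.Agent.Helper71.McLGDefs
import Cfsg.Prelude.Def_Solvable

/-!
Piece U of CALL S5075 (helper71): `O_p(H) = 1` kills unipotent normal closures.
-/

set_option autoImplicit false

namespace Cfsg.Agent.Helper46.McL

open Module Cfsg.Agent.Helper71.McL

variable {p : ℕ} [Fact p.Prime] {V : Type*} [AddCommGroup V] [Module (ZMod p) V]

/-- The subgroup of the elements of `H` acting trivially on `U` and on `V / U`. -/
def unipSub (H : Subgroup (V ≃ₗ[ZMod p] V)) (U : Submodule (ZMod p) V) : Subgroup ↥H where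
  carrier := {n : ↥H | (∀ x : V, (n : V ≃ₗ[ZMod p] V) x - x ∈ U) ∧
    ∀ x ∈ U, (n : V ≃ₗ[ZMod p] V) x = x}
  mul_mem' := by
    rintro a b ⟨ha1, ha2⟩ ⟨hb1, hb2⟩
    refine ⟨fun x => ?_, fun x hx => ?_⟩
    · have h : ((a * b : ↥H) : V ≃ₗ[ZMod p] V) x - x
          = ((a : V ≃ₗ[ZMod p] V) ((b : V ≃ₗ[ZMod p] V) x) - (b : V ≃ₗ[ZMod p] V) x)
            + ((b : V ≃ₗ[ZMod p] V) x - x) := by
        rw [Subgroup.coe_mul, LinearEquiv.mul_apply]; abel
      rw [h]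
      exact U.add_mem (ha1 _) (hb1 x)
    · rw [Subgroup.coe_mul, LinearEquiv.mul_apply, hb2 x hx, ha2 x hx]
  one_mem' := by
    refine ⟨fun x => ?_, fun x _ => ?_⟩
    · have h : ((1 : ↥H) : V ≃ₗ[ZMod p] V) x - x = 0 := by
        rw [Subgroup.coe_one, LinearEquiv.coe_one, id, sub_self]
      rw [h]; exact U.zero_mem
    · rw [Subgroup.coe_one, LinearEquiv.coe_one, id]
  inv_mem' := by
    rintro a ⟨ha1, ha2⟩
    have key : ∀ x : V, (a : V ≃ₗ[ZMod p] V) (((a⁻¹ : ↥H) : V ≃ₗ[ZMod p] V) x) = x := by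
      intro x
      rw [← LinearEquiv.mul_apply, ← Subgroup.coe_mul, mul_inv_cancel, Subgroup.coe_one,
        LinearEquiv.coe_one, id]
    refine ⟨fun x => ?_, fun x hx => ?_⟩
    · have h := ha1 (((a⁻¹ : ↥H) : V ≃ₗ[ZMod p] V) x)
      rw [key x] at h
      have h' : ((a⁻¹ : ↥H) : V ≃ₗ[ZMod p] V) x - x
          = -(x - ((a⁻¹ : ↥H) : V ≃ₗ[ZMod p] V) x) := by abel
      rw [h']
      exact U.neg_mem h
    · apply (a : V ≃ₗ[ZMod p] V).injective
      rw [key x, ha2 x hx]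

theorem unip (H : Subgroup (V ≃ₗ[ZMod p] V)) (hOp : Cfsg.pCore p ↥H = ⊥)
    (U : Submodule (ZMod p) V) (hU : InvG H U) (g : V ≃ₗ[ZMod p] V) (hg : g ∈ H)
    (h1 : ∀ x : V, g x - x ∈ U) (h2 : ∀ x ∈ U, g x = x) : g = 1 := by
  have hp : p.Prime := Fact.out
  -- normality
  have hnorm : (unipSub H U).Normal := by
    constructor
    rintro n ⟨hn1, hn2⟩ h
    have key : ∀ x : V, (h : V ≃ₗ[ZMod p] V) (((h⁻¹ : ↥H) : V ≃ₗ[ZMod p] V) x) = x := by
      intro x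
      rw [← LinearEquiv.mul_apply, ← Subgroup.coe_mul, mul_inv_cancel, Subgroup.coe_one,
        LinearEquiv.coe_one, id]
    refine ⟨fun x => ?_, fun x hx => ?_⟩
    · have e : ((h * n * h⁻¹ : ↥H) : V ≃ₗ[ZMod p] V) x - x
          = (h : V ≃ₗ[ZMod p] V) ((n : V ≃ₗ[ZMod p] V) (((h⁻¹ : ↥H) : V ≃ₗ[ZMod p] V) x)
              - ((h⁻¹ : ↥H) : V ≃ₗ[ZMod p] V) x) := by
        rw [map_sub, key x, Subgroup.coe_mul, Subgroup.coe_mul, LinearEquiv.mul_apply,
          LinearEquiv.mul_apply]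
      rw [e]
      exact hU _ h.2 _ (hn1 _)
    · have hx' : ((h⁻¹ : ↥H) : V ≃ₗ[ZMod p] V) x ∈ U := hU _ (h⁻¹).2 x hx
      rw [Subgroup.coe_mul, Subgroup.coe_mul, LinearEquiv.mul_apply, LinearEquiv.mul_apply,
        hn2 _ hx', key x]
  -- p-group
  have hpg : IsPGroup p (unipSub H U) := by
    rintro ⟨n, hn1, hn2⟩
    refine ⟨1, ?_⟩
    have hpow : ∀ (k : ℕ) (x : V), ((n : V ≃ₗ[ZMod p] V) ^ k) x
        = x + k • ((n : V ≃ₗ[ZMod p] V) x - x) := by
      intro k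
      induction k with
      | zero => intro x; simp
      | succ k ih =>
        intro x
        rw [pow_succ', LinearEquiv.mul_apply, ih x, map_add, map_nsmul, hn2 _ (hn1 x), succ_nsmul]
        abel
    have hnp : (n : V ≃ₗ[ZMod p] V) ^ p = 1 := by
      ext x
      rw [hpow p x, LinearEquiv.coe_one, id]
      have : p • ((n : V ≃ₗ[ZMod p] V) x - x) = 0 := by
        rw [← Nat.cast_smul_eq_nsmul (ZMod p), ZMod.natCast_self, zero_smul]
      rw [this, add_zero]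
    rw [pow_one]
    apply Subtype.ext
    apply Subtype.ext
    rw [Subgroup.coe_pow, Subgroup.coe_pow]
    exact hnp
  have hle : unipSub H U ≤ Cfsg.pCore p ↥H := le_sSup ⟨hnorm, hpg⟩
  rw [hOp] at hle
  have hmem : (⟨g, hg⟩ : ↥H) ∈ unipSub H U := ⟨h1, h2⟩
  have := hle hmem
  rw [Subgroup.mem_bot] at this
  exact congrArg Subtype.val this

end Cfsg.Agent.Helper46.McL
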