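import Cfsg.Agent.Helper71.McLGDefs

/-!
Piece Z0 of CALL S5075 (helper71): the conclusion of S5075 for the trivial group.
-/

set_option autoImplicit false

namespace Cfsg.Agent.Helper46.McL

open Module Cfsg.Agent.Helper71.McL

variable {p : ℕ} [Fact p.Prime] {V : Type*} [AddCommGroup V] [Module (ZMod p) V]

theorem pack_trivial [Finite V] (H : Subgroup (V ≃ₗ[ZMod p] V)) (hH : H = ⊥) :
    ∃ (n : ℕ) (W : Fin (n + 1) → Submodule (ZMod p) V) (K : Fin n → Subgroup (V ≃ₗ[ZMod p] V)),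
      1 ≤ n ∧ DirectSum.IsInternal W ∧
      (∀ h ∈ H, ∀ i, (W i).map (h : V →ₗ[ZMod p] V) = W i) ∧
      (∀ j, K j ≤ H ∧ ((K j).subgroupOf H).Normal) ∧ ⨆ j, K j = H ∧
      (∀ j, K j ⊓ (⨆ j' ∈ {j' : Fin n | j' ≠ j}, K j') = ⊥) ∧
      (∀ j j', j ≠ j' → ∀ a ∈ K j, ∀ b ∈ K j', a * b = b * a) ∧
      (∀ j, ∀ h ∈ K j, ∀ i : Fin (n + 1), i ≠ j.succ → ∀ v ∈ W i, h v = v) ∧
      (∀ j, ∃ ρ : ↥(K j) →* (↥(W j.succ) ≃ₗ[ZMod p] ↥(W j.succ)),
        (∀ (h : ↥(K j)) (v : ↥(W j.succ)), ((ρ h v : ↥(W j.succ)) : V) = (h : V ≃ₗ[ZMod p] V) (v : V)) ∧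
        ((ρ.range : Set (↥(W j.succ) ≃ₗ[ZMod p] ↥(W j.succ))) =
            {f : ↥(W j.succ) ≃ₗ[ZMod p] ↥(W j.succ) | LinearMap.det (f : ↥(W j.succ) →ₗ[ZMod p] ↥(W j.succ)) = 1} ∨
          ∃ B : LinearMap.BilinForm (ZMod p) ↥(W j.succ), B.IsAlt ∧ B.Nondegenerate ∧
            (ρ.range : Set (↥(W j.succ) ≃ₗ[ZMod p] ↥(W j.succ))) = {f : ↥(W j.succ) ≃ₗ[ZMod p] ↥(W j.succ) | ∀ x y, B (f x) (f y) = B x y})) := by
  subst hH
  have hW0 : (Fin.cons ⊤ (fun _ => ⊥) : Fin (1 + 1) → Submodule (ZMod p) V) 0 = ⊤ := rfl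
  have hW1 : ∀ j : Fin 1,
      (Fin.cons ⊤ (fun _ => ⊥) : Fin (1 + 1) → Submodule (ZMod p) V) j.succ = ⊥ := fun j => rfl
  refine ⟨1, Fin.cons ⊤ (fun _ => ⊥), fun _ => ⊥, le_refl 1, ?_, ?_, ?_, ?_, ?_, ?_, ?_, ?_⟩
  · -- internal direct sum
    rw [DirectSum.isInternal_submodule_iff_iSupIndep_and_iSup_eq_top]
    constructor
    · intro i
      rcases Fin.eq_zero_or_eq_succ i with rfl | ⟨j, rfl⟩
      · have : (⨆ j, ⨆ (_ : j ≠ 0),
            (Fin.cons ⊤ (fun _ => ⊥) : Fin (1 + 1) → Submodule (ZMod p) V) j) = ⊥ := by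
          rw [eq_bot_iff]
          refine iSup_le fun j => iSup_le fun hj => ?_
          rcases Fin.eq_zero_or_eq_succ j with rfl | ⟨k, rfl⟩
          · exact absurd rfl hj
          · rw [hW1 k]
        rw [this]
        exact disjoint_bot_right
      · rw [hW1 j]
        exact disjoint_bot_left
    · rw [eq_top_iff]
      exact le_iSup_of_le 0 (le_of_eq hW0.symm)
  · intro h hh i
    rw [Subgroup.mem_bot] at hh
    subst hh
    exact Submodule.map_id _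
  · intro j
    refine ⟨le_refl _, ?_⟩
    rw [Subgroup.bot_subgroupOf]
    infer_instance
  · exact iSup_bot
  · intro j
    exact bot_inf_eq _
  · intro j j' _ a ha b hb
    rw [Subgroup.mem_bot] at ha hb
    rw [ha, hb]
  · intro j h hh i _ v _
    rw [Subgroup.mem_bot] at hh
    rw [hh]
    rfl
  · intro j
    have hsub : Subsingleton
        ↥((Fin.cons ⊤ (fun _ => ⊥) : Fin (1 + 1) → Submodule (ZMod p) V) j.succ) := by
      rw [hW1 j]; infer_instance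
    have hall : ∀ f : ↥((Fin.cons ⊤ (fun _ => ⊥) : Fin (1 + 1) → Submodule (ZMod p) V) j.succ)
        ≃ₗ[ZMod p] ↥((Fin.cons ⊤ (fun _ => ⊥) : Fin (1 + 1) → Submodule (ZMod p) V) j.succ),
        f = 1 := by
      intro f
      ext x
      exact congrArg Subtype.val (Subsingleton.elim _ _)
    refine ⟨1, ?_, Or.inl ?_⟩
    · intro h v
      have hh : (h : V ≃ₗ[ZMod p] V) = 1 := Subgroup.mem_bot.mp h.2
      rw [hh]
      rfl
    · ext f
      rw [hall f]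
      constructor
      · intro _
        rw [Set.mem_ofPred_eq, LinearEquiv.coe_toLinearMap_one, LinearMap.det_id]
      · intro _
        exact Subgroup.one_mem _

end Cfsg.Agent.Helper46.McL
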