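import Mathlib

set_option autoImplicit false

namespace Cfsg.Agent.Helper46

/-- "every square is a commutator product" is invariant under isomorphism -/
theorem osyl_sq_transport {G H : Type*} [Group G] [Group H] (e : G ≃* H)
    (h : ∀ x : G, x ^ 2 ∈ commutator G) : ∀ y : H, y ^ 2 ∈ commutator H := by
  intro y
  have h3 : (commutator G).map e.toMonoidHom = commutator H := by
    rw [commutator_def, commutator_def, Subgroup.map_commutator,
      Subgroup.map_top_of_surjective _ e.surjective]
  have h1 := Subgroup.mem_map_of_mem e.toMonoidHom (h (e.symm y))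
  rw [h3] at h1
  simpa using h1

/-- the subgroup form of "squares are commutator products" gives the group form -/
theorem osyl_sq_of_subgroup {G : Type*} [Group G] (N : Subgroup G)
    (hsq : ∀ x ∈ N, x ^ 2 ∈ ⁅N, N⁆) : ∀ x : N, x ^ 2 ∈ commutator N := by
  intro t
  have hc : (commutator N).map N.subtype = ⁅N, N⁆ := by
    rw [commutator_def, Subgroup.map_commutator, ← MonoidHom.range_eq_map, Subgroup.range_subtype]
  have h1 := hsq t.1 t.2
  rw [← hc] at h1
  obtain ⟨w, hw, e⟩ := h1
  have : w = t ^ 2 := Subtype.ext e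
  rw [← this]
  exact hw

theorem osyl_of_subgroup {G : Type*} [Group G] [Finite G] (S N : Subgroup G)
    (hS : IsPGroup 2 S) (hNS : N ≤ S) (hNΩ : N ≤ commutator G)
    (hidx : (commutator G).index = 4) (hcard : Nat.card S ≤ 4 * Nat.card N)
    (hsyl : (Nat.card G).factorization 2 ≤ (Nat.card S).factorization 2)
    (hsq : ∀ x ∈ N, x ^ 2 ∈ ⁅N, N⁆) :
    ∀ (P : Sylow 2 ↥(commutator G)) (x : ↥(P : Subgroup ↥(commutator G))),
      x ^ 2 ∈ commutator ↥(P : Subgroup ↥(commutator G)) := by
  have : Fact (Nat.Prime 2) := ⟨Nat.prime_two⟩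
  intro P
  have hN2 : IsPGroup 2 N := hS.to_le hNS
  have hN'2 : IsPGroup 2 (N.subgroupOf (commutator G)) := hN2.comap_subtype
  have hcN' : Nat.card (N.subgroupOf (commutator G)) = Nat.card N :=
    Nat.card_congr (Subgroup.subgroupOfEquivOfLe hNΩ).toEquiv
  have hG : Nat.card (commutator G) * 4 = Nat.card G := by
    rw [← hidx]; exact Subgroup.card_mul_index _
  have h4 : (4 : ℕ).factorization 2 = 2 := by
    rw [show (4 : ℕ) = 2 ^ 2 by norm_num, Nat.Prime.factorization_pow Nat.prime_two]
    simp
  have hv : (Nat.card G).factorization 2 = (Nat.card (commutator G)).factorization 2 + 2 := by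
    rw [← hG, Nat.factorization_mul Nat.card_pos.ne' (by norm_num), Finsupp.add_apply, h4]
  obtain ⟨a, ha⟩ := hS.exists_card_eq
  obtain ⟨b, hb⟩ := hN2.exists_card_eq
  have hva : (Nat.card S).factorization 2 = a := by
    rw [ha, Nat.Prime.factorization_pow Nat.prime_two]; simp
  have hab : a ≤ b + 2 := by
    rw [ha, hb] at hcard
    have h5 : (2 : ℕ) ^ a ≤ 2 ^ (b + 2) := by
      rw [pow_add]; linarith
    exact (Nat.pow_le_pow_iff_right (by norm_num)).mp h5
  have hle : (Nat.card (commutator G)).factorization 2 ≤ b := by omega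
  have h1 : 2 ^ b ∣ Nat.card (commutator G) := by
    rw [← hb, ← hcN']; exact Subgroup.card_subgroup_dvd_card _
  have h2 : b ≤ (Nat.card (commutator G)).factorization 2 :=
    (Nat.Prime.pow_dvd_iff_le_factorization Nat.prime_two Nat.card_pos.ne').mp h1
  have hcard' : Nat.card (N.subgroupOf (commutator G)) =
      2 ^ (Nat.card (commutator G)).factorization 2 := by
    rw [hcN', hb, le_antisymm h2 hle]
  obtain ⟨Q, hQ⟩ : ∃ Q : Sylow 2 (commutator G),
      (Q : Subgroup (commutator G)) = N.subgroupOf (commutator G) :=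
    ⟨Sylow.ofCard _ hcard', rfl⟩
  have e : N ≃* (P : Subgroup (commutator G)) :=
    ((Subgroup.subgroupOfEquivOfLe hNΩ).symm.trans (MulEquiv.subgroupCongr hQ.symm)).trans
      (Sylow.equiv Q P)
  exact osyl_sq_transport e (osyl_sq_of_subgroup N hsq)

end Cfsg.Agent.Helper46
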