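import Mathlib

/-!
# CALL S2343 (helper6), PIECE FAITH
-/

set_option autoImplicit false

namespace Cfsg.Agent.Helper46

/-- PIECE FAITH -/
theorem rmd43_faith {G : Type*} [Group G] [IsSimpleGroup G] {V : Type*} [AddCommGroup V]
    [Module ℂ V] (ρ : Representation ℂ G V) (h : ∃ g : G, ρ g ≠ 1) :
    ∀ g : G, ρ g = 1 → g = 1 := by
  intro g hg
  have hker : (MonoidHom.ker (ρ : G →* (V →ₗ[ℂ] V))).Normal := MonoidHom.normal_ker _
  rcases hker.eq_bot_or_eq_top with hb | ht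
  · have hmem : g ∈ MonoidHom.ker (ρ : G →* (V →ₗ[ℂ] V)) := MonoidHom.mem_ker.mpr hg
    rw [hb] at hmem
    exact Subgroup.mem_bot.mp hmem
  · exfalso
    obtain ⟨g₀, hg₀⟩ := h
    apply hg₀
    have hmem : g₀ ∈ MonoidHom.ker (ρ : G →* (V →ₗ[ℂ] V)) := by rw [ht]; exact Subgroup.mem_top _
    exact MonoidHom.mem_ker.mp hmem

end Cfsg.Agent.Helper46
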